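import Mathlib

/-!
Auxiliary facts for k-closures of affine groups.
-/

set_option autoImplicit false

namespace CfsgLib.Fixity

/-- Some linear automorphism carries one independent family to another. -/
theorem exists_linearEquiv_of_linearIndependent {K V ι : Type*} [Field K] [AddCommGroup V]
    [Module K V] [FiniteDimensional K V] {u w : ι → V} (hu : LinearIndependent K u)
    (hw : LinearIndependent K w) : ∃ A : V ≃ₗ[K] V, ∀ i, A (u i) = w i := by
  let bu := Module.Basis.span hu
  let bw := Module.Basis.span hw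
  obtain ⟨g, hg⟩ := Submodule.exists_linearEquiv_restrict_eq (bu.equiv bw (Equiv.refl ι))
  refine ⟨g, fun i => ?_⟩
  have h1 := hg (bu i)
  rw [Module.Basis.equiv_apply, Equiv.refl_apply, Module.Basis.span_apply, Module.Basis.span_apply] at h1
  exact h1.symm

/-- A permutation of a vector space over a prime field of odd order which on every triple of
points agrees with an affine map is affine. -/
theorem isAffine_of_triples {p : ℕ} [Fact p.Prime] (hp : p ≠ 2) {V : Type*} [AddCommGroup V]
    [Module (ZMod p) V] (σ : Equiv.Perm V)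
    (h : ∀ t : Fin 3 → V, ∃ (A : V ≃ₗ[ZMod p] V) (b : V), ∀ i, σ (t i) = A (t i) + b) :
    ∃ (A : V ≃ₗ[ZMod p] V), ∀ x, σ x = A x + σ 0 := by
  have h2 : (2 : ZMod p) ≠ 0 := by
    intro h0
    have h0' : ((2 : ℕ) : ZMod p) = 0 := by exact_mod_cast h0
    rw [ZMod.natCast_eq_zero_iff] at h0'
    exact hp ((Nat.prime_dvd_prime_iff_eq Fact.out Nat.prime_two).1 h0')
  set τ : V → V := fun x => σ x - σ 0 with hτ
  have hsmul : ∀ (c : ZMod p) (x : V), τ (c • x) = c • τ x := by
    intro c x
    obtain ⟨A, b, hA⟩ := h ![0, x, c • x]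
    have h0 := hA 0; have h1 := hA 1; have h3 := hA 2
    simp at h0 h1 h3
    simp only [hτ]
    rw [h0, h1, h3]; module
  have hmid : ∀ x y : V, τ ((2 : ZMod p)⁻¹ • (x + y)) = (2 : ZMod p)⁻¹ • (τ x + τ y) := by
    intro x y
    obtain ⟨A, b, hA⟩ := h ![x, y, (2 : ZMod p)⁻¹ • (x + y)]
    have h0 := hA 0; have h1 := hA 1; have h3 := hA 2
    simp at h0 h1 h3
    simp only [hτ]
    rw [h0, h1, show σ ((2 : ZMod p)⁻¹ • (x + y)) = A ((2 : ZMod p)⁻¹ • (x + y)) + b by
      simpa using h3]
    rw [map_smul, map_add]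
    have e : b - σ 0 = (2 : ZMod p)⁻¹ • ((b - σ 0) + (b - σ 0)) := by
      rw [← two_smul (ZMod p) (b - σ 0), smul_smul, inv_mul_cancel₀ h2, one_smul]
    calc (2 : ZMod p)⁻¹ • (A x + A y) + b - σ 0
        = (2 : ZMod p)⁻¹ • (A x + A y) + (b - σ 0) := by abel
      _ = (2 : ZMod p)⁻¹ • (A x + A y) + (2 : ZMod p)⁻¹ • ((b - σ 0) + (b - σ 0)) := by rw [← e]
      _ = _ := by rw [← smul_add]; congr 1; abel
  have hadd : ∀ x y, τ (x + y) = τ x + τ y := by
    intro x y
    have := hmid x y
    rw [hsmul] at this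
    exact smul_right_injective V (inv_ne_zero h2) this
  let L : V →ₗ[ZMod p] V :=
    { toFun := τ
      map_add' := hadd
      map_smul' := hsmul }
  have hbij : Function.Bijective L :=
    (Equiv.subRight (σ 0)).bijective.comp σ.bijective
  exact ⟨LinearEquiv.ofBijective L hbij, fun x => (sub_add_cancel (σ x) (σ 0)).symm⟩

/-- Two distinct nonzero vectors over the field of two elements are independent. -/
theorem linearIndependent_pair_two {V : Type*} [AddCommGroup V] [Module (ZMod 2) V] {x y : V}
    (hx : x ≠ 0) (hy : y ≠ 0) (hxy : x ≠ y) : LinearIndependent (ZMod 2) ![x, y] := by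
  rw [linearIndependent_fin2]
  refine ⟨by simpa using hy, fun a => ?_⟩
  have ha : a = 0 ∨ a = 1 := by revert a; decide
  rcases ha with rfl | rfl
  · simpa using hx.symm
  · simpa using hxy.symm

end CfsgLib.Fixity
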