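import Mathlib
import Cfsg.Agent.Lib.Fixity.Count

/-!
Lower bounds for the number of derangements of a transitive group (the bound `2|G|/n` of Guralnick
and Wan), by elementary means.
-/

set_option autoImplicit false
set_option linter.style.haveILetI false

namespace CfsgLib.Fixity.Bound

open MulAction Finset

variable {G Ω : Type*} [Group G] [MulAction G Ω] [Fintype G] [Fintype Ω] [DecidableEq Ω]

/-- The fixed points of an element, as a finset. -/
def fixFin (g : G) : Finset Ω := univ.filter fun w => g • w = w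

/-- The number of fixed points. -/
def fixNum (Ω : Type*) [MulAction G Ω] [Fintype Ω] [DecidableEq Ω] (g : G) : ℕ :=
  (fixFin (Ω := Ω) g).card

theorem mem_fixFin {g : G} {w : Ω} : w ∈ fixFin g ↔ g • w = w := by simp [fixFin]

theorem fixNum_eq_natCard (g : G) : fixNum Ω g = Nat.card (fixedBy Ω g) := by
  rw [Nat.card_coe_set_eq, fixNum, ← Set.ncard_coe_finset]
  congr 1
  ext w
  simp [fixFin]

theorem fixNum_conj (u g : G) : fixNum Ω (u * g * u⁻¹) = fixNum Ω g := by
  refine Finset.card_bij' (fun w _ => u⁻¹ • w) (fun w _ => u • w) ?_ ?_ ?_ ?_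
  · intro w hw
    rw [mem_fixFin] at hw ⊢
    rw [mul_smul, mul_smul] at hw
    conv_rhs => rw [← hw, inv_smul_smul]
  · intro w hw
    rw [mem_fixFin] at hw ⊢
    rw [mul_smul, mul_smul, inv_smul_smul, hw]
  · intro w _; simp
  · intro w _; simp

/-- The derangements. -/
def derSet (G Ω : Type*) [Group G] [MulAction G Ω] [Fintype G] [Fintype Ω] [DecidableEq Ω] :
    Finset G := univ.filter fun g => fixNum Ω g = 0

theorem card_derSet : (derSet G Ω).card = Nat.card {g : G // ∀ ω : Ω, g • ω ≠ ω} := by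
  classical
  rw [Nat.card_eq_fintype_card, Fintype.card_subtype]
  congr 1
  ext g
  simp [derSet, fixNum, fixFin, Finset.filter_eq_empty_iff]

theorem sum_fixNum (htr : IsPretransitive G Ω) [Nonempty Ω] :
    ∑ g : G, fixNum Ω g = Fintype.card G := by
  rw [Fintype.card_eq_nat_card, ← CfsgLib.Fixity.sum_fix_eq_card (G := G) (Ω := Ω) htr]
  exact Finset.sum_congr rfl fun g _ => fixNum_eq_natCard g

theorem derangement_identity (htr : IsPretransitive G Ω) [Nonempty Ω] :
    ((Fintype.card Ω : ℚ)) * (derSet G Ω).card =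
      (∑ g : G, ((fixNum Ω g : ℚ)) * ((fixNum Ω g : ℚ) - 1)) +
      ∑ g ∈ univ.filter (fun g : G => fixNum Ω g ≠ 0),
        ((fixNum Ω g : ℚ) - 1) * ((Fintype.card Ω : ℚ) - fixNum Ω g) := by
  have hpt : ∀ g : G, (fixNum Ω g : ℚ) * ((fixNum Ω g : ℚ) - 1) +
      ((fixNum Ω g : ℚ) - 1) * ((Fintype.card Ω : ℚ) - fixNum Ω g) =
      (Fintype.card Ω : ℚ) * fixNum Ω g - Fintype.card Ω := fun g => by ring
  have h1 : ∑ g : G, ((fixNum Ω g : ℚ) - 1) * ((Fintype.card Ω : ℚ) - fixNum Ω g) =
      - ∑ g : G, (fixNum Ω g : ℚ) * ((fixNum Ω g : ℚ) - 1) := by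
    rw [eq_neg_iff_add_eq_zero, ← Finset.sum_add_distrib]
    have hs : ∑ g : G, (fixNum Ω g : ℚ) = Fintype.card G := by exact_mod_cast sum_fixNum htr
    rw [Finset.sum_congr rfl fun g _ => (add_comm _ _).trans (hpt g), Finset.sum_sub_distrib,
      ← Finset.mul_sum, hs, Finset.sum_const, nsmul_eq_mul, Finset.card_univ]
    ring
  rw [← Finset.sum_filter_add_sum_filter_not univ (fun g : G => fixNum Ω g = 0)] at h1
  have h2 : ∑ g ∈ univ.filter (fun g : G => fixNum Ω g = 0),
      ((fixNum Ω g : ℚ) - 1) * ((Fintype.card Ω : ℚ) - fixNum Ω g) =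
      -((derSet G Ω).card * (Fintype.card Ω : ℚ)) := by
    rw [Finset.sum_congr rfl (g := fun _ => -(Fintype.card Ω : ℚ)) fun g hg => by
      rw [(Finset.mem_filter.1 hg).2]; simp]
    rw [Finset.sum_const, nsmul_eq_mul, derSet]
    ring
  rw [h2] at h1
  simp only [ne_eq]
  linarith

/-- If the group is not 2-transitive, there are many derangements. -/
theorem bound_of_not_two_transitive (htr : IsPretransitive G Ω) [Nonempty Ω]
    (h2 : ¬ IsMultiplyPretransitive G Ω 2) :
    2 * Fintype.card G ≤ Fintype.card Ω * (derSet G Ω).card := by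
  classical
  letI inst : MulAction G {q : Ω × Ω // q.1 ≠ q.2} :=
    { smul := fun g q => ⟨g • q.1, fun h => q.2 (MulAction.injective g h)⟩
      one_smul := fun q => Subtype.ext (one_smul G q.1)
      mul_smul := fun g h q => Subtype.ext (mul_smul g h q.1) }
  have hfix : ∀ g : G, (fixNum Ω g : ℚ) * ((fixNum Ω g : ℚ) - 1) =
      Nat.card (fixedBy {q : Ω × Ω // q.1 ≠ q.2} g) := by
    intro g
    have h : Nat.card (fixedBy {q : Ω × Ω // q.1 ≠ q.2} g) = (fixFin (Ω := Ω) g).offDiag.card := by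
      rw [← Nat.card_eq_finsetCard]
      refine Nat.card_congr
        { toFun := fun q => ⟨q.1.1, Finset.mem_offDiag.2 ⟨mem_fixFin.2 ?_, mem_fixFin.2 ?_, q.1.2⟩⟩
          invFun := fun q => ⟨⟨q.1, (Finset.mem_offDiag.1 q.2).2.2⟩, Subtype.ext
            (Prod.ext (mem_fixFin.1 (Finset.mem_offDiag.1 q.2).1)
              (mem_fixFin.1 (Finset.mem_offDiag.1 q.2).2.1))⟩
          left_inv := fun q => rfl
          right_inv := fun q => rfl }
      · exact congrArg Prod.fst (congrArg Subtype.val q.2)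
      · exact congrArg Prod.snd (congrArg Subtype.val q.2)
    have hle : (fixFin (Ω := Ω) g).card ≤ (fixFin (Ω := Ω) g).card * (fixFin (Ω := Ω) g).card :=
      Nat.le_mul_self _
    rw [h, Finset.offDiag_card, Nat.cast_sub hle, Nat.cast_mul]
    show (fixNum Ω g : ℚ) * _ = (fixNum Ω g : ℚ) * fixNum Ω g - fixNum Ω g
    ring
  have hsum := CfsgLib.Fixity.sum_fix_eq_orbits_mul G {q : Ω × Ω // q.1 ≠ q.2}
  have horb : 2 ≤ Nat.card (orbitRel.Quotient G {q : Ω × Ω // q.1 ≠ q.2}) := by
    by_contra hlt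
    apply h2
    rw [is_two_pretransitive_iff]
    intro a b c d hab hcd
    haveI := Finite.card_le_one_iff_subsingleton.1
      (show Nat.card (orbitRel.Quotient G {q : Ω × Ω // q.1 ≠ q.2}) ≤ 1 by omega)
    have : (Quotient.mk'' (⟨(c, d), hcd⟩ : {q : Ω × Ω // q.1 ≠ q.2}) :
        orbitRel.Quotient G {q : Ω × Ω // q.1 ≠ q.2}) = Quotient.mk'' ⟨(a, b), hab⟩ :=
      Subsingleton.elim _ _
    obtain ⟨g, hg⟩ := Quotient.eq''.1 this
    have hg' := congrArg Subtype.val hg
    exact ⟨g, congrArg Prod.fst hg', congrArg Prod.snd hg'⟩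
  have hid := derangement_identity (G := G) (Ω := Ω) htr
  have hnn : 0 ≤ ∑ g ∈ univ.filter (fun g : G => fixNum Ω g ≠ 0),
      ((fixNum Ω g : ℚ) - 1) * ((Fintype.card Ω : ℚ) - fixNum Ω g) := by
    refine Finset.sum_nonneg fun g hg => mul_nonneg ?_ ?_
    · rw [sub_nonneg, Nat.one_le_cast]
      exact Nat.one_le_iff_ne_zero.2 (Finset.mem_filter.1 hg).2
    · rw [sub_nonneg, Nat.cast_le]
      exact Finset.card_le_univ _
  have h3 : (2 * Fintype.card G : ℚ) ≤ ∑ g : G, ((fixNum Ω g : ℚ)) * ((fixNum Ω g : ℚ) - 1) := by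
    rw [Finset.sum_congr rfl fun g _ => hfix g, ← Nat.cast_sum, hsum]
    rw [Fintype.card_eq_nat_card]
    exact_mod_cast Nat.mul_le_mul_right _ horb
  have : ((2 * Fintype.card G : ℕ) : ℚ) ≤ ((Fintype.card Ω * (derSet G Ω).card : ℕ) : ℚ) := by
    push_cast
    linarith
  exact_mod_cast this

/-- The pointwise stabiliser of two points, as a finset. -/
def pairStab [DecidableEq G] (a b : Ω) : Finset G :=
  univ.filter fun g : G => g • a = a ∧ g • b = b

theorem sum_pairs (h2 : IsMultiplyPretransitive G Ω 2) [DecidableEq G] {a b : Ω} (hab : a ≠ b)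
    (φ : ℕ → ℚ) :
    ∑ g : G, ((fixNum Ω g : ℚ)) * ((fixNum Ω g : ℚ) - 1) * φ (fixNum Ω g) =
      (Fintype.card Ω : ℚ) * ((Fintype.card Ω : ℚ) - 1) * ∑ g ∈ pairStab (G := G) a b, φ (fixNum Ω g) := by
  classical
  have h1 : ∀ g : G, ((fixNum Ω g : ℚ)) * ((fixNum Ω g : ℚ) - 1) * φ (fixNum Ω g) =
      ∑ q ∈ (univ : Finset Ω).offDiag, if g • q.1 = q.1 ∧ g • q.2 = q.2 then φ (fixNum Ω g) else 0 := by
    intro g
    rw [← Finset.sum_filter, Finset.sum_const, nsmul_eq_mul]
    congr 1
    rw [show ((univ : Finset Ω).offDiag.filter fun q => g • q.1 = q.1 ∧ g • q.2 = q.2) =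
      (fixFin (Ω := Ω) g).offDiag by ext q; simp [Finset.mem_offDiag, fixFin]; tauto]
    rw [Finset.offDiag_card, Nat.cast_sub (Nat.le_mul_self _), Nat.cast_mul, fixNum]
    ring
  rw [Finset.sum_congr rfl fun g _ => h1 g, Finset.sum_comm]
  have h2' : ∀ q ∈ (univ : Finset Ω).offDiag,
      (∑ g : G, if g • q.1 = q.1 ∧ g • q.2 = q.2 then φ (fixNum Ω g) else 0) =
        ∑ g ∈ pairStab (G := G) a b, φ (fixNum Ω g) := by
    intro q hq
    obtain ⟨u, hu1, hu2⟩ := (is_two_pretransitive_iff.1 h2) (Finset.mem_offDiag.1 hq).2.2 hab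
    rw [← Finset.sum_filter]
    refine Finset.sum_bij' (fun g _ => u * g * u⁻¹) (fun g _ => u⁻¹ * g * u) ?_ ?_ ?_ ?_ ?_
    · intro g hg
      simp only [pairStab, Finset.mem_filter, Finset.mem_univ, true_and] at hg ⊢
      constructor
      · rw [← hu1, mul_smul, inv_smul_smul, mul_smul, hg.1]
      · rw [← hu2, mul_smul, inv_smul_smul, mul_smul, hg.2]
    · intro g hg
      simp only [pairStab, Finset.mem_filter, Finset.mem_univ, true_and] at hg ⊢
      constructor
      · rw [mul_smul, mul_smul, hu1, hg.1, ← hu1, inv_smul_smul]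
      · rw [mul_smul, mul_smul, hu2, hg.2, ← hu2, inv_smul_smul]
    · intro g _; group
    · intro g _; group
    · intro g _; rw [fixNum_conj]
  rw [Finset.sum_congr rfl h2', Finset.sum_const, nsmul_eq_mul, Finset.offDiag_card,
    Nat.cast_sub (Nat.le_mul_self _), Nat.cast_mul, Finset.card_univ]
  ring

/-- Reduction of the bound to an average over a two-point stabiliser. -/
theorem bound_of_two_transitive (h2 : IsMultiplyPretransitive G Ω 2) [DecidableEq G] {a b : Ω}
    (hab : a ≠ b) :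
    Fintype.card G = Fintype.card Ω * (Fintype.card Ω - 1) * (pairStab (G := G) a b).card ∧
    (Fintype.card Ω : ℚ) * (derSet G Ω).card =
      (Fintype.card Ω : ℚ) * ((Fintype.card Ω : ℚ) - 1) *
        ∑ g ∈ pairStab (G := G) a b, (Fintype.card Ω : ℚ) / fixNum Ω g := by
  classical
  haveI : Nonempty Ω := ⟨a⟩
  haveI := h2
  have htr : IsPretransitive G Ω := isPretransitive_of_is_two_pretransitive
  have hn : 1 ≤ Fintype.card Ω := Fintype.card_pos
  constructor
  · have h := sum_pairs h2 hab fun _ => (1 : ℚ)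
    have hsum : ∑ g : G, (fixNum Ω g : ℚ) * ((fixNum Ω g : ℚ) - 1) * 1 = Fintype.card G := by
      letI inst : MulAction G {q : Ω × Ω // q.1 ≠ q.2} :=
        { smul := fun g q => ⟨g • q.1, fun h => q.2 (MulAction.injective g h)⟩
          one_smul := fun q => Subtype.ext (one_smul G q.1)
          mul_smul := fun g h q => Subtype.ext (mul_smul g h q.1) }
      haveI : Nonempty {q : Ω × Ω // q.1 ≠ q.2} := ⟨⟨(a, b), hab⟩⟩
      have htr2 : IsPretransitive G {q : Ω × Ω // q.1 ≠ q.2} := ⟨fun q q' => by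
        obtain ⟨g, h1, h2⟩ := (is_two_pretransitive_iff.1 h2) q.2 q'.2
        exact ⟨g, Subtype.ext (Prod.ext h1 h2)⟩⟩
      have hs := CfsgLib.Fixity.sum_fix_eq_card (G := G) (Ω := {q : Ω × Ω // q.1 ≠ q.2}) htr2
      rw [Fintype.card_eq_nat_card (α := G), ← hs, Nat.cast_sum]
      refine Finset.sum_congr rfl fun g _ => ?_
      have hcard : Nat.card (fixedBy {q : Ω × Ω // q.1 ≠ q.2} g) = (fixFin (Ω := Ω) g).offDiag.card := by
        rw [← Nat.card_eq_finsetCard]
        refine Nat.card_congr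
          { toFun := fun q => ⟨q.1.1, Finset.mem_offDiag.2 ⟨mem_fixFin.2 ?_, mem_fixFin.2 ?_, q.1.2⟩⟩
            invFun := fun q => ⟨⟨q.1, (Finset.mem_offDiag.1 q.2).2.2⟩, Subtype.ext
              (Prod.ext (mem_fixFin.1 (Finset.mem_offDiag.1 q.2).1)
                (mem_fixFin.1 (Finset.mem_offDiag.1 q.2).2.1))⟩
            left_inv := fun q => rfl
            right_inv := fun q => rfl }
        · exact congrArg Prod.fst (congrArg Subtype.val q.2)
        · exact congrArg Prod.snd (congrArg Subtype.val q.2)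
      have hle : (fixFin (Ω := Ω) g).card ≤ (fixFin (Ω := Ω) g).card * (fixFin (Ω := Ω) g).card :=
        Nat.le_mul_self _
      rw [hcard, Finset.offDiag_card, Nat.cast_sub hle, Nat.cast_mul]
      show (fixNum Ω g : ℚ) * _ * 1 = (fixNum Ω g : ℚ) * fixNum Ω g - fixNum Ω g
      ring
    rw [hsum, Finset.sum_const, nsmul_eq_mul, mul_one] at h
    have h' : ((Fintype.card G : ℕ) : ℚ) =
        ((Fintype.card Ω * (Fintype.card Ω - 1) * (pairStab (G := G) a b).card : ℕ) : ℚ) := by
      rw [h, Nat.cast_mul, Nat.cast_mul, Nat.cast_sub hn, Nat.cast_one]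
    exact_mod_cast h'
  · rw [derangement_identity htr, ← sum_pairs h2 hab fun x => (Fintype.card Ω : ℚ) / x,
      Finset.sum_filter, ← Finset.sum_add_distrib]
    refine Finset.sum_congr rfl fun g _ => ?_
    by_cases h : fixNum Ω g = 0
    · simp [h]
    · rw [if_pos h]
      have : (fixNum Ω g : ℚ) ≠ 0 := Nat.cast_ne_zero.2 h
      field_simp
      ring

end CfsgLib.Fixity.Bound
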