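import Mathlib
import Cfsg.Agent.Lib.Fixity.DerangementBound

/-!
A transitive group of degree `n ≥ 7` with nontrivial two-point stabilisers has at least `2|G|/n`
derangements (Guralnick–Wan), proved without the classification.
-/

set_option autoImplicit false
set_option linter.style.haveILetI false
set_option linter.unusedSectionVars false

namespace CfsgLib.Fixity.Bound

open MulAction Finset

variable {G Ω : Type*} [Group G] [MulAction G Ω] [Fintype G] [Fintype Ω] [DecidableEq Ω]
  [DecidableEq G]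

/-- The number of elements of `A` fixing `x`. -/
def cntFix (A : Finset G) (x : Ω) : ℕ := (A.filter fun g => g • x = x).card

theorem mem_pairStab {a b : Ω} {g : G} : g ∈ pairStab (G := G) a b ↔ g • a = a ∧ g • b = b := by
  simp [pairStab]

theorem one_mem_pairStab (a b : Ω) : (1 : G) ∈ pairStab (G := G) a b :=
  mem_pairStab.2 ⟨one_smul _ _, one_smul _ _⟩

theorem mul_mem_pairStab {a b : Ω} {g h : G} (hg : g ∈ pairStab (G := G) a b)
    (hh : h ∈ pairStab (G := G) a b) : g * h ∈ pairStab (G := G) a b := by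
  rw [mem_pairStab] at *
  exact ⟨by rw [mul_smul, hh.1, hg.1], by rw [mul_smul, hh.2, hg.2]⟩

theorem inv_mem_pairStab {a b : Ω} {g : G} (hg : g ∈ pairStab (G := G) a b) :
    g⁻¹ ∈ pairStab (G := G) a b := by
  rw [mem_pairStab] at *
  exact ⟨by rw [inv_smul_eq_iff, hg.1], by rw [inv_smul_eq_iff, hg.2]⟩

/-- The points fixed by the whole two-point stabiliser: the line through the two points. -/
def lineFin (G : Type*) {Ω : Type*} [Group G] [MulAction G Ω] [Fintype G] [Fintype Ω]
    [DecidableEq Ω] [DecidableEq G] (a b : Ω) : Finset Ω :=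
  univ.filter fun x => ∀ g ∈ pairStab (G := G) a b, g • x = x

theorem mem_lineFin {a b x : Ω} :
    x ∈ lineFin G a b ↔ ∀ g ∈ pairStab (G := G) a b, g • x = x := by simp [lineFin]

theorem left_mem_lineFin (a b : Ω) : a ∈ lineFin G a b :=
  mem_lineFin.2 fun _ hg => (mem_pairStab.1 hg).1

theorem right_mem_lineFin (a b : Ω) : b ∈ lineFin G a b :=
  mem_lineFin.2 fun _ hg => (mem_pairStab.1 hg).2

/-- Orbit-stabiliser counting inside a two-point stabiliser. -/
theorem cnt_mul_orbit (a b x : Ω) :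
    cntFix (pairStab (G := G) a b) x * ((pairStab (G := G) a b).image (· • x)).card =
      (pairStab (G := G) a b).card := by
  set A := pairStab (G := G) a b
  rw [Finset.card_eq_sum_card_image (fun g : G => g • x) A, mul_comm,
    Finset.sum_const_nat (m := cntFix A x)]
  intro y hy
  obtain ⟨h, hh, rfl⟩ := Finset.mem_image.1 hy
  refine Finset.card_bij' (fun g _ => h⁻¹ * g) (fun g _ => h * g) ?_ ?_ ?_ ?_
  · intro g hg
    rw [Finset.mem_filter] at hg ⊢
    exact ⟨mul_mem_pairStab (inv_mem_pairStab hh) hg.1, by rw [mul_smul, hg.2, inv_smul_smul]⟩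
  · intro g hg
    rw [Finset.mem_filter] at hg ⊢
    exact ⟨mul_mem_pairStab hh hg.1, by rw [mul_smul, hg.2]⟩
  · intro g _; exact mul_inv_cancel_left _ _
  · intro g _; exact inv_mul_cancel_left _ _

theorem sum_fixNum_eq_sum_cnt (A : Finset G) :
    ∑ g ∈ A, fixNum Ω g = ∑ x : Ω, cntFix A x := by
  simp only [fixNum, fixFin, cntFix, Finset.card_filter]
  exact Finset.sum_comm

/-- Every orbit with at least three points costs in the sum of the fixed point numbers. -/
theorem two_mul_sum_fix_le (a b : Ω) (U : Finset Ω) (e : ℕ)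
    (hU : ∀ x ∈ U, x ∉ lineFin G a b)
    (he : e * (pairStab (G := G) a b).card + ∑ x ∈ U, 2 * cntFix (pairStab (G := G) a b) x ≤
      U.card * (pairStab (G := G) a b).card) :
    2 * (∑ g ∈ pairStab (G := G) a b, fixNum Ω g) + e * (pairStab (G := G) a b).card ≤
      (pairStab (G := G) a b).card * (Fintype.card Ω + (lineFin G a b).card) := by
  set A := pairStab (G := G) a b
  set F := lineFin G a b
  rw [sum_fixNum_eq_sum_cnt]
  have hin : ∀ x ∈ F, cntFix A x = A.card := fun x hx => by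
    rw [cntFix, Finset.filter_true_of_mem]
    exact fun g hg => mem_lineFin.1 hx g hg
  have hout : ∀ x, x ∉ F → 2 * cntFix A x ≤ A.card := fun x hx => by
    rw [← cnt_mul_orbit a b x, mul_comm 2]
    refine Nat.mul_le_mul_left _ ?_
    rw [mem_lineFin] at hx
    push Not at hx
    obtain ⟨g, hg, hgx⟩ := hx
    exact Finset.one_lt_card.2 ⟨x, Finset.mem_image.2 ⟨1, one_mem_pairStab a b, one_smul _ _⟩,
      g • x, Finset.mem_image.2 ⟨g, hg, rfl⟩, Ne.symm hgx⟩
  have hUF : U ⊆ Fᶜ := fun x hx => Finset.mem_compl.2 (hU x hx)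
  have h1 := Finset.sum_add_sum_compl F (fun x => cntFix A x)
  rw [Finset.sum_congr rfl hin, Finset.sum_const, smul_eq_mul] at h1
  have h2 := Finset.sum_sdiff hUF (f := fun x => 2 * cntFix A x)
  rw [← Finset.mul_sum Fᶜ] at h2
  have h3 : ∑ x ∈ Fᶜ \ U, 2 * cntFix A x ≤ (Fᶜ \ U).card * A.card :=
    Finset.sum_le_card_nsmul _ _ _ fun x hx =>
      hout x (Finset.mem_compl.1 (Finset.mem_sdiff.1 hx).1)
  have h4 := Finset.card_sdiff_of_subset hUF
  have h5 := Finset.card_compl F
  have h6 := Finset.card_le_card hUF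
  have h7 := Finset.card_le_univ F
  have h8 : (Fᶜ \ U).card + U.card + 2 * F.card = Fintype.card Ω + F.card := by omega
  have h9 : A.card * ((Fᶜ \ U).card + U.card + 2 * F.card) =
      (Fᶜ \ U).card * A.card + U.card * A.card + 2 * (F.card * A.card) := by ring
  rw [h8] at h9
  rw [h9]
  omega

/-- The tangent line bound for the sum of the reciprocals. -/
theorem sum_div_ge_of_sum_le (a b : Ω) (hs : 2 ≤ (pairStab (G := G) a b).card)
    (h : (∑ g ∈ pairStab (G := G) a b, fixNum Ω g) * (2 * (pairStab (G := G) a b).card - 1) ≤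
      Fintype.card Ω * (pairStab (G := G) a b).card * (pairStab (G := G) a b).card) :
    2 * ((pairStab (G := G) a b).card : ℚ) ≤
      ∑ g ∈ pairStab (G := G) a b, (Fintype.card Ω : ℚ) / fixNum Ω g := by
  set A := pairStab (G := G) a b
  have h1 : ((∑ g ∈ A, fixNum Ω g : ℕ) : ℚ) * (2 * (A.card : ℚ) - 1) ≤
      (Fintype.card Ω : ℚ) * A.card * A.card := by
    have h' : (((∑ g ∈ A, fixNum Ω g) * (2 * A.card - 1) : ℕ) : ℚ) ≤
        ((Fintype.card Ω * A.card * A.card : ℕ) : ℚ) := by exact_mod_cast h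
    rw [Nat.cast_mul, Nat.cast_sub (show 1 ≤ 2 * A.card by omega), Nat.cast_mul, Nat.cast_mul, Nat.cast_mul] at h'
    push_cast at h'
    push_cast
    exact h'
  rw [← Finset.add_sum_erase A _ (one_mem_pairStab a b)] at h1 ⊢
  have hone : fixNum Ω (1 : G) = Fintype.card Ω := by simp [fixNum, fixFin]
  rw [hone] at h1 ⊢
  set n : ℚ := (Fintype.card Ω : ℚ) with hn
  set s : ℚ := (A.card : ℚ) with hsdef
  have hn0 : 0 < n := by rw [hn]; exact_mod_cast Fintype.card_pos_iff.2 ⟨a⟩
  have hs2 : 2 ≤ s := by rw [hsdef]; exact_mod_cast hs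
  set c : ℚ := n * (s - 1) / (2 * s - 1)
  have hc : 0 < c := div_pos (mul_pos hn0 (by linarith)) (by linarith)
  have htan : ∀ g ∈ A.erase 1, 2 * n / c - n * (fixNum Ω g : ℚ) / c ^ 2 ≤ n / fixNum Ω g := by
    intro g hg
    have hgA := mem_pairStab.1 (Finset.mem_of_mem_erase hg)
    have hpos : (0 : ℚ) < fixNum Ω g := by
      exact_mod_cast Finset.card_pos.2 ⟨a, mem_fixFin.2 hgA.1⟩
    rw [← sub_nonneg]
    have : n / (fixNum Ω g : ℚ) - (2 * n / c - n * (fixNum Ω g : ℚ) / c ^ 2) =
        n * ((fixNum Ω g : ℚ) - c) ^ 2 / ((fixNum Ω g : ℚ) * c ^ 2) := by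
      field_simp
      ring
    rw [this]
    positivity
  have h2 := Finset.sum_le_sum htan
  rw [Finset.sum_sub_distrib, Finset.sum_const, nsmul_eq_mul, ← Finset.sum_div, ← Finset.mul_sum,
    Finset.card_erase_of_mem (one_mem_pairStab a b), Nat.cast_sub (show 1 ≤ A.card by omega)] at h2
  push_cast at h1 h2 ⊢
  rw [div_self hn0.ne']
  set S : ℚ := ∑ g ∈ A.erase 1, (fixNum Ω g : ℚ)
  have e1 : (s - 1) * (2 * n / c) = 2 * (2 * s - 1) := by
    have : s - 1 ≠ 0 := by linarith
    have : 2 * s - 1 ≠ 0 := by linarith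
    simp only [c]
    field_simp
  have e2 : n * S / c ^ 2 ≤ 2 * s - 1 := by
    rw [div_le_iff₀ (by positivity)]
    have hc' : (2 * s - 1) * c ^ 2 = n ^ 2 * (s - 1) ^ 2 / (2 * s - 1) := by
      have : 2 * s - 1 ≠ 0 := by linarith
      simp only [c]
      field_simp
    rw [hc', le_div_iff₀ (by linarith)]
    nlinarith [h1, hn0]
  linarith

theorem sum_div_ge_of_fix_le (a b : Ω) (r : ℚ) (hr : ∀ g ∈ pairStab (G := G) a b, g ≠ 1 →
      r * (fixNum Ω g : ℚ) ≤ (Fintype.card Ω : ℚ))
    (h : 2 * ((pairStab (G := G) a b).card : ℚ) ≤ 1 + (((pairStab (G := G) a b).card : ℚ) - 1) * r) :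
    2 * ((pairStab (G := G) a b).card : ℚ) ≤
      ∑ g ∈ pairStab (G := G) a b, (Fintype.card Ω : ℚ) / fixNum Ω g := by
  set A := pairStab (G := G) a b
  refine h.trans ?_
  rw [← Finset.add_sum_erase A _ (one_mem_pairStab a b)]
  have hn0 : (0 : ℚ) < Fintype.card Ω := by exact_mod_cast Fintype.card_pos_iff.2 ⟨a⟩
  have hone : fixNum Ω (1 : G) = Fintype.card Ω := by simp [fixNum, fixFin]
  rw [hone, div_self hn0.ne']
  have hle : ((A.card : ℚ) - 1) * r ≤ ∑ g ∈ A.erase 1, (Fintype.card Ω : ℚ) / fixNum Ω g := by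
    have hc := Finset.card_nsmul_le_sum (A.erase 1) (fun g => (Fintype.card Ω : ℚ) / fixNum Ω g) r
      fun g hg => by
        have hgA := mem_pairStab.1 (Finset.mem_of_mem_erase hg)
        have hpos : (0 : ℚ) < fixNum Ω g := by
          exact_mod_cast Finset.card_pos.2 ⟨a, mem_fixFin.2 hgA.1⟩
        rw [le_div_iff₀ hpos]
        exact hr g (Finset.mem_of_mem_erase hg) (Finset.ne_of_mem_erase hg)
    rw [nsmul_eq_mul, Finset.card_erase_of_mem (one_mem_pairStab a b),
      Nat.cast_sub (Finset.card_pos.2 ⟨1, one_mem_pairStab a b⟩), Nat.cast_one] at hc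
    exact hc
  linarith

variable [FaithfulSMul G Ω]

theorem eq_one_of_smul {g : G} (h : ∀ x : Ω, g • x = x) : g = 1 :=
  eq_of_smul_eq_smul (α := Ω) fun x => by rw [one_smul]; exact h x

theorem card_pairStab_eq (h2 : IsMultiplyPretransitive G Ω 2) {a b c d : Ω} (hab : a ≠ b)
    (hcd : c ≠ d) : (pairStab (G := G) c d).card = (pairStab (G := G) a b).card := by
  obtain ⟨u, hu1, hu2⟩ := (is_two_pretransitive_iff.1 h2) hcd hab
  refine Finset.card_bij' (fun g _ => u * g * u⁻¹) (fun g _ => u⁻¹ * g * u) ?_ ?_ ?_ ?_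
  · intro g hg
    rw [mem_pairStab] at hg ⊢
    constructor
    · rw [← hu1, mul_smul, inv_smul_smul, mul_smul, hg.1]
    · rw [← hu2, mul_smul, inv_smul_smul, mul_smul, hg.2]
  · intro g hg
    rw [mem_pairStab] at hg ⊢
    constructor
    · rw [mul_smul, mul_smul, hu1, hg.1, ← hu1, inv_smul_smul]
    · rw [mul_smul, mul_smul, hu2, hg.2, ← hu2, inv_smul_smul]
  · intro g _; group
  · intro g _; group

theorem pairStab_eq_of_mem_line (h2 : IsMultiplyPretransitive G Ω 2) {a b c d : Ω} (hab : a ≠ b)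
    (hcd : c ≠ d) (hc : c ∈ lineFin G a b) (hd : d ∈ lineFin G a b) :
    pairStab (G := G) c d = pairStab (G := G) a b :=
  (Finset.eq_of_subset_of_card_le
    (fun g hg => mem_pairStab.2 ⟨mem_lineFin.1 hc g hg, mem_lineFin.1 hd g hg⟩)
    (card_pairStab_eq h2 hab hcd).le).symm

theorem card_lineFin_eq (h2 : IsMultiplyPretransitive G Ω 2) {a b c d : Ω} (hab : a ≠ b)
    (hcd : c ≠ d) : (lineFin G c d).card = (lineFin G a b).card := by
  obtain ⟨u, hu1, hu2⟩ := (is_two_pretransitive_iff.1 h2) hcd hab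
  refine Finset.card_bij' (fun x _ => u • x) (fun x _ => u⁻¹ • x) ?_ ?_ ?_ ?_
  · intro x hx
    rw [mem_lineFin] at hx ⊢
    intro g hg
    rw [mem_pairStab] at hg
    have := hx (u⁻¹ * g * u) (mem_pairStab.2
      ⟨by rw [mul_smul, mul_smul, hu1, hg.1, ← hu1, inv_smul_smul],
        by rw [mul_smul, mul_smul, hu2, hg.2, ← hu2, inv_smul_smul]⟩)
    rw [mul_smul, mul_smul, inv_smul_eq_iff] at this
    exact this
  · intro x hx
    rw [mem_lineFin] at hx ⊢
    intro g hg
    rw [mem_pairStab] at hg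
    have := hx (u * g * u⁻¹) (mem_pairStab.2
      ⟨by rw [← hu1, mul_smul, inv_smul_smul, mul_smul, hg.1],
        by rw [← hu2, mul_smul, inv_smul_smul, mul_smul, hg.2]⟩)
    rw [mul_smul, mul_smul] at this
    rw [eq_inv_smul_iff]
    exact this
  · intro x _; exact inv_smul_smul _ _
  · intro x _; exact smul_inv_smul _ _

/-- A fixed point set is a subspace: it has at most `(n - 1)/(k - 1)` points. -/
theorem fixNum_mul_le (h2 : IsMultiplyPretransitive G Ω 2) {a b : Ω} (hab : a ≠ b) {g : G}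
    (hg : g ≠ 1) : fixNum Ω g * ((lineFin G a b).card - 1) ≤ Fintype.card Ω - 1 := by
  obtain ⟨p, hp⟩ : ∃ p : Ω, g • p ≠ p := by
    by_contra h
    push Not at h
    exact hg (eq_one_of_smul h)
  have hdisj : Set.PairwiseDisjoint ↑(fixFin (Ω := Ω) g) fun q => (lineFin G p q).erase p := by
    intro q hq q' hq' hne
    rw [Finset.mem_coe, mem_fixFin] at hq hq'
    rw [Function.onFun, Finset.disjoint_left]
    intro y hy hy'
    rw [Finset.mem_erase] at hy hy'
    have hpq : p ≠ q := fun h => hp (by rw [h]; exact hq)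
    have hpq' : p ≠ q' := fun h => hp (by rw [h]; exact hq')
    have e1 := pairStab_eq_of_mem_line h2 hpq (Ne.symm hy.1) (left_mem_lineFin p q) hy.2
    have e2 := pairStab_eq_of_mem_line h2 hpq' (Ne.symm hy'.1) (left_mem_lineFin p q') hy'.2
    have hmem : q' ∈ lineFin G p q := mem_lineFin.2 fun h hh => by
      rw [← e1, e2] at hh
      exact (mem_pairStab.1 hh).2
    have e3 := pairStab_eq_of_mem_line h2 hpq hne (right_mem_lineFin p q) hmem
    have : g ∈ pairStab (G := G) p q := e3 ▸ mem_pairStab.2 ⟨hq, hq'⟩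
    exact hp (mem_pairStab.1 this).1
  have hcard : ∀ q ∈ fixFin (Ω := Ω) g,
      ((lineFin G p q).erase p).card = (lineFin G a b).card - 1 := by
    intro q hq
    rw [mem_fixFin] at hq
    rw [Finset.card_erase_of_mem (left_mem_lineFin p q),
      card_lineFin_eq h2 hab (fun h => hp (by rw [h]; exact hq))]
  have h1 : ((fixFin (Ω := Ω) g).biUnion fun q => (lineFin G p q).erase p).card ≤
      Fintype.card Ω - 1 := by
    rw [← Finset.card_univ, ← Finset.card_erase_of_mem (Finset.mem_univ p)]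
    refine Finset.card_le_card fun y hy => ?_
    obtain ⟨q, -, hy⟩ := Finset.mem_biUnion.1 hy
    exact Finset.mem_erase.2 ⟨(Finset.mem_erase.1 hy).1, Finset.mem_univ y⟩
  rwa [Finset.card_biUnion hdisj, Finset.sum_const_nat hcard] at h1

end CfsgLib.Fixity.Bound
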