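import Mathlib
import Cfsg.Agent.Lib.Fixity.DerangementWan

/-!
The case analysis for the bound `2|G|/n` on the derangements of a 2-transitive group.
-/

set_option autoImplicit false
set_option linter.style.haveILetI false
set_option linter.unusedSectionVars false

namespace CfsgLib.Fixity.Bound

open MulAction Finset

variable {G Ω : Type*} [Group G] [MulAction G Ω] [Fintype G] [Fintype Ω] [DecidableEq Ω]
  [DecidableEq G] [FaithfulSMul G Ω]

/-- The orbit of a point under the two-point stabiliser, as a finset. -/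
def pairOrbit (G : Type*) {Ω : Type*} [Group G] [MulAction G Ω] [Fintype G] [Fintype Ω]
    [DecidableEq Ω] [DecidableEq G] (a b x : Ω) : Finset Ω :=
  (pairStab (G := G) a b).image (· • x)

theorem mem_pairOrbit {a b x y : Ω} :
    y ∈ pairOrbit G a b x ↔ ∃ g ∈ pairStab (G := G) a b, g • x = y := by simp [pairOrbit]

theorem self_mem_pairOrbit (a b x : Ω) : x ∈ pairOrbit G a b x :=
  mem_pairOrbit.2 ⟨1, one_mem_pairStab a b, one_smul _ _⟩

theorem pairOrbit_eq_of_mem {a b x y : Ω} (hy : y ∈ pairOrbit G a b x) :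
    pairOrbit G a b y = pairOrbit G a b x := by
  obtain ⟨h, hh, rfl⟩ := mem_pairOrbit.1 hy
  ext z
  simp only [mem_pairOrbit]
  constructor
  · rintro ⟨g, hg, rfl⟩
    exact ⟨g * h, mul_mem_pairStab hg hh, by rw [mul_smul]⟩
  · rintro ⟨g, hg, rfl⟩
    exact ⟨g * h⁻¹, mul_mem_pairStab hg (inv_mem_pairStab hh),
      by rw [mul_smul, inv_smul_smul]⟩

theorem notMem_line_of_orbit {a b x y : Ω} (hy : y ∈ pairOrbit G a b x)
    (hx : 2 ≤ (pairOrbit G a b x).card) : y ∉ lineFin G a b := by
  intro hF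
  rw [← pairOrbit_eq_of_mem hy] at hx
  have h1 : pairOrbit G a b y ⊆ {y} := by
    intro z hz
    obtain ⟨g, hg, rfl⟩ := mem_pairOrbit.1 hz
    rw [Finset.mem_singleton]
    exact mem_lineFin.1 hF g hg
  have := Finset.card_le_card h1
  rw [Finset.card_singleton] at this
  omega

theorem sum_cnt_orbit (a b x : Ω) :
    ∑ y ∈ pairOrbit G a b x, 2 * cntFix (pairStab (G := G) a b) y =
      2 * (pairStab (G := G) a b).card := by
  rw [← cnt_mul_orbit a b x, Finset.sum_congr rfl fun y hy => ?_, Finset.sum_const, smul_eq_mul]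
  · show (pairOrbit G a b x).card * (2 * cntFix (pairStab (G := G) a b) x) = _
    rw [show ((pairStab (G := G) a b).image (· • x)) = pairOrbit G a b x from rfl]
    ring
  · have h1 := cnt_mul_orbit (G := G) a b y
    have h2 := cnt_mul_orbit (G := G) a b x
    rw [show ((pairStab (G := G) a b).image (· • y)) = pairOrbit G a b y from rfl,
      pairOrbit_eq_of_mem hy] at h1
    rw [show ((pairStab (G := G) a b).image (· • x)) = pairOrbit G a b x from rfl, ← h1] at h2
    rw [Nat.eq_of_mul_eq_mul_right (Finset.card_pos.2 ⟨x, self_mem_pairOrbit a b x⟩) h2]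

/-- The two-point stabiliser as a subgroup. -/
def pairSub (G : Type*) {Ω : Type*} [Group G] [MulAction G Ω] (a b : Ω) : Subgroup G :=
  stabilizer G a ⊓ stabilizer G b

theorem mem_pairSub {a b : Ω} {g : G} : g ∈ pairSub G a b ↔ g ∈ pairStab (G := G) a b := by
  rw [mem_pairStab]; rfl

theorem card_pairSub (a b : Ω) : Nat.card (pairSub G a b) = (pairStab (G := G) a b).card := by
  rw [← Nat.card_eq_finsetCard]
  exact Nat.card_congr (Equiv.subtypeEquivRight fun g => mem_pairSub)

/-- Either all orbits of the two-point stabiliser have at most two points, or the fixed point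
numbers sum to something small. -/
theorem orbit_dichotomy (h2 : IsMultiplyPretransitive G Ω 2) (hn : 7 ≤ Fintype.card Ω) {a b : Ω}
    (hab : a ≠ b) (hk : (lineFin G a b).card ≤ 3) :
    (∀ x : Ω, ∀ g ∈ pairStab (G := G) a b, ∀ h ∈ pairStab (G := G) a b,
        g • x ≠ x → h • x ≠ x → g • x = h • x) ∨
      2 * (∑ g ∈ pairStab (G := G) a b, fixNum Ω g) + 2 * (pairStab (G := G) a b).card ≤
        (pairStab (G := G) a b).card * (Fintype.card Ω + (lineFin G a b).card) := by
  by_cases hall : ∀ x : Ω, (pairOrbit G a b x).card ≤ 2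
  · left
    intro x g hg h hh hgx hhx
    by_contra hne
    have hsub : ({x, g • x, h • x} : Finset Ω) ⊆ pairOrbit G a b x := by
      simp only [Finset.insert_subset_iff, Finset.singleton_subset_iff]
      exact ⟨self_mem_pairOrbit a b x, mem_pairOrbit.2 ⟨g, hg, rfl⟩, mem_pairOrbit.2 ⟨h, hh, rfl⟩⟩
    have h3 := (Finset.card_le_card hsub).trans (hall x)
    rw [Finset.card_eq_three.2 ⟨x, g • x, h • x, Ne.symm hgx, Ne.symm hhx, hne, rfl⟩] at h3
    omega
  right
  push Not at hall
  obtain ⟨x, hx⟩ := hall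
  set A := pairStab (G := G) a b with hA
  set O := pairOrbit G a b x with hO
  by_cases h4 : 4 ≤ O.card
  · refine two_mul_sum_fix_le a b O 2 (fun y hy => notMem_line_of_orbit hy (show 2 ≤ O.card by omega)) ?_
    rw [sum_cnt_orbit, ← Nat.add_mul]
    exact Nat.mul_le_mul_right _ (by omega)
  have hO3 : O.card = 3 := by omega
  by_cases hother : ∃ y, y ∉ O ∧ 3 ≤ (pairOrbit G a b y).card
  · obtain ⟨y, hy, hy3⟩ := hother
    have hdisj : Disjoint O (pairOrbit G a b y) := by
      rw [Finset.disjoint_left]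
      intro z hz hz'
      apply hy
      rw [hO, ← pairOrbit_eq_of_mem hz, pairOrbit_eq_of_mem hz']
      exact self_mem_pairOrbit a b y
    refine two_mul_sum_fix_le a b (O ∪ pairOrbit G a b y) 2 (fun z hz => ?_) ?_
    · rcases Finset.mem_union.1 hz with hz | hz
      · exact notMem_line_of_orbit hz (show 2 ≤ O.card by omega)
      · exact notMem_line_of_orbit hz (show 2 ≤ (pairOrbit G a b y).card by omega)
    · rw [Finset.sum_union hdisj, Finset.card_union_of_disjoint hdisj, sum_cnt_orbit, sum_cnt_orbit,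
        ← Nat.add_mul, ← Nat.add_mul]
      exact Nat.mul_le_mul_right _ (by omega)
  push Not at hother
  -- an element of order three would be a three-cycle
  exfalso
  haveI : Fact (Nat.Prime 3) := ⟨Nat.prime_three⟩
  have h3 : 3 ∣ Nat.card (pairSub G a b) := by
    rw [card_pairSub, ← cnt_mul_orbit a b x]
    exact Dvd.dvd.mul_left (by rw [show ((pairStab (G := G) a b).image (· • x)) = O from rfl, hO3]) _
  obtain ⟨g, hg⟩ := exists_prime_orderOf_dvd_card' 3 h3
  have hgA : (g : G) ∈ A := mem_pairSub.1 g.2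
  have hg3 : orderOf (g : G) = 3 := by rw [Subgroup.orderOf_coe]; exact hg
  have hfix : ∀ y, y ∉ O → (g : G) • y = y := by
    intro y hy
    by_contra hne
    have hy2 : (pairOrbit G a b y).card ≤ 2 := by have := hother y hy; omega
    have hsub : ∀ z ∈ pairOrbit G a b y, z = y ∨ z = (g : G) • y := by
      intro z hz
      by_contra hcon
      push Not at hcon
      have hle : ({y, (g : G) • y, z} : Finset Ω) ⊆ pairOrbit G a b y := by
        simp only [Finset.insert_subset_iff, Finset.singleton_subset_iff]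
        exact ⟨self_mem_pairOrbit a b y, mem_pairOrbit.2 ⟨_, hgA, rfl⟩, hz⟩
      have h5 := (Finset.card_le_card hle).trans hy2
      rw [Finset.card_eq_three.2 ⟨y, _, z, Ne.symm hne, Ne.symm hcon.1, Ne.symm hcon.2, rfl⟩] at h5
      omega
    have hgg : (g : G) • (g : G) • y = y := by
      rcases hsub _ (mem_pairOrbit.2 ⟨(g : G) * g, mul_mem_pairStab hgA hgA, mul_smul _ _ _⟩) with h | h
      · exact h
      · exact absurd (MulAction.injective (g : G) h) hne
    apply hne
    calc (g : G) • y = (g : G) • (g : G) • (g : G) • y := by rw [hgg]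
      _ = ((g : G) ^ 3) • y := by rw [pow_succ, pow_succ, pow_one, mul_smul, mul_smul]
      _ = y := by rw [← hg3, pow_orderOf_eq_one, one_smul]
  set φ := MulAction.toPermHom G Ω
  have hne1 : φ (g : G) ≠ 1 := by
    intro h
    have : (g : G) = 1 := eq_one_of_smul (Ω := Ω) fun y => by
      have := Equiv.Perm.congr_fun h y
      simpa [φ] using this
    rw [this, orderOf_one] at hg3
    omega
  have hcycle : (φ (g : G)).IsThreeCycle := by
    rw [← card_support_eq_three_iff]
    refine le_antisymm ?_ ?_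
    · refine (Finset.card_le_card fun y hy => ?_).trans hO3.le
      by_contra hyO
      rw [Equiv.Perm.mem_support] at hy
      exact hy (hfix y hyO)
    · have hdvd : orderOf (φ (g : G)) ∣ 3 := hg3 ▸ orderOf_map_dvd φ (g : G)
      have hord : orderOf (φ (g : G)) = 3 := by
        rcases (Nat.dvd_prime Nat.prime_three).1 hdvd with h | h
        · exact absurd (orderOf_eq_one_iff.1 h) hne1
        · exact h
      obtain ⟨c, hc⟩ := Equiv.Perm.cycleType_prime_order (σ := φ (g : G)) (hord ▸ Nat.prime_three)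
      rw [← Equiv.Perm.sum_cycleType, hc, Multiset.sum_replicate, hord, smul_eq_mul]
      omega
  haveI := h2
  haveI : IsPretransitive φ.range Ω := by
    haveI : IsPretransitive G Ω := isPretransitive_of_is_two_pretransitive
    exact ⟨fun c d => by
      obtain ⟨u, hu⟩ := exists_smul_eq G c d
      exact ⟨⟨φ u, u, rfl⟩, hu⟩⟩
  have hprim : IsPreprimitive φ.range Ω := by
    apply isPreprimitive_of_is_two_pretransitive
    rw [is_two_pretransitive_iff]
    intro c d e f hcd hef
    obtain ⟨u, hu1, hu2⟩ := (is_two_pretransitive_iff.1 h2) hcd hef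
    exact ⟨⟨φ u, u, rfl⟩, hu1, hu2⟩
  have halt := Equiv.Perm.alternatingGroup_le_of_isPreprimitive_of_isThreeCycle_mem hprim hcycle
    ⟨(g : G), rfl⟩
  obtain ⟨y, hy⟩ : ∃ y, y ∉ lineFin G a b ∪ O := by
    by_contra h
    push Not at h
    have h5 : (Finset.univ : Finset Ω).card ≤ (lineFin G a b ∪ O).card :=
      Finset.card_le_card fun y _ => h y
    have h6 := Finset.card_union_le (lineFin G a b) O
    rw [Finset.card_univ] at h5
    omega
  rw [Finset.mem_union, not_or] at hy
  obtain ⟨z, hz, hzx⟩ := Finset.exists_mem_ne (show 1 < O.card by omega) x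
  have hxF := notMem_line_of_orbit (G := G) (self_mem_pairOrbit a b x) (show 2 ≤ O.card by omega)
  have hzF := notMem_line_of_orbit (G := G) hz (show 2 ≤ O.card by omega)
  have hxy : x ≠ y := fun h => hy.2 (h ▸ self_mem_pairOrbit a b x)
  have hyz : y ≠ z := fun h => hy.2 (h.symm ▸ hz)
  have hτ : Equiv.swap x y * Equiv.swap y z ∈ alternatingGroup Ω := by
    rw [Equiv.Perm.mem_alternatingGroup, map_mul, Equiv.Perm.sign_swap hxy, Equiv.Perm.sign_swap hyz]
    rfl
  obtain ⟨u, hu⟩ := halt hτ
  have hu' : ∀ w, u • w = (Equiv.swap x y * Equiv.swap y z) w := fun w => by rw [← hu]; rfl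
  have huA : u ∈ A := by
    rw [hA, mem_pairStab]
    have hfixτ : ∀ w ∈ lineFin G a b, u • w = w := fun w hw => by
      have hwy : w ≠ y := fun h => hy.1 (h ▸ hw)
      have hwz : w ≠ z := fun h => hzF (h ▸ hw)
      have hwx : w ≠ x := fun h => hxF (h ▸ hw)
      rw [hu', Equiv.Perm.mul_apply, Equiv.swap_apply_of_ne_of_ne hwy hwz,
        Equiv.swap_apply_of_ne_of_ne hwx hwy]
    exact ⟨hfixτ a (left_mem_lineFin a b), hfixτ b (right_mem_lineFin a b)⟩
  apply hy.2
  refine mem_pairOrbit.2 ⟨u, huA, ?_⟩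
  rw [hu', Equiv.Perm.mul_apply, Equiv.swap_apply_of_ne_of_ne hxy (Ne.symm hzx),
    Equiv.swap_apply_left]

/-- If all orbits have at most two points then the two-point stabiliser is an elementary abelian
2-group and each point outside the line is fixed by half of it. -/
theorem small_orbit_facts {a b : Ω} (h : ∀ x : Ω, ∀ g ∈ pairStab (G := G) a b,
    ∀ h ∈ pairStab (G := G) a b, g • x ≠ x → h • x ≠ x → g • x = h • x) :
    (∀ g ∈ pairStab (G := G) a b, g * g = 1) ∧
    (∀ x ∉ lineFin G a b, 2 * cntFix (pairStab (G := G) a b) x = (pairStab (G := G) a b).card) ∧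
    (∀ x : Ω, ∀ g ∈ pairStab (G := G) a b, ∀ h ∈ pairStab (G := G) a b,
      g • x ≠ x → h • x ≠ x → (g * h) • x = x) := by
  have hsq : ∀ g ∈ pairStab (G := G) a b, g * g = 1 := by
    intro g hg
    refine eq_one_of_smul (Ω := Ω) fun x => ?_
    rw [mul_smul]
    by_cases hgx : g • x = x
    · rw [hgx, hgx]
    by_contra hne
    have h1 := h x g hg (g * g) (mul_mem_pairStab hg hg) hgx (by rw [mul_smul]; exact hne)
    rw [mul_smul] at h1
    exact hgx (MulAction.injective g h1).symm
  refine ⟨hsq, fun x hx => ?_, fun x g hg k hk hgx hkx => ?_⟩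
  · rw [mem_lineFin] at hx
    push Not at hx
    obtain ⟨g, hg, hgx⟩ := hx
    rw [← cnt_mul_orbit a b x, mul_comm 2]
    congr 1
    have : (pairStab (G := G) a b).image (· • x) = {x, g • x} := by
      ext y
      rw [Finset.mem_image, Finset.mem_insert, Finset.mem_singleton]
      constructor
      · rintro ⟨k, hk, rfl⟩
        by_cases hkx : k • x = x
        · exact Or.inl hkx
        · exact Or.inr (h x k hk g hg hkx hgx)
      · rintro (rfl | rfl)
        · exact ⟨1, one_mem_pairStab a b, one_smul _ _⟩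
        · exact ⟨g, hg, rfl⟩
    rw [this, Finset.card_pair (Ne.symm hgx)]
  · rw [mul_smul, ← h x g hg k hk hgx hkx, ← mul_smul, hsq g hg, one_smul]

theorem pairSub_isTwoGroup {a b : Ω} (hsq : ∀ g ∈ pairStab (G := G) a b, g * g = 1) :
    IsPGroup 2 (pairSub G a b) :=
  fun g => ⟨1, Subtype.ext (by rw [pow_one, pow_two]; exact hsq g (mem_pairSub.1 g.2))⟩

/-- The degree and the size of the line have the same parity. -/
theorem card_modEq_line {a b : Ω} (hsq : ∀ g ∈ pairStab (G := G) a b, g * g = 1) :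
    Fintype.card Ω % 2 = (lineFin G a b).card % 2 := by
  haveI : Fact (Nat.Prime 2) := ⟨Nat.prime_two⟩
  have h := (pairSub_isTwoGroup hsq).card_modEq_card_fixedPoints Ω
  rw [Nat.card_eq_fintype_card, show Nat.card (fixedPoints (pairSub G a b) Ω) = (lineFin G a b).card
    from ?_] at h
  · exact h
  rw [← Nat.card_eq_finsetCard]
  refine Nat.card_congr (Equiv.subtypeEquivRight fun x => ?_)
  rw [mem_fixedPoints, mem_lineFin]
  exact ⟨fun hx g hg => hx ⟨g, mem_pairSub.2 hg⟩, fun hx g => hx g (mem_pairSub.1 g.2)⟩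

set_option maxHeartbeats 400000 in
/-- With lines of two points and orbits of at most two points, the stabiliser has order two. -/
theorem card_eq_two_of_line_two (h2 : IsMultiplyPretransitive G Ω 2) {a b : Ω} (hab : a ≠ b)
    (hk : (lineFin G a b).card = 2) (hn : 3 ≤ Fintype.card Ω)
    (h : ∀ x : Ω, ∀ g ∈ pairStab (G := G) a b,
      ∀ h ∈ pairStab (G := G) a b, g • x ≠ x → h • x ≠ x → g • x = h • x) :
    (pairStab (G := G) a b).card = 2 := by
  classical
  obtain ⟨hsq, hhalf, hprod⟩ := small_orbit_facts h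
  have hF : lineFin G a b = {a, b} := (Finset.eq_of_subset_of_card_le
    (by simp [Finset.insert_subset_iff, left_mem_lineFin, right_mem_lineFin])
    (by rw [hk, Finset.card_pair hab])).symm
  haveI := h2
  haveI : IsPretransitive G Ω := isPretransitive_of_is_two_pretransitive
  set H := stabilizer G a with hH
  set A := stabilizer H b with hA
  have hAmem : ∀ x : H, x ∈ A ↔ (x : G) ∈ pairStab (G := G) a b := fun x => by
    rw [hA, mem_stabilizer_iff, mem_pairStab]
    exact ⟨fun hx => ⟨x.2, hx⟩, fun hx => hx.2⟩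
  have horb : orbit H b = ((Finset.univ.erase a : Finset Ω) : Set Ω) := by
    ext y
    simp only [Finset.coe_erase, Finset.coe_univ, Set.mem_diff, Set.mem_univ, Set.mem_singleton_iff,
      true_and]
    constructor
    · rintro ⟨g, rfl⟩ hya
      apply hab
      have : (g : G) • b = (g : G) • a := hya.trans g.2.symm
      exact (MulAction.injective _ this).symm
    · intro hy
      obtain ⟨u, hu1, hu2⟩ := (is_two_pretransitive_iff.1 h2) hab (Ne.symm hy)
      exact ⟨⟨u, hu1⟩, hu2⟩
  have hidx : A.index = Fintype.card Ω - 1 := by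
    rw [hA, index_stabilizer, horb, Set.ncard_coe_finset, Finset.card_erase_of_mem (Finset.mem_univ a),
      Finset.card_univ]
  have hodd : ¬ 2 ∣ Fintype.card Ω - 1 := by
    have := card_modEq_line hsq
    rw [hk] at this
    omega
  haveI : Fact (Nat.Prime 2) := ⟨Nat.prime_two⟩
  have hAp : IsPGroup 2 A := fun x => ⟨1, Subtype.ext (Subtype.ext (by
    rw [pow_one, pow_two]; exact hsq _ ((hAmem x).1 x.2)))⟩
  let P : Sylow 2 H := hAp.toSylow (by rw [hidx]; exact hodd)
  have hPA : (P : Subgroup H) = A := rfl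
  have hcomm : ∀ x ∈ A, ∀ y ∈ A, x * y = y * x := by
    intro x hx y hy
    have e : ∀ z ∈ A, z⁻¹ = z := fun z hz => inv_eq_of_mul_eq_one_left
      (Subtype.ext (hsq _ ((hAmem z).1 hz)))
    have := e (x * y) (mul_mem hx hy)
    rw [mul_inv_rev, e x hx, e y hy] at this
    exact this.symm
  have hNA : Subgroup.normalizer ((P : Subgroup H) : Set H) ≤
      Subgroup.centralizer (P : Set H) := by
    intro u hu
    have hub : (u : G) • b ∈ lineFin G a b := by
      rw [mem_lineFin]
      intro g hg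
      have hga : g ∈ H := (mem_pairStab.1 hg).1
      have hmem : u⁻¹ * ⟨g, hga⟩ * u ∈ A := by
        have := (Subgroup.mem_normalizer_iff.1 (inv_mem hu) ⟨g, hga⟩).1
          (show (⟨g, hga⟩ : H) ∈ (P : Subgroup H) from (hAmem _).2 hg)
        rwa [inv_inv] at this
      have h1 := (mem_pairStab.1 ((hAmem _).1 hmem)).2
      simp only [Subgroup.coe_mul, Subgroup.coe_inv, mul_smul] at h1
      exact inv_smul_eq_iff.1 h1
    rw [hF, Finset.mem_insert, Finset.mem_singleton] at hub
    have huA : u ∈ A := by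
      rcases hub with h1 | h1
      · exact absurd (MulAction.injective (u : G) (h1.trans u.2.symm)) (Ne.symm hab)
      · exact h1
    intro y hy
    exact hcomm y hy u huA
  set M := (MonoidHom.transferSylow P hNA).ker
  have hM := MonoidHom.ker_transferSylow_isComplement' P hNA
  have hMcard : Nat.card M = Fintype.card Ω - 1 := by
    rw [← hidx, ← hM.index_eq_card]
    rfl
  have hMA : ∀ x ∈ M, x ∈ A → x = 1 := fun x hx hxA => by
    have := hM.disjoint
    exact Subgroup.disjoint_def.1 this hx hxA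
  have hMinj : ∀ x ∈ M, ∀ y ∈ M, (x : G) • b = (y : G) • b → x = y := by
    intro x hx y hy hxy
    rw [← inv_mul_eq_one]
    refine hMA _ (mul_mem (inv_mem hx) hy) (show (x⁻¹ * y) • b = b from ?_)
    show ((x : G)⁻¹ * (y : G)) • b = b
    rw [mul_smul, ← hxy, inv_smul_smul]
  have hMsurj : ∀ y ≠ a, ∃ m ∈ M, (m : G) • b = y := by
    intro y hy
    let f : M → {y : Ω // y ≠ a} := fun m => ⟨((m : H) : G) • b, fun hya => hab
      (MulAction.injective ((m : H) : G) (hya.trans (m : H).2.symm)).symm⟩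
    have hf : Function.Bijective f := by
      rw [Fintype.bijective_iff_injective_and_card]
      refine ⟨fun x x' hxx => Subtype.ext (hMinj _ x.2 _ x'.2 (congrArg Subtype.val hxx)), ?_⟩
      rw [← Nat.card_eq_fintype_card, hMcard]
      exact ((Fintype.card_subtype_compl (fun z : Ω => z = a)).trans (by rw [Fintype.card_subtype_eq])).symm
    obtain ⟨m, hm⟩ := hf.2 ⟨y, hy⟩
    exact ⟨m, m.2, congrArg Subtype.val hm⟩
  have hconj : ∀ (t m : H), m ∈ M → t * m * t⁻¹ ∈ M := fun t m hm =>
    (inferInstance : M.Normal).conj_mem m hm t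
  have hequiv : ∀ t ∈ A, ∀ m : H, ((t * m * t⁻¹ : H) : G) • b = (t : G) • (m : G) • b := by
    intro t ht m
    rw [Subgroup.coe_mul, Subgroup.coe_mul, Subgroup.coe_inv, mul_smul, mul_smul,
      inv_smul_eq_iff.2 (mem_pairStab.1 ((hAmem t).1 ht)).2.symm]
  -- every element acts on each element of the complement trivially or by inversion
  have hdich : ∀ t ∈ A, ∀ m ∈ M, t * m * t⁻¹ = m ∨ t * m * t⁻¹ = m⁻¹ := by
    intro t ht m hm
    by_cases htm : (t : G) • (m : G) • b = (m : G) • b
    · exact Or.inl (hMinj _ (hconj t m hm) _ hm (by rw [hequiv t ht]; exact htm))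
    right
    let Cw : Subgroup H := M ⊓ Subgroup.centralizer
      {w : H | w ∈ A ∧ (w : G) • (m : G) • b = (m : G) • b}
    have hmC : m ∈ Cw := ⟨hm, fun w hw => by
      have := hMinj _ (hconj w m hm) _ hm (by rw [hequiv w hw.1]; exact hw.2)
      exact mul_inv_eq_iff_eq_mul.1 this⟩
    have hstable : ∀ c ∈ Cw, t * c * t⁻¹ ∈ Cw := fun c hc => ⟨hconj t c hc.1, fun w hw => by
      have h1 : w * c = c * w := hc.2 w hw
      calc w * (t * c * t⁻¹) = (w * t) * c * t⁻¹ := by group
        _ = t * (w * c) * t⁻¹ := by rw [hcomm w hw.1 t ht]; group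
        _ = t * c * (w * t⁻¹) := by rw [h1]; group
        _ = t * c * t⁻¹ * w := by rw [hcomm w hw.1 t⁻¹ (inv_mem ht)]; group⟩
    have hfix : ∀ c ∈ Cw, t * c * t⁻¹ = c → c = 1 := by
      intro c hc htc
      have hcb : (c : G) • b ∈ lineFin G a b := by
        rw [mem_lineFin]
        intro g hg
        let g' : H := ⟨g, (mem_pairStab.1 hg).1⟩
        have hg' : g' ∈ A := (hAmem g').2 hg
        have hcom : g' * c = c * g' := by
          by_cases hgm : g • (m : G) • b = (m : G) • b
          · exact hc.2 g' ⟨hg', hgm⟩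
          · have h1 : (t * g') * c = c * (t * g') := hc.2 _ ⟨mul_mem ht hg',
              hprod _ _ ((hAmem t).1 ht) g hg htm hgm⟩
            have h2' : t * c = c * t := mul_inv_eq_iff_eq_mul.1 htc
            calc g' * c = t⁻¹ * ((t * g') * c) := by group
              _ = t⁻¹ * (c * (t * g')) := by rw [h1]
              _ = t⁻¹ * (c * t) * g' := by group
              _ = c * g' := by rw [← h2']; group
        have h1 : ((g' * c : H) : G) • b = ((c * g' : H) : G) • b := by rw [hcom]
        simp only [Subgroup.coe_mul, mul_smul] at h1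
        rw [(mem_pairStab.1 hg).2] at h1
        exact h1
      rw [hF, Finset.mem_insert, Finset.mem_singleton] at hcb
      rcases hcb with h1 | h1
      · exact absurd (MulAction.injective (c : G) (h1.trans c.2.symm)) (Ne.symm hab)
      · exact hMA c hc.1 h1
    let f : Cw → Cw := fun c => ⟨(c : H)⁻¹ * (t * c * t⁻¹), Cw.mul_mem (Cw.inv_mem c.2) (hstable c c.2)⟩
    have hfinj : Function.Injective f := fun c c' hcc => by
      have h1 : (c : H)⁻¹ * (t * c * t⁻¹) = (c' : H)⁻¹ * (t * c' * t⁻¹) := congrArg Subtype.val hcc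
      refine Subtype.ext (mul_inv_eq_one.1 (hfix _ (Cw.mul_mem c'.2 (Cw.inv_mem c.2)) ?_)).symm
      calc t * ((c' : H) * (c : H)⁻¹) * t⁻¹ = (t * c' * t⁻¹) * (t * c * t⁻¹)⁻¹ := by group
        _ = (c' : H) * ((c' : H)⁻¹ * (t * c' * t⁻¹)) * ((c : H)⁻¹ * (t * c * t⁻¹))⁻¹ * (c : H)⁻¹ := by group
        _ = (c' : H) * (c : H)⁻¹ := by rw [← h1]; group
    obtain ⟨c, hc⟩ := (Finite.injective_iff_surjective.1 hfinj) ⟨m, hmC⟩
    have hc' : (c : H)⁻¹ * (t * c * t⁻¹) = m := congrArg Subtype.val hc
    have ht2 : t * t = 1 := Subtype.ext (hsq _ ((hAmem t).1 ht))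
    rw [← hc']
    calc t * ((c : H)⁻¹ * (t * c * t⁻¹)) * t⁻¹
        = (t * (c : H) * t⁻¹)⁻¹ * ((t * t) * c * (t * t)⁻¹) := by group
      _ = ((c : H)⁻¹ * (t * c * t⁻¹))⁻¹ := by rw [ht2]; group
  have hModd : ∀ m ∈ M, m * m = 1 → m = 1 := by
    intro m hm hm2
    rw [← orderOf_eq_one_iff]
    have h1 : orderOf m ∣ 2 := orderOf_dvd_of_pow_eq_one (by rw [pow_two]; exact hm2)
    rcases (Nat.dvd_prime Nat.prime_two).1 h1 with h1 | h1
    · exact h1
    · exact absurd (h1 ▸ hMcard ▸ Subgroup.orderOf_dvd_natCard M hm) hodd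
  -- hence all points outside the line have the same stabiliser
  have hsame : ∀ x y : Ω, x ∉ lineFin G a b → y ∉ lineFin G a b →
      ∀ g ∈ pairStab (G := G) a b, g • x = x → g • y = y := by
    intro x y hx hy g hg hgx
    by_contra hgy
    obtain ⟨m₁, hm₁, hm₁b⟩ := hMsurj x (fun hxa => hx (by rw [hxa]; exact left_mem_lineFin a b))
    obtain ⟨m₂, hm₂, hm₂b⟩ := hMsurj y (fun hya => hy (by rw [hya]; exact left_mem_lineFin a b))
    let t : H := ⟨g, (mem_pairStab.1 hg).1⟩
    have ht : t ∈ A := (hAmem t).2 hg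
    have h1 : t * m₁ * t⁻¹ = m₁ :=
      hMinj _ (hconj t m₁ hm₁) _ hm₁ (by rw [hequiv t ht, hm₁b]; exact hgx)
    have h2' : t * m₂ * t⁻¹ = m₂⁻¹ := by
      rcases hdich t ht m₂ hm₂ with h3 | h3
      · exfalso
        apply hgy
        rw [← hm₂b, show g • (m₂ : G) • b = ((t * m₂ * t⁻¹ : H) : G) • b from (hequiv t ht m₂).symm, h3]
      · exact h3
    have hm2one : m₂ ≠ 1 := fun h3 => hy (by
      rw [← hm₂b, h3, Subgroup.coe_one, one_smul]; exact right_mem_lineFin a b)
    have hprod' : t * (m₁ * m₂) * t⁻¹ = m₁ * m₂⁻¹ := by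
      rw [← h2']; nth_rewrite 2 [← h1]; group
    rcases hdich t ht _ (mul_mem hm₁ hm₂) with h3 | h3
    · rw [hprod', mul_left_cancel_iff] at h3
      exact hm2one (hModd m₂ hm₂ (inv_eq_iff_mul_eq_one.1 h3))
    · rw [hprod', mul_inv_rev] at h3
      have h4 : m₂ * m₁ * m₂⁻¹ = m₁⁻¹ := by rw [mul_assoc, h3, mul_inv_cancel_left]
      have h5 : (m₂ * m₂) * m₁ * (m₂ * m₂)⁻¹ = m₁ := by
        calc (m₂ * m₂) * m₁ * (m₂ * m₂)⁻¹ = m₂ * (m₂ * m₁ * m₂⁻¹) * m₂⁻¹ := by group
          _ = m₂ * m₁⁻¹ * m₂⁻¹ := by rw [h4]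
          _ = (m₂ * m₁ * m₂⁻¹)⁻¹ := by group
          _ = m₁ := by rw [h4, inv_inv]
      have h6 : Commute m₂ m₁ := by
        have hcop : (orderOf m₂).Coprime 2 := (Nat.prime_two.coprime_iff_not_dvd.2 fun hd =>
          hodd ((hd.trans (Subgroup.orderOf_dvd_natCard M hm₂)).trans hMcard.dvd)).symm
        obtain ⟨j, hj⟩ := exists_pow_eq_self_of_coprime hcop.symm
        have h7 : Commute (m₂ ^ 2) m₁ := by rw [pow_two]; exact mul_inv_eq_iff_eq_mul.1 h5
        have := h7.pow_left j
        rwa [hj] at this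
      rw [h6.eq, mul_inv_cancel_right] at h4
      have hm1 := hModd m₁ hm₁ (inv_eq_iff_mul_eq_one.1 h4.symm)
      apply hx
      rw [← hm₁b, hm1, Subgroup.coe_one, one_smul]
      exact right_mem_lineFin a b
  obtain ⟨x, hx⟩ : ∃ x, x ∉ lineFin G a b := by
    by_contra hcon
    push Not at hcon
    have := Finset.card_le_card (fun x _ => hcon x : (Finset.univ : Finset Ω) ⊆ lineFin G a b)
    rw [Finset.card_univ, hk] at this
    omega
  rw [← hhalf x hx]
  have : cntFix (pairStab (G := G) a b) x = 1 := by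
    rw [cntFix, Finset.card_eq_one]
    refine ⟨1, Finset.eq_singleton_iff_unique_mem.2
      ⟨Finset.mem_filter.2 ⟨one_mem_pairStab a b, one_smul _ _⟩, fun g hg => ?_⟩⟩
    rw [Finset.mem_filter] at hg
    refine eq_one_of_smul (Ω := Ω) fun y => ?_
    by_cases hy : y ∈ lineFin G a b
    · exact mem_lineFin.1 hy g hg.1
    · exact hsame x y hx hy g hg.1 hg.2
  rw [this]

end CfsgLib.Fixity.Bound
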