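import Mathlib
import Cfsg.Agent.Lib.Fixity.DerangementCases

/-!
Lines of three points, and the final form of the bound `2|G|/n` on the derangements.
-/

set_option autoImplicit false
set_option linter.style.haveILetI false
set_option linter.unusedSectionVars false

namespace CfsgLib.Fixity.Bound

open MulAction Finset

variable {G Ω : Type*} [Group G] [MulAction G Ω] [Fintype G] [Fintype Ω] [DecidableEq Ω]
  [DecidableEq G] [FaithfulSMul G Ω]

/-- An odd number with a power `+ 1` a power of two occurs only with exponent one. -/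
theorem exponent_eq_one {r j e : ℕ} (hr : r.Prime) (hodd : r % 2 = 1) (hj : 0 < j)
    (h : r ^ j + 1 = 2 ^ e) : j = 1 := by
  have hr3 : 3 ≤ r := by have := hr.two_le; omega
  rcases Nat.even_or_odd j with ⟨i, rfl⟩ | ⟨i, rfl⟩
  · exfalso
    have h4 : (r ^ (i + i) + 1) % 4 = 2 := by
      have hsq : r ^ (i + i) = (r * r) ^ i := by rw [← two_mul, pow_mul, pow_two]
      have hr4 : (r * r) % 4 = 1 := by
        rcases (show r % 4 = 1 ∨ r % 4 = 3 by omega) with h1 | h1 <;> simp [Nat.mul_mod, h1]
      rw [hsq, Nat.add_mod, Nat.pow_mod, hr4, one_pow]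
      norm_num
    have hbig : 4 ≤ r ^ (i + i) + 1 := by
      have := Nat.pow_le_pow_right hr.pos (show 1 ≤ i + i by omega)
      rw [pow_one] at this
      omega
    rw [h] at hbig h4
    rcases e with _ | _ | e
    · norm_num at hbig
    · norm_num at hbig
    · rw [show 2 ^ (e + 1 + 1) = 4 * 2 ^ e by ring, Nat.mul_mod_right] at h4
      omega
  · have key : ∀ l : ℕ, ∃ Q, Odd Q ∧ r ^ (2 * l + 1) + 1 = (r + 1) * Q := by
      intro l
      induction l with
      | zero => exact ⟨1, odd_one, by ring⟩
      | succ l ih =>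
        obtain ⟨Q, hQ, hQe⟩ := ih
        have hQ1 : 1 ≤ Q := hQ.pos
        have hle : r ≤ r * r * Q := by
          calc r = r * 1 := (mul_one r).symm
            _ ≤ r * (r * Q) := Nat.mul_le_mul_left r (Nat.mul_pos hr.pos hQ1)
            _ = r * r * Q := by ring
        refine ⟨r * r * Q - (r - 1), ?_, ?_⟩
        · have hodd' : (r * r * Q) % 2 = 1 := by
            rw [Nat.mul_mod, Nat.mul_mod r r, hodd, Nat.odd_iff.1 hQ]
          rw [Nat.odd_iff]
          omega
        · obtain ⟨w, hw⟩ : ∃ w, r = w + 1 := ⟨r - 1, by omega⟩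
          obtain ⟨v, hv⟩ : ∃ v, r * r * Q = v + w := ⟨r * r * Q - w, by omega⟩
          have hv' : r * r * Q - (r - 1) = v := by omega
          rw [hv']
          have e1 : r ^ (2 * (l + 1) + 1) = r * r * r ^ (2 * l + 1) := by ring
          have e2 : (r + 1) * v + (r + 1) * w = r * r * (r ^ (2 * l + 1) + 1) := by
            rw [← Nat.mul_add, ← hv, hQe]; ring
          rw [e1]
          subst hw
          have e3 : (w + 1 + 1) * w + 1 = (w + 1) * (w + 1) := by ring
          have e4 : (w + 1) * (w + 1) * ((w + 1) ^ (2 * l + 1) + 1) =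
              (w + 1) * (w + 1) * (w + 1) ^ (2 * l + 1) + (w + 1) * (w + 1) := by ring
          omega
    obtain ⟨Q, hQ, hQe⟩ := key i
    have hQd : Q ∣ 2 ^ e := h ▸ hQe ▸ dvd_mul_left Q (r + 1)
    obtain ⟨t, -, rfl⟩ := (Nat.dvd_prime_pow Nat.prime_two).1 hQd
    have ht : t = 0 := by
      by_contra ht
      have := Nat.odd_iff.1 hQ
      rw [Nat.pow_mod, show 2 % 2 = 0 from rfl, zero_pow ht] at this
      simp at this
    subst ht
    rw [pow_zero, mul_one, add_left_inj] at hQe
    exact Nat.pow_right_injective hr.two_le (show r ^ (2 * i + 1) = r ^ 1 by rw [pow_one]; exact hQe)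

theorem card_pairStab_pos (a b : Ω) : 0 < (pairStab (G := G) a b).card :=
  Finset.card_pos.2 ⟨1, one_mem_pairStab a b⟩

/-- The class of an element and its centraliser. -/
theorem card_class_mul (x : G) :
    (univ.image fun u : G => u * x * u⁻¹).card * Nat.card (Subgroup.centralizer ({x} : Set G)) =
      Fintype.card G := by
  classical
  rw [← Finset.card_univ, Finset.card_eq_sum_card_image (fun u : G => u * x * u⁻¹) Finset.univ,
    Finset.sum_const_nat (m := Nat.card (Subgroup.centralizer ({x} : Set G)))]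
  intro y hy
  obtain ⟨u₀, -, rfl⟩ := Finset.mem_image.1 hy
  rw [Nat.card_eq_fintype_card, Fintype.card_subtype]
  refine Finset.card_bij' (fun u _ => u₀⁻¹ * u) (fun u _ => u₀ * u) ?_ ?_ ?_ ?_
  · intro u hu
    rw [Finset.mem_filter] at hu ⊢
    refine ⟨Finset.mem_univ _, Subgroup.mem_centralizer_iff.2 fun z hz => ?_⟩
    rw [Set.mem_singleton_iff] at hz
    subst hz
    calc z * (u₀⁻¹ * u) = u₀⁻¹ * (u₀ * z * u₀⁻¹) * u := by group
      _ = u₀⁻¹ * (u * z * u⁻¹) * u := by rw [hu.2]
      _ = u₀⁻¹ * u * z := by group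
  · intro u hu
    rw [Finset.mem_filter] at hu ⊢
    refine ⟨Finset.mem_univ _, ?_⟩
    have h1 : x * u = u * x := Subgroup.mem_centralizer_iff.1 hu.2 x rfl
    calc (u₀ * u) * x * (u₀ * u)⁻¹ = u₀ * (u * x) * u⁻¹ * u₀⁻¹ := by group
      _ = u₀ * (x * u) * u⁻¹ * u₀⁻¹ := by rw [h1]
      _ = u₀ * x * u₀⁻¹ := by group
  · intro u _; exact mul_inv_cancel_left _ _
  · intro u _; exact inv_mul_cancel_left _ _

/-- The exceptional configuration `n = 4s - 1` with fixed point numbers `2s - 1` has many
derangements. -/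
theorem bound_of_exceptional (h2 : IsMultiplyPretransitive G Ω 2) {a b : Ω} (hab : a ≠ b) {e : ℕ}
    (he : 0 < e) (hs : (pairStab (G := G) a b).card = 2 ^ e)
    (hn : Fintype.card Ω = 4 * 2 ^ e - 1)
    (hπ : ∀ g ∈ pairStab (G := G) a b, g ≠ 1 → fixNum Ω g = 2 * 2 ^ e - 1) :
    2 * Fintype.card G ≤ Fintype.card Ω * (derSet G Ω).card := by
  classical
  by_contra hlt
  haveI := h2
  haveI : IsPretransitive G Ω := isPretransitive_of_is_two_pretransitive
  have hs2 : 2 ≤ 2 ^ e := le_self_pow (by norm_num) he.ne'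
  have hG := (bound_of_two_transitive h2 hab).1
  rw [hs] at hG
  have hG' : Fintype.card Ω ∣ Fintype.card G := ⟨(Fintype.card Ω - 1) * 2 ^ e, by rw [hG]; ring⟩
  have hfix : ∀ g : G, g ≠ 1 → fixNum Ω g ≤ 1 ∨ fixNum Ω g = 2 * 2 ^ e - 1 := by
    intro g hg
    by_cases h : fixNum Ω g ≤ 1
    · exact Or.inl h
    right
    obtain ⟨c, hc, d, hd, hcd⟩ := Finset.one_lt_card.1 (show 1 < (fixFin (Ω := Ω) g).card by
      rw [fixNum] at h; omega)
    rw [mem_fixFin] at hc hd
    obtain ⟨u, hu1, hu2⟩ := (is_two_pretransitive_iff.1 h2) hcd hab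
    rw [← fixNum_conj u g]
    refine hπ _ (mem_pairStab.2 ⟨?_, ?_⟩) fun h' => hg ?_
    · rw [← hu1, mul_smul, inv_smul_smul, mul_smul, hc]
    · rw [← hu2, mul_smul, inv_smul_smul, mul_smul, hd]
    · exact mul_left_cancel (mul_right_cancel (h'.trans (by group : (1 : G) = u * 1 * u⁻¹)))
  -- centralisers of elements of prime order dividing the degree are semiregular
  have hsemi : ∀ (r : ℕ), r.Prime → r ∣ Fintype.card Ω → ∀ x : G, orderOf x = r →
      fixNum Ω x = 0 ∧ Nat.card (Subgroup.centralizer ({x} : Set G)) ∣ Fintype.card Ω := by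
    intro r hr hrd x hx
    haveI : Fact r.Prime := ⟨hr⟩
    have hxp : IsPGroup r (Subgroup.zpowers x) := IsPGroup.of_card (n := 1) (by
      rw [Nat.card_zpowers, hx, pow_one])
    have hnd : ∀ g : G, g ≠ 1 → r ∣ fixNum Ω g → fixNum Ω g = 0 := by
      intro g hg hd
      rcases hfix g hg with h1 | h1
      · rcases Nat.le_one_iff_eq_zero_or_eq_one.1 h1 with h1 | h1
        · exact h1
        · rw [h1] at hd
          exact absurd (Nat.dvd_one.1 hd) hr.ne_one
      · exfalso
        rw [h1] at hd
        have h3 := Nat.dvd_sub hrd (Dvd.dvd.mul_left hd 2)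
        rw [show Fintype.card Ω - 2 * (2 * 2 ^ e - 1) = 1 by omega] at h3
        exact hr.ne_one (Nat.dvd_one.1 h3)
    have hx1 : x ≠ 1 := fun h => by rw [h, orderOf_one] at hx; exact hr.ne_one hx.symm
    have hfx : fixNum Ω x = 0 := by
      apply hnd x hx1
      have h := hxp.card_modEq_card_fixedPoints Ω
      rw [Nat.card_eq_fintype_card, show Nat.card (fixedPoints (Subgroup.zpowers x) Ω) = fixNum Ω x
        from ?_] at h
      · exact Nat.modEq_zero_iff_dvd.1 (h.symm.trans (Nat.modEq_zero_iff_dvd.2 hrd))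
      rw [fixNum_eq_natCard]
      refine Nat.card_congr (Equiv.subtypeEquivRight fun w => ?_)
      rw [mem_fixedBy, mem_fixedPoints]
      refine ⟨fun hw => hw ⟨x, Subgroup.mem_zpowers x⟩, fun hw => ?_⟩
      rintro ⟨y, hy⟩
      have hle : Subgroup.zpowers x ≤ stabilizer G w := Subgroup.zpowers_le.2 hw
      exact hle hy
    refine ⟨hfx, ?_⟩
    have hfree : ∀ w : Ω, stabilizer (Subgroup.centralizer ({x} : Set G)) w = ⊥ := by
      intro w
      rw [Subgroup.eq_bot_iff_forall]
      rintro ⟨y, hy⟩ hyw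
      apply Subtype.ext
      show y = 1
      by_contra hy1
      have hyw' : y • w = w := hyw
      have hxy : x * y = y * x := Subgroup.mem_centralizer_iff.1 hy x rfl
      let S : SubMulAction (Subgroup.zpowers x) Ω :=
        { carrier := {z | y • z = z}
          smul_mem' := by
            rintro ⟨g, hg⟩ z hz
            obtain ⟨i, rfl⟩ := Subgroup.mem_zpowers_iff.1 hg
            show y • (x ^ i) • z = (x ^ i) • z
            rw [← mul_smul, ← ((show Commute x y from hxy).zpow_left i).eq, mul_smul]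
            exact congrArg _ hz }
      have h := hxp.card_modEq_card_fixedPoints S
      have h0 : Nat.card (fixedPoints (Subgroup.zpowers x) S) = 0 := by
        rw [Nat.card_eq_zero]
        left
        refine ⟨fun z => ?_⟩
        have hz : x • ((z : S) : Ω) = ((z : S) : Ω) :=
          congrArg Subtype.val (z.2 ⟨x, Subgroup.mem_zpowers x⟩)
        have h1 := Finset.card_pos.2 ⟨_, mem_fixFin.2 hz⟩
        rw [← fixNum, hfx] at h1
        exact lt_irrefl _ h1
      have hS : Nat.card S = fixNum Ω y := by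
        rw [fixNum_eq_natCard]
        exact Nat.card_congr (Equiv.subtypeEquivRight fun z => Iff.rfl)
      rw [h0, hS, Nat.modEq_zero_iff_dvd] at h
      have h1 := Finset.card_pos.2 ⟨w, mem_fixFin.2 hyw'⟩
      rw [← fixNum, hnd y hy1 h] at h1
      exact lt_irrefl _ h1
    rw [← Nat.card_eq_fintype_card (α := Ω), Nat.card_congr (selfEquivOrbitsQuotientProd hfree),
      Nat.card_prod]
    exact dvd_mul_left _ _
  -- the class of such an element
  let cls : G → Finset G := fun x => univ.image fun u : G => u * x * u⁻¹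
  have hsub : ∀ r, r.Prime → r ∣ Fintype.card Ω → ∀ x : G, orderOf x = r → cls x ⊆ derSet G Ω := by
    intro r hr hrd x hx y hy
    obtain ⟨u, -, rfl⟩ := Finset.mem_image.1 hy
    exact Finset.mem_filter.2 ⟨Finset.mem_univ _, by rw [fixNum_conj]; exact (hsemi r hr hrd x hx).1⟩
  have hclsge : ∀ r, r.Prime → r ∣ Fintype.card Ω → ∀ x : G, orderOf x = r →
      Fintype.card G ≤ Fintype.card Ω * (cls x).card := by
    intro r hr hrd x hx
    rw [← card_class_mul x, mul_comm (Fintype.card Ω)]
    exact Nat.mul_le_mul_left _ (Nat.le_of_dvd (by omega) (hsemi r hr hrd x hx).2)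
  have hunique : ∀ r r', r.Prime → r'.Prime → r ∣ Fintype.card Ω → r' ∣ Fintype.card Ω →
      ∀ x y : G, orderOf x = r → orderOf y = r' → y ∈ cls x := by
    intro r r' hr hr' hrd hrd' x y hx hy
    by_contra hne
    apply hlt
    have hdisj : Disjoint (cls x) (cls y) := by
      rw [Finset.disjoint_left]
      intro z hz hz'
      obtain ⟨u, -, rfl⟩ := Finset.mem_image.1 hz
      obtain ⟨v, -, hv⟩ := Finset.mem_image.1 hz'
      apply hne
      refine Finset.mem_image.2 ⟨v⁻¹ * u, Finset.mem_univ _, ?_⟩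
      calc v⁻¹ * u * x * (v⁻¹ * u)⁻¹ = v⁻¹ * (u * x * u⁻¹) * v := by group
        _ = v⁻¹ * (v * y * v⁻¹) * v := by rw [hv]
        _ = y := by group
    have hle := Finset.card_le_card (Finset.union_subset (hsub r hr hrd x hx) (hsub r' hr' hrd' y hy))
    rw [Finset.card_union_of_disjoint hdisj] at hle
    calc 2 * Fintype.card G ≤ Fintype.card Ω * ((cls x).card + (cls y).card) := by
          rw [Nat.mul_add, two_mul]
          exact Nat.add_le_add (hclsge r hr hrd x hx) (hclsge r' hr' hrd' y hy)
      _ ≤ _ := Nat.mul_le_mul_left _ hle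
  obtain ⟨r, hr, hrd⟩ := Nat.exists_prime_and_dvd (n := Fintype.card Ω) (by omega)
  haveI : Fact r.Prime := ⟨hr⟩
  obtain ⟨x, hx⟩ := exists_prime_orderOf_dvd_card r (hrd.trans hG')
  obtain ⟨hx0, hxC⟩ := hsemi r hr hrd x hx
  -- the centraliser has the order of the degree
  have hC : Nat.card (Subgroup.centralizer ({x} : Set G)) = Fintype.card Ω := by
    by_contra hne
    apply hlt
    obtain ⟨c, hc⟩ := hxC
    have hc2 : 2 ≤ c := by
      rcases c with _ | _ | c
      · simp at hc; omega
      · simp only [Nat.zero_add, mul_one] at hc; exact absurd hc.symm hne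
      · omega
    calc 2 * Fintype.card G ≤ c * Fintype.card G := Nat.mul_le_mul_right _ hc2
      _ = Fintype.card Ω * (cls x).card := by rw [← card_class_mul x, hc]; ring
      _ ≤ _ := Nat.mul_le_mul_left _ (Finset.card_le_card (hsub r hr hrd x hx))
  -- the degree is a prime
  have hpp : IsPrimePow (Fintype.card Ω) := isPrimePow_iff_unique_prime_dvd.2 ⟨r, ⟨hr, hrd⟩,
    fun r' ⟨hr', hrd'⟩ => by
      haveI : Fact r'.Prime := ⟨hr'⟩
      obtain ⟨y, hy⟩ := exists_prime_orderOf_dvd_card r' (hrd'.trans hG')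
      obtain ⟨u, -, hu⟩ := Finset.mem_image.1 (hunique r r' hr hr' hrd hrd' x y hx hy)
      rw [← hy, ← hu, ← hx, ← MulAut.conj_apply, MulEquiv.orderOf_eq]⟩
  obtain ⟨r', j, hr', hj, hpow⟩ := (isPrimePow_nat_iff _).1 hpp
  have hrr : r = r' := (Nat.prime_dvd_prime_iff_eq hr hr').1 (hr.dvd_of_dvd_pow (hpow ▸ hrd))
  subst hrr
  have hr_odd : r % 2 = 1 := by
    rcases hr.eq_two_or_odd with rfl | h
    · exfalso; omega
    · exact h
  have hj1 : j = 1 := exponent_eq_one hr hr_odd hj (e := e + 2) (by
    rw [hpow, pow_add]; omega)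
  rw [hj1, pow_one] at hpow
  -- count the class modulo the degree
  have hxC' : Subgroup.centralizer ({x} : Set G) = Subgroup.zpowers x := by
    refine (Subgroup.eq_of_le_of_card_ge ?_ ?_).symm
    · rw [Subgroup.zpowers_le, Subgroup.mem_centralizer_iff]
      intro z hz
      rw [Set.mem_singleton_iff] at hz
      rw [hz]
    · rw [hC, Nat.card_zpowers, hx, hpow]
  letI inst : MulAction (Subgroup.zpowers x) (cls x) :=
    { smul := fun g y => ⟨(g : G) * y * (g : G)⁻¹, by
        obtain ⟨u, -, hu⟩ := Finset.mem_image.1 y.2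
        exact Finset.mem_image.2 ⟨(g : G) * u, Finset.mem_univ _, by rw [← hu]; group⟩⟩
      one_smul := fun y => Subtype.ext (by
        show ((1 : Subgroup.zpowers x) : G) * y * ((1 : Subgroup.zpowers x) : G)⁻¹ = y
        simp)
      mul_smul := fun g h y => Subtype.ext (by
        show ((g * h : Subgroup.zpowers x) : G) * y * ((g * h : Subgroup.zpowers x) : G)⁻¹ =
          (g : G) * ((h : G) * y * (h : G)⁻¹) * (g : G)⁻¹
        rw [Subgroup.coe_mul]; group) }
  have hxp : IsPGroup r (Subgroup.zpowers x) := IsPGroup.of_card (n := 1) (by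
    rw [Nat.card_zpowers, hx, pow_one])
  have hmod := hxp.card_modEq_card_fixedPoints (cls x)
  have hfp : Nat.card (fixedPoints (Subgroup.zpowers x) (cls x)) = r - 1 := by
    have e1 : Nat.card (fixedPoints (Subgroup.zpowers x) (cls x)) =
        Nat.card {y : Subgroup.zpowers x // y ≠ 1} := by
      refine Nat.card_congr
        { toFun := fun y => ⟨⟨((y : cls x) : G), ?_⟩, ?_⟩
          invFun := fun y => ⟨⟨((y : Subgroup.zpowers x) : G), ?_⟩, ?_⟩
          left_inv := fun y => rfl
          right_inv := fun y => rfl }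
      · refine hxC'.le (Subgroup.mem_centralizer_iff.2 fun z hz => ?_)
        rw [Set.mem_singleton_iff] at hz
        have hfix' := congrArg Subtype.val (y.2 ⟨x, Subgroup.mem_zpowers x⟩)
        rw [hz]
        exact mul_inv_eq_iff_eq_mul.1 hfix'
      · intro h1
        obtain ⟨u, -, hu⟩ := Finset.mem_image.1 (y : cls x).2
        have h1' : ((y : cls x) : G) = 1 := congrArg Subtype.val h1
        rw [← hu, ← MulAut.conj_apply, map_eq_one_iff _ (MulAut.conj u).injective] at h1'
        rw [h1', orderOf_one] at hx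
        exact hr.ne_one hx.symm
      · refine hunique r r hr hr hrd hrd x _ hx ?_
        rcases (Nat.dvd_prime hr).1 (show orderOf (((y : Subgroup.zpowers x)) : G) ∣ r by
          have hd := Subgroup.orderOf_dvd_natCard (Subgroup.zpowers x) (y : Subgroup.zpowers x).2
          rwa [Nat.card_zpowers, hx] at hd) with h1 | h1
        · exact absurd (Subtype.ext (orderOf_eq_one_iff.1 h1)) y.2
        · exact h1
      · rintro ⟨g, hg⟩
        apply Subtype.ext
        show g * ((y : Subgroup.zpowers x) : G) * g⁻¹ = (y : Subgroup.zpowers x)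
        obtain ⟨i, rfl⟩ := Subgroup.mem_zpowers_iff.1 hg
        obtain ⟨l, hl⟩ := Subgroup.mem_zpowers_iff.1 (y : Subgroup.zpowers x).2
        rw [← hl, (Commute.zpow_zpow_self x i l).eq, mul_inv_cancel_right]
    rw [e1, Nat.card_eq_fintype_card, Fintype.card_subtype_compl, Fintype.card_subtype_eq,
      ← Nat.card_eq_fintype_card, Nat.card_zpowers, hx]
  rw [hfp, Nat.card_eq_fintype_card, Fintype.card_coe] at hmod
  have hcl : (cls x).card = (Fintype.card Ω - 1) * 2 ^ e := by
    have := card_class_mul x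
    rw [hC, hG] at this
    apply Nat.eq_of_mul_eq_mul_right (show 0 < Fintype.card Ω by omega)
    rw [this]; ring
  rw [hcl, ← hpow] at hmod
  -- `(n - 1) s ≡ n - 1` forces `s ≡ 1`
  have hcop : Nat.gcd r (r - 1) = 1 := by
    refine (Nat.Prime.coprime_iff_not_dvd hr).2 fun hd => ?_
    have := Nat.le_of_dvd (by omega) hd
    omega
  have hone : 2 ^ e ≡ 1 [MOD r] := by
    refine Nat.ModEq.cancel_left_of_coprime hcop ?_
    rw [mul_one]
    exact hmod
  have := (Nat.modEq_iff_dvd' (by omega)).1 hone.symm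
  have := Nat.le_of_dvd (by omega) this
  omega

/-- The main case: lines of three points, all orbits of the stabiliser with at most two points. -/
theorem bound_line_three (h2 : IsMultiplyPretransitive G Ω 2) {a b : Ω} (hab : a ≠ b)
    (hs : 2 ≤ (pairStab (G := G) a b).card) (hk : (lineFin G a b).card = 3)
    (h : ∀ x : Ω, ∀ g ∈ pairStab (G := G) a b,
      ∀ h ∈ pairStab (G := G) a b, g • x ≠ x → h • x ≠ x → g • x = h • x) :
    (2 * ((pairStab (G := G) a b).card : ℚ) ≤
      ∑ g ∈ pairStab (G := G) a b, (Fintype.card Ω : ℚ) / fixNum Ω g) ∨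
      2 * Fintype.card G ≤ Fintype.card Ω * (derSet G Ω).card := by
  classical
  obtain ⟨hsq, hhalf, hprod⟩ := small_orbit_facts h
  set A := pairStab (G := G) a b with hA
  set F := lineFin G a b with hF
  have hbound : ∀ g ∈ A, g ≠ 1 → 2 * fixNum Ω g ≤ Fintype.card Ω - 1 := by
    intro g _ hg1
    have := fixNum_mul_le h2 hab hg1
    rw [show (lineFin G a b).card - 1 = 2 by rw [← hF, hk]] at this
    omega
  -- the third point of a line
  have hthird : ∀ x y : Ω, x ≠ y → ∃ z, z ≠ x ∧ z ≠ y ∧
      (∀ g : G, g • x = x → g • y = y → g • z = z) ∧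
      ∀ w, (∀ g : G, g • x = x → g • y = y → g • w = w) → w = x ∨ w = y ∨ w = z := by
    intro x y hxy
    have hc : (lineFin G x y).card = 3 := (card_lineFin_eq h2 hab hxy).trans hk
    have hsub : ({x, y} : Finset Ω) ⊆ lineFin G x y := by
      simp [Finset.insert_subset_iff, left_mem_lineFin, right_mem_lineFin]
    obtain ⟨z, hz⟩ := Finset.card_eq_one.1
      (show (lineFin G x y \ {x, y}).card = 1 by
        rw [Finset.card_sdiff_of_subset hsub, hc, Finset.card_pair hxy])
    have hz' : z ∈ lineFin G x y \ {x, y} := hz ▸ Finset.mem_singleton_self z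
    rw [Finset.mem_sdiff, Finset.mem_insert, Finset.mem_singleton, not_or] at hz'
    refine ⟨z, hz'.2.1, hz'.2.2, fun g h1 h2' => mem_lineFin.1 hz'.1 g (mem_pairStab.2 ⟨h1, h2'⟩),
      fun w hw => ?_⟩
    by_cases hwx : w = x
    · exact Or.inl hwx
    by_cases hwy : w = y
    · exact Or.inr (Or.inl hwy)
    refine Or.inr (Or.inr (Finset.mem_singleton.1 (hz ▸ Finset.mem_sdiff.2
      ⟨mem_lineFin.2 fun g hg => hw g (mem_pairStab.1 hg).1 (mem_pairStab.1 hg).2, ?_⟩)))
    simp [hwx, hwy]
  choose! th hth1 hth2 hth3 hth4 using hthird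
  have hthsymm : ∀ x y : Ω, x ≠ y → th x (th x y) = y := by
    intro x y hxy
    have hxz : x ≠ th x y := (hth1 x y hxy).symm
    have hA1 := pairStab_eq_of_mem_line (G := G) h2 hxy hxz (left_mem_lineFin x y)
      (mem_lineFin.2 fun g hg => hth3 x y hxy g (mem_pairStab.1 hg).1 (mem_pairStab.1 hg).2)
    rcases hth4 x (th x y) hxz y (fun g h1 h2' => by
      have : g ∈ pairStab (G := G) x (th x y) := mem_pairStab.2 ⟨h1, h2'⟩
      rw [hA1] at this
      exact (mem_pairStab.1 this).2) with h1 | h1 | h1
    · exact absurd h1.symm hxy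
    · exact absurd h1.symm (hth2 x y hxy)
    · exact h1.symm
  let W : Ω → Finset G := fun x => A.filter fun g => g • x = x
  have hWcard : ∀ x, x ∉ F → 2 * (W x).card = A.card := fun x hx => hhalf x hx
  have hWeq : ∀ x y, x ∉ F → y ∉ F → W x ⊆ W y → W x = W y := fun x y hx hy hxy =>
    Finset.eq_of_subset_of_card_le hxy (by have := hWcard x hx; have := hWcard y hy; omega)
  have hFfix : ∀ g ∈ A, ∀ x ∈ F, g • x = x := fun g hg x hx => mem_lineFin.1 hx g hg
  have hWne : ∀ x, x ∉ F → ∃ g ∈ A, g • x ≠ x := fun x hx => by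
    rw [hF, mem_lineFin] at hx
    push Not at hx
    exact hx
  -- moved points split according to the stabiliser
  have hcount : ∀ g ∈ A, ∀ x, g • x ≠ x →
      Fintype.card Ω + 3 = 2 * fixNum Ω g + ((Finset.univ \ F).filter fun y => W y = W x).card := by
    intro g hg x hgx
    have hxF : x ∉ F := fun h' => hgx (hFfix g hg x h')
    set Y := (fixFin (Ω := Ω) g) \ F
    set Z := (Finset.univ \ fixFin (Ω := Ω) g).filter fun z => ¬ W z = W x
    set U := (Finset.univ \ F).filter fun y => W y = W x
    have hYZ : Y.card = Z.card := by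
      refine Finset.card_bij' (fun y _ => th x y) (fun z _ => th x z) ?_ ?_ ?_ ?_
      · intro y hy
        rw [Finset.mem_sdiff, mem_fixFin] at hy
        have hxy : x ≠ y := fun h' => hgx (h' ▸ hy.1)
        have hzx := (hth1 x y hxy).symm
        have hmove : g • th x y ≠ th x y := fun h' => by
          -- otherwise `g` fixes the line through `x` and `y`
          have h1 := hth3 y (th x y) (hth2 x y hxy).symm g hy.1 h'
          have h2' : th y (th x y) = x := by
            have key : ∀ u : G, u • y = y → u • th x y = th x y → u • x = x := by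
              intro u h1 h2'
              have e : pairStab (G := G) y (th x y) = pairStab (G := G) x y :=
                pairStab_eq_of_mem_line h2 hxy (hth2 x y hxy).symm (right_mem_lineFin x y)
                  (mem_lineFin.2 fun v hv => hth3 x y hxy v (mem_pairStab.1 hv).1 (mem_pairStab.1 hv).2)
              have : u ∈ pairStab (G := G) x y := e ▸ mem_pairStab.2 ⟨h1, h2'⟩
              exact (mem_pairStab.1 this).1
            rcases hth4 y (th x y) (hth2 x y hxy).symm x key with h3 | h3 | h3
            · exact absurd h3 hxy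
            · exact absurd h3.symm (hth1 x y hxy)
            · exact h3.symm
          rw [h2'] at h1
          exact hgx h1
        have hzF : th x y ∉ F := fun h' => hmove (hFfix g hg _ h')
        rw [Finset.mem_filter, Finset.mem_sdiff, mem_fixFin]
        refine ⟨⟨Finset.mem_univ _, hmove⟩, fun hW => ?_⟩
        have hsub : W x ⊆ W y := by
          intro u hu
          have huz : u ∈ W (th x y) := hW.symm ▸ hu
          rw [Finset.mem_filter] at hu huz ⊢
          have := hth3 x (th x y) hzx u hu.2 huz.2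
          rw [hthsymm x y hxy] at this
          exact ⟨hu.1, this⟩
        have heq := hWeq x y hxF hy.2 hsub
        have : g ∈ W x := heq.symm ▸ Finset.mem_filter.2 ⟨hg, hy.1⟩
        exact hgx (Finset.mem_filter.1 this).2
      · intro z hz
        rw [Finset.mem_filter, Finset.mem_sdiff, mem_fixFin] at hz
        obtain ⟨⟨-, hgz⟩, hW⟩ := hz
        have hxz : x ≠ z := fun h' => hW (by rw [h'])
        have hzF : z ∉ F := fun h' => hgz (hFfix g hg z h')
        obtain ⟨k, hk', hkz⟩ : ∃ k ∈ W x, k ∉ W z := by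
          by_contra hcon
          push Not at hcon
          exact hW (hWeq x z hxF hzF hcon).symm
        rw [Finset.mem_filter] at hk'
        have hkz' : k • z ≠ z := fun h' => hkz (Finset.mem_filter.2 ⟨hk'.1, h'⟩)
        have hky : k • th x z ≠ th x z := fun h' => by
          have h1 := hth3 x (th x z) (hth1 x z hxz).symm k hk'.2 h'
          rw [hthsymm x z hxz] at h1
          exact hkz' h1
        have hyF : th x z ∉ F := fun h' => hky (hFfix k hk'.1 _ h')
        rw [Finset.mem_sdiff, mem_fixFin]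
        refine ⟨?_, hyF⟩
        by_contra hgy
        have h1 := hprod z g hg k hk'.1 hgz hkz'
        have h2' := hprod _ g hg k hk'.1 hgy hky
        have hline : pairStab (G := G) z (th x z) = pairStab (G := G) x z :=
          pairStab_eq_of_mem_line h2 hxz (hth2 x z hxz).symm (right_mem_lineFin x z)
            (mem_lineFin.2 fun v hv => hth3 x z hxz v (mem_pairStab.1 hv).1 (mem_pairStab.1 hv).2)
        have h3 : g * k ∈ pairStab (G := G) x z := hline ▸ mem_pairStab.2 ⟨h1, h2'⟩
        have h4 := (mem_pairStab.1 h3).1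
        rw [mul_smul, hk'.2] at h4
        exact hgx h4
      · intro y hy
        rw [Finset.mem_sdiff, mem_fixFin] at hy
        exact hthsymm x y fun h' => hgx (h' ▸ hy.1)
      · intro z hz
        rw [Finset.mem_filter] at hz
        exact hthsymm x z fun h' => hz.2 (by rw [h'])
    have hY : Y.card + 3 = fixNum Ω g := by
      have hsub : F ⊆ fixFin (Ω := Ω) g := fun y hy => mem_fixFin.2 (hFfix g hg y hy)
      rw [Finset.card_sdiff_of_subset hsub, hk, fixNum]
      have := Finset.card_le_card hsub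
      omega
    have hU : U = (Finset.univ \ fixFin (Ω := Ω) g).filter fun z => W z = W x := by
      ext y
      simp only [U, Finset.mem_filter, Finset.mem_sdiff, Finset.mem_univ, true_and, mem_fixFin]
      constructor
      · rintro ⟨hy, hW⟩
        refine ⟨fun h' => hgx ?_, hW⟩
        have : g ∈ W x := hW ▸ Finset.mem_filter.2 ⟨hg, h'⟩
        exact (Finset.mem_filter.1 this).2
      · rintro ⟨hy, hW⟩
        exact ⟨fun h' => hy (hFfix g hg y h'), hW⟩
    have hsplit : U.card + Z.card = (Finset.univ \ fixFin (Ω := Ω) g).card := by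
      rw [hU]; exact Finset.card_filter_add_card_filter_not _
    rw [Finset.card_sdiff_of_subset (Finset.subset_univ _), Finset.card_univ] at hsplit
    have := Finset.card_le_univ (fixFin (Ω := Ω) g)
    rw [fixNum] at hY ⊢
    omega
  obtain ⟨g₀, hg₀, hg₀1⟩ := Finset.exists_mem_ne (show 1 < A.card by omega) (1 : G)
  have hconst : ∀ g ∈ A, g ≠ 1 → fixNum Ω g = fixNum Ω g₀ := by
    intro g hg hg1
    obtain ⟨x, hx⟩ : ∃ x, x ∉ fixFin (Ω := Ω) g ∪ fixFin (Ω := Ω) g₀ := by
      by_contra hcon
      push Not at hcon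
      have h1 := Finset.card_le_card (fun x _ => hcon x :
        (Finset.univ : Finset Ω) ⊆ fixFin (Ω := Ω) g ∪ fixFin (Ω := Ω) g₀)
      have h2' := Finset.card_union_le (fixFin (Ω := Ω) g) (fixFin (Ω := Ω) g₀)
      have h3 := hbound g hg hg1
      have h4 := hbound g₀ hg₀ hg₀1
      rw [Finset.card_univ] at h1
      rw [fixNum] at h3 h4
      have : 0 < Fintype.card Ω := Fintype.card_pos_iff.2 ⟨a⟩
      omega
    rw [Finset.mem_union, not_or, mem_fixFin, mem_fixFin] at hx
    have e1 := hcount g hg x hx.1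
    have e2 := hcount g₀ hg₀ x hx.2
    omega
  set π := fixNum Ω g₀ with hπdef
  set n := Fintype.card Ω with hndef
  set s := A.card with hsdef
  -- the total number of fixed points
  have hP1 : ∑ g ∈ A, fixNum Ω g = n + (s - 1) * π := by
    rw [← Finset.add_sum_erase A _ (one_mem_pairStab a b),
      Finset.sum_const_nat (m := π) (fun g hg => hconst g (Finset.mem_of_mem_erase hg)
        (Finset.ne_of_mem_erase hg)), Finset.card_erase_of_mem (one_mem_pairStab a b)]
    congr 1
    simp [fixNum, fixFin, hndef]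
  have hP2 : 2 * ∑ g ∈ A, fixNum Ω g = s * (n + 3) := by
    rw [sum_fixNum_eq_sum_cnt, Finset.mul_sum, ← Finset.sum_add_sum_compl F,
      Finset.sum_congr rfl (g := fun _ => 2 * s) (fun x hx => by
        rw [cntFix, Finset.filter_true_of_mem fun g hg => hFfix g hg x hx]),
      Finset.sum_congr (s₁ := Fᶜ) rfl (g := fun _ => s) (fun x hx => hhalf x (Finset.mem_compl.1 hx)),
      Finset.sum_const, Finset.sum_const, smul_eq_mul, smul_eq_mul, Finset.card_compl, hk]
    have h3 : 3 ≤ n := by rw [hndef, ← hk]; exact Finset.card_le_univ F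
    obtain ⟨m, hm⟩ : ∃ m, n = m + 3 := ⟨n - 3, by omega⟩
    rw [← hndef, hm, Nat.add_sub_cancel]
    ring
  have hodd : n % 2 = 1 := by
    have := card_modEq_line hsq
    rw [← hF, hk] at this
    omega
  have hπle := hbound g₀ hg₀ hg₀1
  obtain ⟨d, hd⟩ : ∃ d, n = 2 * π + d := ⟨n - 2 * π, by omega⟩
  obtain ⟨t, ht⟩ : ∃ t, s = t + 2 := ⟨s - 2, by omega⟩
  rw [hP1] at hP2
  rw [ht, hd, show t + 2 - 1 = t + 1 from rfl] at hP2
  have key : 2 * π = t * d + 3 * t + 6 := by nlinarith [hP2]
  by_cases hd3 : 3 ≤ d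
  · left
    refine sum_div_ge_of_fix_le a b ((n : ℚ) / π) (fun g hg hg1 => ?_) ?_
    · rw [hconst g hg hg1, div_mul_cancel₀]
      exact Nat.cast_ne_zero.2 (show π ≠ 0 by omega)
    · have hπ0 : (0 : ℚ) < π := by exact_mod_cast (show 0 < π by omega)
      have hdq : (3 : ℚ) ≤ d := by exact_mod_cast hd3
      have hn' : (n : ℚ) = 2 * π + d := by exact_mod_cast hd
      have hs' : (s : ℚ) = t + 2 := by exact_mod_cast ht
      have key' : 2 * (π : ℚ) = t * d + 3 * t + 6 := by exact_mod_cast key
      rw [hs', hn', mul_div_assoc', ← sub_nonneg, show (1 : ℚ) + ((t : ℚ) + 2 - 1) * (2 * π + d) / π -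
        2 * (t + 2) = ((t + 1) * d - π) / π by field_simp; ring]
      refine div_nonneg ?_ hπ0.le
      have htq : (0 : ℚ) ≤ t := Nat.cast_nonneg t
      nlinarith
  · right
    have hd1 : d = 1 := by omega
    subst hd1
    haveI : Fact (Nat.Prime 2) := ⟨Nat.prime_two⟩
    obtain ⟨e, he⟩ := IsPGroup.iff_card.1 (pairSub_isTwoGroup hsq)
    rw [card_pairSub] at he
    have hse : s = 2 ^ e := he
    have he0 : 0 < e := by
      rcases Nat.eq_zero_or_pos e with h0 | h0
      · rw [h0, pow_zero] at hse; omega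
      · exact h0
    refine bound_of_exceptional h2 hab he0 he ?_ fun g hg hg1 => ?_
    · rw [← hndef, ← hse]; omega
    · rw [hconst g hg hg1, ← hse]; omega

/-- A 2-transitive group of degree at least 7 whose two-point stabilisers are nontrivial has at
least `2|G|/n` derangements. -/
theorem bound_two_transitive (h2 : IsMultiplyPretransitive G Ω 2) (hn : 7 ≤ Fintype.card Ω)
    {a b : Ω} (hab : a ≠ b) (hs : 2 ≤ (pairStab (G := G) a b).card) :
    2 * Fintype.card G ≤ Fintype.card Ω * (derSet G Ω).card := by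
  classical
  suffices h : (2 * ((pairStab (G := G) a b).card : ℚ) ≤
      ∑ g ∈ pairStab (G := G) a b, (Fintype.card Ω : ℚ) / fixNum Ω g) ∨
      2 * Fintype.card G ≤ Fintype.card Ω * (derSet G Ω).card by
    rcases h with h | h
    · obtain ⟨hG, hid⟩ := bound_of_two_transitive h2 hab
      have hn1 : (0 : ℚ) ≤ (Fintype.card Ω : ℚ) - 1 := by
        rw [sub_nonneg]; exact_mod_cast (show 1 ≤ Fintype.card Ω by omega)
      have h1 : ((2 * Fintype.card G : ℕ) : ℚ) ≤ ((Fintype.card Ω * (derSet G Ω).card : ℕ) : ℚ) := by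
        rw [Nat.cast_mul (Fintype.card Ω), hid, hG]
        push_cast [Nat.cast_sub (show 1 ≤ Fintype.card Ω by omega)]
        have := mul_le_mul_of_nonneg_left h
          (mul_nonneg (Nat.cast_nonneg' (α := ℚ) (Fintype.card Ω)) hn1)
        linarith
      exact_mod_cast h1
    · exact h
  set k := (lineFin G a b).card with hk
  set s := (pairStab (G := G) a b).card with hs'
  have hk2 : 2 ≤ k := Finset.one_lt_card.2
    ⟨a, left_mem_lineFin a b, b, right_mem_lineFin a b, hab⟩
  have hs2 : (2 : ℚ) ≤ s := by exact_mod_cast hs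
  by_cases hk4 : 4 ≤ k
  · left
    refine sum_div_ge_of_fix_le a b 3 (fun g hg hg1 => ?_) (by linarith)
    have h1 := fixNum_mul_le h2 hab hg1
    have h3 : fixNum Ω g * 3 ≤ Fintype.card Ω - 1 :=
      (Nat.mul_le_mul_left _ (show 3 ≤ (lineFin G a b).card - 1 by omega)).trans h1
    exact_mod_cast (show 3 * fixNum Ω g ≤ Fintype.card Ω by omega)
  by_cases hbig : k = 3 ∧ Fintype.card Ω ≤ 2 * s - 1
  · left
    obtain ⟨hk3, hbig⟩ := hbig
    have hn1 : (7 : ℚ) ≤ Fintype.card Ω := by exact_mod_cast hn
    refine sum_div_ge_of_fix_le a b (2 * (Fintype.card Ω : ℚ) / ((Fintype.card Ω : ℚ) - 1))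
      (fun g hg hg1 => ?_) ?_
    · have h1 := fixNum_mul_le h2 hab hg1
      rw [show (lineFin G a b).card - 1 = 2 by omega] at h1
      have h3 : (2 : ℚ) * fixNum Ω g + 1 ≤ Fintype.card Ω := by
        exact_mod_cast (show 2 * fixNum Ω g + 1 ≤ Fintype.card Ω by omega)
      rw [div_mul_eq_mul_div, div_le_iff₀ (by linarith)]
      nlinarith
    · have h3 : (Fintype.card Ω : ℚ) + 1 ≤ 2 * s := by
        exact_mod_cast (show Fintype.card Ω + 1 ≤ 2 * s by omega)
      rw [mul_div_assoc', ← sub_nonneg, show (1 : ℚ) + (s - 1) * (2 * (Fintype.card Ω : ℚ)) /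
        ((Fintype.card Ω : ℚ) - 1) - 2 * s = (2 * s - Fintype.card Ω - 1) / ((Fintype.card Ω : ℚ) - 1) by
          have : (Fintype.card Ω : ℚ) - 1 ≠ 0 := by linarith
          field_simp; ring]
      exact div_nonneg (by linarith) (by linarith)
  rcases orbit_dichotomy h2 hn hab (by omega) with hall | hsmall
  · rcases (show k = 2 ∨ k = 3 by omega) with hk' | hk'
    · left
      have hs2' := card_eq_two_of_line_two h2 hab hk' (by omega) hall
      refine sum_div_ge_of_sum_le a b hs ?_
      obtain ⟨hsq, hhalf, -⟩ := small_orbit_facts hall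
      have hP := two_mul_sum_fix_le a b (∅ : Finset Ω) 0 (G := G) (by simp) (by simp)
      rw [Nat.zero_mul, Nat.add_zero, ← hk, hk', hs2'] at hP
      rw [hs2']
      omega
    · exact bound_line_three h2 hab hs hk' hall
  · left
    refine sum_div_ge_of_sum_le a b hs ?_
    rw [← hk, ← hs'] at hsmall
    rw [← hs']
    set P := ∑ g ∈ pairStab (G := G) a b, fixNum Ω g
    set n := Fintype.card Ω
    obtain ⟨t, ht⟩ : ∃ t, s = t + 1 := ⟨s - 1, by omega⟩
    rw [ht] at hsmall hbig ⊢
    rw [show 2 * (t + 1) - 1 = 2 * t + 1 by omega]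
    rcases (show k = 2 ∨ k = 3 by omega) with hk' | hk' <;> rw [hk'] at hsmall
    · nlinarith
    · have hbig' : 2 * t + 2 ≤ n := by
        by_contra hcon
        exact hbig ⟨hk', by omega⟩
      nlinarith

end CfsgLib.Fixity.Bound
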