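import Mathlib
import Cfsg.Agent.Lib.NormalPComplement.Thompson

/-!
A nonabelian simple group `T` has no group of automorphisms and anti-automorphisms, containing
the inner ones, in which every point stabiliser is maximal or everything. The proof uses
Burnside's transfer theorem and Thompson's normal `p`-complement theorem (no Feit–Thompson).
-/

set_option autoImplicit false
set_option linter.style.haveILetI false

namespace CfsgLib.Fixity

universe u

variable {T : Type u} [Group T] {H : Type*} [Group H] (ρ : H →* Equiv.Perm T)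

/-- Elements of `H` fixing the point `t`. -/
def pointStab (t : T) : Subgroup H where
  carrier := {h | ρ h t = t}
  one_mem' := by simp
  mul_mem' := fun {h k} hh hk => by
    simp only [Set.mem_setOf_eq] at hh hk ⊢
    rw [map_mul, Equiv.Perm.mul_apply, hk, hh]
  inv_mem' := fun {h} hh => by
    simp only [Set.mem_setOf_eq] at hh ⊢
    rw [map_inv, Equiv.Perm.inv_eq_iff_eq]; exact hh.symm

/-- Elements of `H` preserving the set `X`. -/
def setStab (X : Set T) : Subgroup H where
  carrier := {h | ∀ y, ρ h y ∈ X ↔ y ∈ X}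
  one_mem' := by simp
  mul_mem' := fun {h k} hh hk y => by rw [map_mul, Equiv.Perm.mul_apply, hh, hk]
  inv_mem' := fun {h} hh y => by
    rw [map_inv]
    conv_rhs => rw [← Equiv.apply_symm_apply (ρ h) y, hh]
    rfl

theorem mem_pointStab {t : T} {h : H} : h ∈ pointStab ρ t ↔ ρ h t = t := Iff.rfl

variable (hauto : ∀ h, ∃ φ : MulAut T, (∀ x, ρ h x = φ x) ∨ (∀ x, ρ h x = (φ x)⁻¹))
  (hinn : ∀ x : T, ∃ h, ∀ y, ρ h y = x * y * x⁻¹)
  (hmax : ∀ t : T, t ≠ 1 → ∀ L : Subgroup H, pointStab ρ t ≤ L → L = pointStab ρ t ∨ L = ⊤)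

include hauto in
theorem pointStab_le_of_pow (x : T) (n : ℤ) : pointStab ρ x ≤ pointStab ρ (x ^ n) := by
  intro h hh
  obtain ⟨φ, hφ | hφ⟩ := hauto h
  · rw [mem_pointStab, hφ] at hh ⊢; rw [map_zpow, hh]
  · rw [mem_pointStab, hφ] at hh ⊢; rw [map_zpow, ← inv_zpow, hh]

include hauto in
theorem le_setStab_of_map {L : Subgroup H} {X : Subgroup T}
    (hX : ∀ h ∈ L, ∀ φ : MulAut T, ((∀ x, ρ h x = φ x) ∨ (∀ x, ρ h x = (φ x)⁻¹)) →
      X.map φ.toMonoidHom = X) : L ≤ setStab ρ (X : Set T) := by
  intro h hh y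
  obtain ⟨φ, hφ⟩ := hauto h
  have h1 : φ y ∈ X ↔ y ∈ X := by
    conv_lhs => rw [← hX h hh φ hφ]
    exact Subgroup.mem_map_iff_mem φ.injective
  rcases hφ with hφ | hφ <;> simp only [SetLike.mem_coe, hφ, inv_mem_iff, h1]

include hinn in
theorem conj_fix_iff {x t : T} :
    (∀ h, (∀ y, ρ h y = x * y * x⁻¹) → h ∈ pointStab ρ t) ↔ x * t = t * x := by
  constructor
  · intro hall
    obtain ⟨h, hh⟩ := hinn x
    have := hall h hh
    rwa [mem_pointStab, hh, mul_inv_eq_iff_eq_mul] at this
  · intro hc h hh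
    rwa [mem_pointStab, hh, mul_inv_eq_iff_eq_mul]

variable [IsSimpleGroup T]

include hinn hmax in
theorem normalizer_commutes {t : T} (ht : t ≠ 1) {X : Subgroup T} (hX0 : X ≠ ⊥) (hX1 : X ≠ ⊤)
    (hle : pointStab ρ t ≤ setStab ρ (X : Set T)) {n : T}
    (hn : n ∈ Subgroup.normalizer (X : Set T)) : n * t = t * n := by
  refine (conj_fix_iff ρ hinn).1 fun h hh => ?_
  rcases hmax t ht _ hle with he | he
  · rw [← he]
    intro y
    rw [hh]
    exact (Subgroup.mem_normalizer_iff.1 hn y).symm
  · exfalso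
    have : X.Normal := ⟨fun y hy x => by
      obtain ⟨k, hk⟩ := hinn x
      have hm : k ∈ setStab ρ (X : Set T) := he ▸ Subgroup.mem_top k
      rw [← hk]; exact (hm y).2 hy⟩
    rcases this.eq_bot_or_eq_top with h' | h'
    · exact hX0 h'
    · exact hX1 h'

omit [IsSimpleGroup T] in
theorem center_eq_bot_of_simple [IsSimpleGroup T] (hna : ¬ IsMulCommutative T) :
    Subgroup.center T = ⊥ :=
  ((inferInstance : (Subgroup.center T).Normal).eq_bot_or_eq_top).resolve_right fun h =>
    hna ⟨⟨fun x y => (Subgroup.mem_center_iff.1 (h ▸ Subgroup.mem_top y) x)⟩⟩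

variable [Finite T] (hna : ¬ IsMulCommutative T)

include hauto hinn hmax hna in
theorem not_even : ¬ 2 ∣ Nat.card T := by
  intro h2
  haveI := Fact.mk Nat.prime_two
  obtain ⟨v, hv⟩ := exists_prime_orderOf_dvd_card' 2 h2
  have hz := center_eq_bot_of_simple hna
  have hex : ∃ u w : T, u * u = 1 ∧ w * w = 1 ∧ u * w ≠ w * u := by
    by_contra hc
    push Not at hc
    set K := Subgroup.closure {u : T | u * u = 1} with hK
    have hKn : K.Normal := ⟨fun y hy x => by
      induction hy using Subgroup.closure_induction with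
      | mem g hg =>
        refine Subgroup.subset_closure ?_
        simp only [Set.mem_setOf_eq] at hg ⊢
        calc x * g * x⁻¹ * (x * g * x⁻¹) = x * (g * g) * x⁻¹ := by group
          _ = 1 := by simp [hg]
      | one => simp
      | mul a b _ _ ha hb =>
        rw [show x * (a * b) * x⁻¹ = (x * a * x⁻¹) * (x * b * x⁻¹) by group]; exact mul_mem ha hb
      | inv a _ ha =>
        rw [show x * a⁻¹ * x⁻¹ = (x * a * x⁻¹)⁻¹ by group]; exact inv_mem ha⟩
    have hv2 : v * v = 1 := by rw [← pow_two, ← hv]; exact pow_orderOf_eq_one v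
    have hvK : v ∈ K := Subgroup.subset_closure hv2
    rcases hKn.eq_bot_or_eq_top with h | h
    · rw [h, Subgroup.mem_bot] at hvK
      rw [hvK, orderOf_one] at hv
      omega
    · have hvc : v ∈ Subgroup.center T := Subgroup.mem_center_iff.2 fun g => by
        have hg : g ∈ K := h ▸ Subgroup.mem_top g
        induction hg using Subgroup.closure_induction with
        | mem g hg => exact hc g v hg hv2
        | one => simp
        | mul a b _ _ ha hb => rw [mul_assoc, hb, ← mul_assoc, ha, mul_assoc]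
        | inv a _ ha => exact (Commute.inv_left ha).eq
      rw [hz, Subgroup.mem_bot] at hvc
      rw [hvc, orderOf_one] at hv
      omega
  obtain ⟨u, w, hu, hw, huw⟩ := hex
  have hs1 : u * w ≠ 1 := fun h => huw (by
    have h' : u = w := by rw [← mul_one u, ← hw, ← mul_assoc, h, one_mul]
    rw [h'])
  have hn : u ∈ Subgroup.normalizer (Subgroup.zpowers (u * w) : Set T) := by
    rw [← CoprimeAction.conj_smul_eq_self]
    show (Subgroup.zpowers (u * w)).map (MulAut.conj u).toMonoidHom = _
    rw [MonoidHom.map_zpowers]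
    simp only [MulEquiv.toMonoidHom_eq_coe, MonoidHom.coe_coe, MulAut.conj_apply]
    rw [show u * (u * w) * u⁻¹ = (u * w)⁻¹ by
      rw [← mul_assoc, hu, one_mul, mul_inv_rev, inv_eq_of_mul_eq_one_left hw]]
    exact Subgroup.zpowers_inv
  have hne : Subgroup.zpowers (u * w) ≠ ⊤ := fun h => hna ⟨⟨fun a b => by
    obtain ⟨i, rfl⟩ := (h ▸ Subgroup.mem_top a : a ∈ Subgroup.zpowers (u * w))
    obtain ⟨j, rfl⟩ := (h ▸ Subgroup.mem_top b : b ∈ Subgroup.zpowers (u * w))
    exact ((Commute.refl (u * w)).zpow_zpow i j).eq⟩⟩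
  have hcomm := normalizer_commutes ρ hinn hmax hs1 (by simpa using hs1) hne
    (le_setStab_of_map ρ hauto fun h hh φ hφ => by
      rw [MonoidHom.map_zpowers]
      rcases hφ with hφ | hφ
      · rw [mem_pointStab, hφ] at hh
        rw [MulEquiv.toMonoidHom_eq_coe, MonoidHom.coe_coe, hh]
      · rw [mem_pointStab, hφ, inv_eq_iff_eq_inv] at hh
        rw [MulEquiv.toMonoidHom_eq_coe, MonoidHom.coe_coe, hh, Subgroup.zpowers_inv]) hn
  refine huw ?_
  rw [← mul_assoc, hu, one_mul] at hcomm
  have : u * (w) * u = w := hcomm.symm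
  calc u * w = u * w * (u * u) := by rw [hu, mul_one]
    _ = u * w * u * u := by group
    _ = w * u := by rw [this]

include hauto hinn hmax hna in
/-- The group of the hypotheses does not exist. -/
theorem false_of_maximal_pointStab : False := by
  have hz := center_eq_bot_of_simple hna
  have hT : 1 < Nat.card T := Finite.one_lt_card
  obtain ⟨p, hp, hpd⟩ := Nat.exists_prime_and_dvd hT.ne'
  have hp2 : p ≠ 2 := fun h => not_even ρ hauto hinn hmax hna (h ▸ hpd)
  haveI := Fact.mk hp
  obtain ⟨P⟩ : Nonempty (Sylow p T) := inferInstance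
  have hPb : (P : Subgroup T) ≠ ⊥ := P.ne_bot_of_dvd_card hpd
  have hPt : (P : Subgroup T) ≠ ⊤ := fun h => by
    have : IsPGroup p T := P.2.of_equiv ((MulEquiv.subgroupCongr h).trans Subgroup.topEquiv)
    haveI := this.center_nontrivial
    exact (Subgroup.nontrivial_iff_ne_bot _).1 ‹_› hz
  obtain ⟨z, ⟨hzP, hzC⟩, hz1⟩ := (Subgroup.bot_or_exists_ne_one _).resolve_left
    (NormalPComplement.inf_centralizer_ne_bot P.2 hPb)
  set A := Subgroup.centralizer ({z} : Set T) with hA
  have hmemA : ∀ x, x ∈ A ↔ x * z = z * x := fun x => by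
    rw [hA, Subgroup.mem_centralizer_singleton_iff]
  have hPA : (P : Subgroup T) ≤ A := fun x hx => (hmemA x).2 (hzC x hx)
  have hAt : A ≠ ⊤ := fun h => hz1 (by
    have : z ∈ Subgroup.center T := Subgroup.mem_center_iff.2 fun g =>
      (hmemA g).1 (h ▸ Subgroup.mem_top g)
    rwa [hz, Subgroup.mem_bot] at this)
  have hstabA : pointStab ρ z ≤ setStab ρ (A : Set T) := by
    refine le_setStab_of_map ρ hauto fun h hh φ hφ => ?_
    ext y
    obtain ⟨y, rfl⟩ := φ.surjective y
    rw [Subgroup.mem_map_equiv, MulEquiv.symm_apply_apply, hmemA, hmemA]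
    rcases hφ with hφ | hφ
    · rw [mem_pointStab, hφ] at hh
      rw [← φ.injective.eq_iff (a := y * z), map_mul, map_mul, hh]
    · rw [mem_pointStab, hφ, inv_eq_iff_eq_inv] at hh
      rw [← φ.injective.eq_iff (a := y * z), map_mul, map_mul, hh]
      exact ⟨fun h => by simpa using (show Commute (φ y) z⁻¹ from h).inv_right.eq,
        fun h => (show Commute (φ y) z from h).inv_right.eq⟩
  have hzpow : ∀ {q : ℕ}, q.Prime → q ≠ p → ∀ {c : T}, c ∈ A → orderOf c = q →
      ∀ b ∈ (P : Subgroup T), b * c = c * b → b ≠ 1 →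
        ∀ x, x * b = b * x ↔ x * c = c * x := by
    intro q hq hqp c hc hoc b hb hbc hb1
    have hcop : Nat.Coprime (orderOf b) (orderOf c) := by
      obtain ⟨k, hk⟩ := IsPGroup.iff_orderOf.1 P.2 (⟨b, hb⟩ : (P : Subgroup T))
      rw [← Subgroup.orderOf_coe] at hk
      rw [hk, hoc]
      exact Nat.Coprime.pow_left k ((Nat.coprime_primes hp hq).2 (Ne.symm hqp))
    have hc1 : c ≠ 1 := fun h => hq.ne_one (by rw [← hoc, h, orderOf_one])
    have hcomm : Commute b c := hbc
    have hbc1 : b * c ≠ 1 := fun h => hb1 (by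
      have h1 := hcomm.orderOf_mul_eq_mul_orderOf_of_coprime hcop
      rw [h, orderOf_one] at h1
      exact orderOf_eq_one_iff.1 (Nat.eq_one_of_mul_eq_one_right h1.symm))
    have key : ∀ y : T, y ≠ 1 → (∃ n : ℤ, (b * c) ^ n = y) →
        pointStab ρ y = pointStab ρ (b * c) := by
      rintro y hy ⟨n, rfl⟩
      refine (hmax _ hbc1 _ (pointStab_le_of_pow ρ hauto _ n)).resolve_right fun h => hy ?_
      have hcen : (b * c) ^ n ∈ Subgroup.center T := Subgroup.mem_center_iff.2 fun g =>
        (conj_fix_iff ρ hinn).1 fun k _ => h ▸ Subgroup.mem_top k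
      rwa [hz, Subgroup.mem_bot] at hcen
    have hgen : ∀ y, (y = b ∨ y = c) → ∃ n : ℤ, (b * c) ^ n = y := by
      intro y hy
      have hb' : Subgroup.zpowers b ≤ Subgroup.zpowers (b * c) := by
        rw [Subgroup.zpowers_le]
        obtain ⟨m, hm⟩ := exists_pow_eq_self_of_coprime (x := b) hcop.symm
        refine ⟨((orderOf c * m : ℕ) : ℤ), ?_⟩
        simp only [zpow_natCast]
        rw [pow_mul, hcomm.mul_pow, pow_orderOf_eq_one, mul_one, hm]
      rcases hy with hy | hy
      · rw [hy]; exact hb' (Subgroup.mem_zpowers _)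
      · rw [hy]
        have : b⁻¹ * (b * c) ∈ Subgroup.zpowers (b * c) :=
          mul_mem (inv_mem (hb' (Subgroup.mem_zpowers _))) (Subgroup.mem_zpowers _)
        rwa [inv_mul_cancel_left] at this
    have heq : pointStab ρ b = pointStab ρ c :=
      (key b hb1 (hgen b (Or.inl rfl))).trans (key c hc1 (hgen c (Or.inr rfl))).symm
    intro x
    rw [← conj_fix_iff ρ hinn, ← conj_fix_iff ρ hinn, heq]
  have hcompl : Cfsg.HasNormalPComplement p T := by
    by_cases hex : ∃ q : ℕ, q.Prime ∧ q ≠ p ∧ ∃ c ∈ A, orderOf c = q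
    · obtain ⟨q, hq, hqp, c, hc, hoc⟩ := hex
      have hzc := hzpow hq hqp hc hoc z hzP ((hmemA c).1 hc).symm hz1
      have hbeq : ∀ b ∈ (P : Subgroup T), b ≠ 1 → ∀ x, x * b = b * x ↔ x ∈ A := fun b hb hb1 x => by
        rw [hzpow hq hqp hc hoc b hb ((hzc b).1 ((hmemA b).1 (hPA hb))) hb1 x, ← hzc x, hmemA]
      refine ⟨P, _, inferInstance, MonoidHom.ker_transferSylow_isComplement' P fun n hn => ?_⟩
      intro y hy
      rcases eq_or_ne y 1 with rfl | hy1
      · simp
      have hnz : n * z * n⁻¹ ∈ (P : Subgroup T) := (Subgroup.mem_normalizer_iff.1 hn z).1 hzP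
      have hnz1 : n * z * n⁻¹ ≠ 1 := fun h => hz1 (conj_eq_one_iff.1 h)
      have hnA : n ∈ Subgroup.normalizer (A : Set T) := Subgroup.mem_normalizer_iff.2 fun x => by
        rw [← hbeq _ hnz hnz1 (n * x * n⁻¹), hmemA]
        constructor
        · intro h
          calc n * x * n⁻¹ * (n * z * n⁻¹) = n * (x * z) * n⁻¹ := by group
            _ = n * (z * x) * n⁻¹ := by rw [h]
            _ = _ := by group
        · intro h
          have h' := congrArg (fun w => n⁻¹ * w * n) h
          simpa [mul_assoc] using h'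
      have hAb : A ≠ ⊥ := fun h => hPb (eq_bot_iff.2 (h ▸ hPA))
      exact ((hbeq y hy hy1 n).2 ((hmemA n).2
        (normalizer_commutes ρ hinn hmax hz1 hAb hAt hstabA hnA))).symm
    · have hApg : IsPGroup p A := by
        refine IsPGroup.of_card (n := (Nat.card A).primeFactorsList.length)
          (Nat.eq_prime_pow_of_unique_prime_dvd Nat.card_pos.ne' fun {d} hd hdd => ?_)
        haveI := Fact.mk hd
        obtain ⟨c, hc⟩ := exists_prime_orderOf_dvd_card' d hdd
        by_contra hne
        exact hex ⟨d, hd, hne, c, c.2, by rw [Subgroup.orderOf_coe, hc]⟩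
      have hAP : A = P := P.3 hApg hPA
      have hJb := NormalPComplement.thompsonSubgroupAOf_ne_bot (P := (P : Subgroup T)) hPb
      have hJt : Cfsg.thompsonSubgroupAOf (P : Subgroup T) ≠ ⊤ := fun h =>
        hPt (eq_top_iff.2 (h ▸ NormalPComplement.thompsonSubgroupAOf_le _))
      have hstabJ : pointStab ρ z ≤ setStab ρ
          (Cfsg.thompsonSubgroupAOf (P : Subgroup T) : Set T) := by
        refine le_setStab_of_map ρ hauto fun h hh φ hφ => ?_
        have hAmap : A.map φ.toMonoidHom = A := by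
          ext y
          obtain ⟨y, rfl⟩ := φ.surjective y
          rw [Subgroup.mem_map_equiv, MulEquiv.symm_apply_apply]
          have := hstabA hh y
          rcases hφ with hφ | hφ <;> simp only [SetLike.mem_coe, hφ, inv_mem_iff] at this <;>
            exact this.symm
        rw [hAP] at hAmap
        rw [NormalPComplement.map_thompsonSubgroupAOf (f := φ.toMonoidHom) φ.injective, hAmap]
      refine NormalPComplement.hasNormalPComplement_of_thompsonA hp2 P
        (NormalPComplement.hasNormalPComplement_of_isPGroup ?_)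
        (NormalPComplement.hasNormalPComplement_of_isPGroup ?_)
      · refine P.2.to_le fun n hn => ?_
        rw [← hAP, hmemA]
        exact normalizer_commutes ρ hinn hmax hz1 hJb hJt hstabJ hn
      · refine P.2.to_le fun n hn => ?_
        rw [← hAP, hmemA]
        exact (hn z ⟨hzP, hzC⟩).symm
  obtain ⟨Q, N, hN, hc⟩ := hcompl
  rcases hN.eq_bot_or_eq_top with h | h
  · subst h
    rw [Subgroup.isComplement'_bot_left] at hc
    have hQ := P.card_eq_multiplicity.trans Q.card_eq_multiplicity.symm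
    rw [hc, Subgroup.card_top] at hQ
    exact hPt (Subgroup.eq_top_of_card_eq _ hQ)
  · subst h
    rw [Subgroup.isComplement'_top_left] at hc
    exact Q.ne_bot_of_dvd_card hpd hc

end CfsgLib.Fixity
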