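import Cfsg.Agent.Lib.Fixity.Derangements
import Cfsg.Agent.Lib.Fixity.NoMaximalCentralizers

/-!
Extremely primitive groups are affine or almost simple.
-/

set_option autoImplicit false
set_option linter.style.haveILetI false

namespace CfsgLib.Fixity

open MulAction Subgroup

variable {G Ω : Type*} [Group G] [MulAction G Ω]

theorem mem_normalizer_cj {g : G} {S : Subgroup G} :
    g ∈ Subgroup.normalizer (S : Set G) ↔ cj g S = S := by
  rw [Subgroup.mem_normalizer_iff]
  constructor
  · intro h
    ext x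
    rw [mem_cj, h (g⁻¹ * x * g)]
    simp [mul_assoc]
  · intro h x
    conv_rhs => rw [← h, mem_cj]
    simp [mul_assoc]

/-- The stabiliser of `b` in the stabiliser of `a` is maximal in it or is all of it. -/
def HasMaximalSuborbitStabilizers (G : Type*) {Ω : Type*} [Group G] [MulAction G Ω] (a : Ω) :
    Prop :=
  ∀ b : Ω, b ≠ a → ∀ L : Subgroup G, stabilizer G a ⊓ stabilizer G b ≤ L → L ≤ stabilizer G a →
    L = stabilizer G a ⊓ stabilizer G b ∨ L = stabilizer G a

theorem maximal_of_suborbit_primitive {a : Ω}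
    (hep : ∀ ω : Ω, IsPreprimitive (stabilizer G a) (orbit (stabilizer G a) ω)) :
    HasMaximalSuborbitStabilizers G a := by
  intro b hb L hL hLa
  set H := stabilizer G a
  haveI := hep b
  have hst : stabilizer H (⟨b, mem_orbit_self b⟩ : orbit H b) = stabilizer H b := by
    ext h; simp only [mem_stabilizer_iff, Subtype.ext_iff, orbit.coe_smul]
  have hcast : ∀ h : G, h ∈ H ⊓ stabilizer G b ↔ ∃ hh : h ∈ H, (⟨h, hh⟩ : H) ∈ stabilizer H b :=
    fun h => ⟨fun x => ⟨x.1, x.2⟩, fun ⟨x, y⟩ => ⟨x, y⟩⟩
  by_cases hnt : Nontrivial (orbit H b)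
  · have hco := IsPreprimitive.isCoatom_stabilizer_of_isPreprimitive H (⟨b, mem_orbit_self b⟩ : orbit H b)
    rw [hst] at hco
    have hle : stabilizer H b ≤ L.subgroupOf H := fun h hh => hL ⟨h.2, hh⟩
    rcases eq_or_lt_of_le hle with he | hlt
    · left
      refine le_antisymm (fun x hx => ?_) hL
      exact (hcast x).2 ⟨hLa hx, he ▸ hx⟩
    · right
      refine le_antisymm hLa fun x hx => ?_
      have := (hco.2 _ hlt) ▸ Subgroup.mem_top (⟨x, hx⟩ : H)
      exact this
  · right
    rw [not_nontrivial_iff_subsingleton] at hnt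
    refine le_antisymm hLa fun x hx => hL ⟨hx, ?_⟩
    exact congrArg Subtype.val (@Subsingleton.elim _ hnt
      ((⟨x, hx⟩ : H) • (⟨b, mem_orbit_self b⟩ : orbit H b)) ⟨b, mem_orbit_self b⟩)

/-- A regular simple subgroup whose conjugates under `H = G_a` are itself or one commuting
partner cannot occur when the suborbit stabilisers are maximal. -/
theorem false_of_simple_regular [Finite G] [FaithfulSMul G Ω] {S : Subgroup G} (hS : IsSimpleGroup S)
    (hna : ¬ IsMulCommutative S) (a : Ω) (hbij : Function.Bijective fun s : S => (s : G) • a)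
    (hH : ∀ h ∈ stabilizer G a, cj h S = S ∨ cj h S ≤ centralizer (S : Set G))
    (hinn : ∀ x ∈ S, ∃ c ∈ centralizer (S : Set G), (x * c) • a = a)
    (hmax : HasMaximalSuborbitStabilizers G a) : False := by
  classical
  let e : S ≃ Ω := Equiv.ofBijective _ hbij
  let ρ : stabilizer G a →* Equiv.Perm S :=
    (e.symm.permCongrHom.toMonoidHom).comp (MulAction.toPermHom (stabilizer G a) Ω)
  have hρ : ∀ (h : stabilizer G a) (s : S), ((ρ h s : S) : G) • a = (h : G) • (s : G) • a :=
    fun h s => e.apply_symm_apply ((h : G) • (s : G) • a)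
  have hinj : ∀ s t : S, (s : G) • a = (t : G) • a → s = t := fun s t h => hbij.1 h
  have hha : ∀ (h : G), h ∈ stabilizer G a → ∀ s : G, h • s • a = (h * s * h⁻¹) • a := by
    intro h hh s
    rw [mul_smul, mul_smul, inv_smul_eq_iff.2 (mem_stabilizer_iff.1 hh).symm]
  haveI := hS
  refine false_of_maximal_pointStab ρ ?_ ?_ ?_ hna
  · intro h
    rcases hH h h.2 with he | he
    · have hmem : ∀ s : S, (h : G) * s * (h : G)⁻¹ ∈ S := fun s => by
        have := conj_mem_cj (g := (h : G)) s.2
        rwa [he] at this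
      let φ : S →* S := ((MulAut.conj (h : G)).toMonoidHom.comp S.subtype).codRestrict S hmem
      have hφ : Function.Bijective φ := Finite.injective_iff_bijective.1 fun s t hst => by
        apply Subtype.ext
        exact (MulAut.conj (h : G)).injective (congrArg Subtype.val hst)
      refine ⟨MulEquiv.ofBijective φ hφ, Or.inl fun s => hinj _ _ ?_⟩
      rw [hρ]
      exact hha h h.2 s
    · have hC : ∀ s : S, (h : G) * s * (h : G)⁻¹ ∈ centralizer (S : Set G) :=
        fun s => he (conj_mem_cj s.2)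
      have hθ : ∀ s : S, ((ρ h s : S) : G) • a = ((h : G) * s * (h : G)⁻¹) • a := fun s => by
        rw [hρ]; exact hha h h.2 s
      let φ : S →* S :=
        { toFun := fun s => (ρ h s)⁻¹
          map_one' := by
            have : ρ h 1 = 1 := hinj _ _ (by rw [hθ]; simp)
            rw [this, inv_one]
          map_mul' := fun s t => by
            have : ρ h (s * t) = ρ h t * ρ h s := by
              apply hinj
              rw [hθ, Subgroup.coe_mul, Subgroup.coe_mul,
                show (h : G) * (s * t) * (h : G)⁻¹ = ((h : G) * s * (h : G)⁻¹) * ((h : G) * t * (h : G)⁻¹) by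
                  simp [mul_assoc],
                mul_smul, ← hθ t, ← mul_smul, ← hC s _ (ρ h t).2, mul_smul, ← hθ s, ← mul_smul]
            rw [this, mul_inv_rev] }
      have hφ : Function.Bijective φ := Finite.injective_iff_bijective.1 fun s t hst =>
        (ρ h).injective (inv_injective hst)
      exact ⟨MulEquiv.ofBijective φ hφ, Or.inr fun s => (inv_inv (ρ h s)).symm⟩
  · intro x
    obtain ⟨c, hc, hca⟩ := hinn x x.2
    refine ⟨⟨(x : G) * c, hca⟩, fun y => hinj _ _ ?_⟩
    rw [hρ]
    refine (hha _ hca y).trans ?_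
    rw [mul_inv_rev, Subgroup.coe_mul, Subgroup.coe_mul, Subgroup.coe_inv, mul_assoc (x : G) c,
      ← hc y y.2]
    group
  · intro t ht L hL
    have hb : (t : G) • a ≠ a := fun h => ht (hinj t 1 (by rw [h, Subgroup.coe_one, one_smul]))
    have hst : ∀ h : stabilizer G a, h ∈ pointStab ρ t ↔ (h : G) • (t : G) • a = (t : G) • a := by
      intro h
      rw [mem_pointStab]
      constructor
      · intro hh; rw [← hρ, hh]
      · intro hh; exact hinj _ _ (by rw [hρ, hh])
    have hle : stabilizer G a ⊓ stabilizer G ((t : G) • a) ≤ L.map (stabilizer G a).subtype :=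
      fun x hx => ⟨⟨x, hx.1⟩, hL ((hst ⟨x, hx.1⟩).2 hx.2), rfl⟩
    rcases hmax _ hb _ hle (map_subtype_le L) with he | he
    · left
      refine le_antisymm (fun x hx => (hst x).2 ?_) hL
      have : (x : G) ∈ stabilizer G a ⊓ stabilizer G ((t : G) • a) := he ▸ ⟨x, hx, rfl⟩
      exact this.2
    · right
      refine eq_top_iff.2 fun x _ => ?_
      obtain ⟨y, hy, hyx⟩ := he.symm.le x.2
      rwa [← Subtype.ext hyx]

theorem isPretransitive_of_normal_ne_bot [FaithfulSMul G Ω] (hprim : IsPreprimitive G Ω)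
    {M : Subgroup G} [M.Normal] (hM : M ≠ ⊥) : IsPretransitive M Ω := by
  haveI := hprim
  refine IsQuasiPreprimitive.isPretransitive_of_normal fun h => hM ?_
  refine (eq_bot_iff_forall _).2 fun m hm => eq_of_smul_eq_smul (α := Ω) fun w => ?_
  have hw : w ∈ fixedPoints M Ω := by rw [h]; trivial
  rw [one_smul]; exact hw ⟨m, hm⟩

/-- A group with suborbit stabilisers maximal is affine or almost simple. -/
theorem false_of_maximal_suborbit_stabilizers [Finite G] [Finite Ω] [FaithfulSMul G Ω]
    (hprim : IsPreprimitive G Ω) (hΩ : 2 ≤ Nat.card Ω) (a : Ω)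
    (hmax : HasMaximalSuborbitStabilizers G a)
    (hna : ∀ N : Subgroup G, N.Normal → IsMulCommutative N → N = ⊥)
    (hnas : ¬ ∃ T : Subgroup G, T.Normal ∧ IsSimpleGroup T ∧ ¬ IsMulCommutative T ∧
      centralizer (T : Set G) = ⊥) : False := by
  classical
  haveI hΩ' : Nontrivial Ω := Finite.one_lt_card_iff_nontrivial.1 (by omega)
  haveI := hprim
  set H := stabilizer G a with hHdef
  have hco : IsCoatom H := IsPreprimitive.isCoatom_stabilizer_of_isPreprimitive G a
  have htop : (⊤ : Subgroup G) ≠ ⊥ := by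
    intro h
    obtain ⟨x, y, hxy⟩ := exists_pair_ne Ω
    obtain ⟨g, hg⟩ := exists_smul_eq G x y
    have : g ∈ (⊥ : Subgroup G) := h ▸ Subgroup.mem_top g
    rw [Subgroup.mem_bot] at this
    rw [this, one_smul] at hg
    exact hxy hg
  have hHb : H ≠ ⊥ := by
    intro h
    rw [h] at hco
    obtain ⟨x, -, hx⟩ := (Subgroup.bot_or_exists_ne_one (⊤ : Subgroup G)).resolve_left htop
    have hz : Subgroup.zpowers x = ⊤ := hco.2 _ (bot_lt_iff_ne_bot.2 (by simpa using hx))
    refine htop (hna ⊤ inferInstance ⟨⟨fun u v => Subtype.ext ?_⟩⟩)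
    obtain ⟨i, hi⟩ := hz.symm.le (Subgroup.mem_top (u : G))
    obtain ⟨j, hj⟩ := hz.symm.le (Subgroup.mem_top (v : G))
    simp only [Subgroup.coe_mul, ← hi, ← hj]
    exact ((Commute.refl x).zpow_zpow i j).eq
  -- the stabiliser fixes no second point
  have hnofix : ∀ b : Ω, b ≠ a → ¬ H ≤ stabilizer G b := by
    intro b hb hle
    obtain ⟨g, rfl⟩ := exists_smul_eq G a b
    have hgH : g ∈ Subgroup.normalizer (H : Set G) := by
      have : cj g H = H := by
        have h1 : stabilizer G (g • a) = cj g H := stabilizer_smul_eq_stabilizer_map_conj g a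
        refine h1.symm.trans ?_
        exact ((le_antisymm hle ((hco.le_iff.1 hle).resolve_left
          (IsPreprimitive.isCoatom_stabilizer_of_isPreprimitive G (g • a)).1).le)).symm
      exact mem_normalizer_cj.2 this
    rcases eq_or_lt_of_le (Subgroup.le_normalizer (H := H)) with he | he
    · rw [← he] at hgH; exact hb hgH
    · have hn : H.Normal := Subgroup.normalizer_eq_top_iff.1 (hco.2 _ he)
      have := isPretransitive_of_normal_ne_bot (M := H) hprim hHb
      obtain ⟨x, y, hxy⟩ := exists_pair_ne Ω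
      obtain ⟨h₁, h₁'⟩ := exists_smul_eq H a x
      obtain ⟨h₂, h₂'⟩ := exists_smul_eq H a y
      exact hxy (by rw [← h₁', ← h₂', Subgroup.smul_def, Subgroup.smul_def,
        mem_stabilizer_iff.1 h₁.2, mem_stabilizer_iff.1 h₂.2])
  obtain ⟨N, hN⟩ := exists_minimal_of_wellFoundedLT (fun X : Subgroup G => X.Normal ∧ X ≠ ⊥)
    ⟨⊤, inferInstance, htop⟩
  haveI := hN.1.1
  have hmin : ∀ M : Subgroup G, M.Normal → M ≤ N → M = ⊥ ∨ M = N := fun M hM hle =>
    or_iff_not_imp_left.2 fun hb => le_antisymm hle (hN.2 ⟨hM, hb⟩ hle)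
  have hNna : ¬ IsMulCommutative N := fun h => hN.1.2 (hna N inferInstance h)
  obtain ⟨S, hS⟩ := exists_factor N hN.1.2
  have hSC := hS.inf_centralizer hmin hNna
  haveI hNt := isPretransitive_of_normal_ne_bot (M := N) hprim hN.1.2
  have hSsimple := hS.isSimpleGroup hmin
  have hSna : ¬ IsMulCommutative S := fun h => hS.ne_bot <| (eq_bot_iff_forall _).2 fun x hx => by
    have : x ∈ S ⊓ centralizer (S : Set G) :=
      ⟨hx, (Subgroup.le_centralizer_iff_isMulCommutative.2 h) hx⟩
    rwa [hSC, Subgroup.mem_bot] at this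
  have hHfac : ∀ g : G, IsFactor N (cj g S) := fun g => hS.map g
  have hha : ∀ h ∈ H, ∀ s : G, h • s • a = (h * s * h⁻¹) • a := by
    intro h hh s
    rw [mul_smul, mul_smul, inv_smul_eq_iff.2 (mem_stabilizer_iff.1 hh).symm]
  have hconjNa : ∀ h ∈ H, ∀ m ∈ N ⊓ H, h * m * h⁻¹ ∈ N ⊓ H := fun h hh m hm =>
    ⟨hN.1.1.conj_mem m hm.1 h, Subgroup.mul_mem _ (Subgroup.mul_mem _ hh hm.2) (Subgroup.inv_mem _ hh)⟩
  by_cases hM : N ⊓ H = ⊥
  · -- `N` is regular
    have hreg : ∀ x ∈ N, ∀ w : Ω, x • w = w → x = 1 := by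
      intro x hx w hw
      obtain ⟨n, rfl⟩ := exists_smul_eq N a w
      have : (n : G)⁻¹ * x * n ∈ N ⊓ H := by
        refine ⟨Subgroup.mul_mem _ (Subgroup.mul_mem _ (Subgroup.inv_mem _ n.2) hx) n.2, ?_⟩
        show ((n : G)⁻¹ * x * n) • a = a
        rw [mul_smul, mul_smul, inv_smul_eq_iff]
        exact hw
      rw [hM, Subgroup.mem_bot] at this
      calc x = (n : G) * ((n : G)⁻¹ * x * n) * (n : G)⁻¹ := by simp [mul_assoc]
        _ = 1 := by rw [this]; simp
    have hinjN : ∀ x ∈ N, ∀ y ∈ N, x • a = y • a → x = y := fun x hx y hy h => by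
      have := hreg _ (mul_mem (inv_mem hy) hx) a (by rw [mul_smul, h, inv_smul_smul])
      exact (inv_mul_eq_one.1 this).symm
    by_cases hmove : ∃ h ∈ H, cj h S ≠ S
    · obtain ⟨h₀, hh₀, hne₀⟩ := hmove
      set K := H ⊓ Subgroup.normalizer (S : Set G) with hK
      have hKne : K ≠ H := fun he => hne₀ (mem_normalizer_cj.1 (he.symm.le hh₀).2)
      -- the stabiliser of a point of a factor is the normaliser of the factor
      have hKfix : ∀ s ∈ S, ∀ k ∈ K, k * s * k⁻¹ = s := by
        intro s hs k hk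
        rcases eq_or_ne s 1 with rfl | hs1
        · simp
        have hb : s • a ≠ a := fun he => hs1 (hreg s (hS.le hs) a he)
        have hle : H ⊓ stabilizer G (s • a) ≤ K := by
          rintro x ⟨hxH, hxb⟩
          refine ⟨hxH, mem_normalizer_cj.2 ?_⟩
          have hfix : x * s * x⁻¹ = s := hinjN _ (hN.1.1.conj_mem s (hS.le hs) x) _ (hS.le hs)
            (by rw [← hha x hxH s]; exact hxb)
          rcases (hHfac x).eq_or_disjoint hS with he | he
          · exact he
          · have : s ∈ cj x S ⊓ S := ⟨by rw [← hfix]; exact conj_mem_cj hs, hs⟩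
            rw [he.1, Subgroup.mem_bot] at this
            exact absurd this hs1
        have hKeq := (hmax _ hb K hle inf_le_left).resolve_right hKne
        have hkb : k • s • a = s • a := mem_stabilizer_iff.1 (hKeq.le hk).2
        exact hinjN _ (hN.1.1.conj_mem s (hS.le hs) k) _ (hS.le hs) (by rw [← hha k hk.1 s]; exact hkb)
      -- all factors have the same normaliser in `H`, so it centralises `N`
      have hKall : ∀ h ∈ H, cj h S ≠ S → ∀ k ∈ K, cj k (cj h S) = cj h S := by
        intro h hh hne k hk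
        obtain ⟨s, hs, hs1⟩ := (Subgroup.bot_or_exists_ne_one S).resolve_left hS.ne_bot
        obtain ⟨s', hs', hs'c⟩ : ∃ s' ∈ S, s' * s ≠ s * s' := by
          by_contra hc
          push Not at hc
          have : s ∈ S ⊓ centralizer (S : Set G) := ⟨hs, fun y hy => hc y hy⟩
          rw [hSC, Subgroup.mem_bot] at this
          exact hs1 this
        have hs'1 : s' ≠ 1 := fun he => hs'c (by simp [he])
        have hss' : s' ≠ s := fun he => hs'c (by rw [he])
        obtain ⟨hdisj, hcent⟩ := (hS.eq_or_disjoint (hHfac h)).resolve_left (Ne.symm hne)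
        set u := h * s' * h⁻¹ with hu
        have huT : u ∈ cj h S := conj_mem_cj hs'
        have hu1 : u ≠ 1 := fun he => hs'1 (conj_eq_one_iff.1 he)
        have hsuN : s * u ∈ N := mul_mem (hS.le hs) ((hHfac h).le huT)
        have hb : (s * u) • a ≠ a := fun he => by
          have h1 := hreg _ hsuN a he
          have h2 : s ∈ S ⊓ cj h S := ⟨hs, by rw [eq_inv_of_mul_eq_one_left h1]; exact Subgroup.inv_mem _ huT⟩
          rw [hdisj, Subgroup.mem_bot] at h2
          exact hs1 h2
        have hfixmem : ∀ x ∈ H ⊓ stabilizer G ((s * u) • a),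
            cj x S = S ∧ cj x (cj h S) = cj h S := by
          rintro x ⟨hxH, hxb⟩
          have hfix : (x * s * x⁻¹) * (x * u * x⁻¹) = s * u := by
            rw [show (x * s * x⁻¹) * (x * u * x⁻¹) = x * (s * u) * x⁻¹ by simp [mul_assoc]]
            exact hinjN _ (hN.1.1.conj_mem _ hsuN x) _ hsuN (by rw [← hha x hxH]; exact hxb)
          have hxs : x * s * x⁻¹ ∈ cj x S := conj_mem_cj hs
          have hxu : x * u * x⁻¹ ∈ cj x (cj h S) := conj_mem_cj huT
          have hA : IsFactor N (cj x S) := hHfac x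
          have hB : IsFactor N (cj x (cj h S)) := (hHfac h).map x
          have hAB : cj x S ≠ cj x (cj h S) := fun he =>
            hne (map_injective (MulAut.conj x).injective he).symm
          obtain ⟨-, hABc⟩ := (hA.eq_or_disjoint hB).resolve_left hAB
          -- a factor other than `S` and its conjugate centralises `s * u`
          have hAmem : cj x S = S ∨ cj x S = cj h S := by
            rcases hA.eq_or_disjoint hS with h1 | h1
            · exact Or.inl h1
            rcases hA.eq_or_disjoint (hHfac h) with h2 | h2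
            · exact Or.inr h2
            exfalso
            have hm : x * s * x⁻¹ ∈ cj x S ⊓ centralizer (cj x S : Set G) := by
              refine ⟨hxs, (Subgroup.mul_mem_cancel_right _ (hABc hxu)).1 ?_⟩
              rw [hfix]; exact mul_mem (h1.2 hs) (h2.2 huT)
            rw [hA.inf_centralizer hmin hNna, Subgroup.mem_bot] at hm
            exact hs1 (conj_eq_one_iff.1 hm)
          have hBmem : cj x (cj h S) = S ∨ cj x (cj h S) = cj h S := by
            rcases hB.eq_or_disjoint hS with h1 | h1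
            · exact Or.inl h1
            rcases hB.eq_or_disjoint (hHfac h) with h2 | h2
            · exact Or.inr h2
            exfalso
            have hm : x * u * x⁻¹ ∈ cj x (cj h S) ⊓ centralizer (cj x (cj h S) : Set G) := by
              refine ⟨hxu, (Subgroup.mul_mem_cancel_left _ (le_centralizer_iff.1 hABc hxs)).1 ?_⟩
              rw [hfix]; exact mul_mem (h1.2 hs) (h2.2 huT)
            rw [hB.inf_centralizer hmin hNna, Subgroup.mem_bot] at hm
            exact hu1 (conj_eq_one_iff.1 hm)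
          rcases hAmem with h1 | h1
          · exact ⟨h1, hBmem.resolve_left fun h2 => hAB (h1.trans h2.symm)⟩
          exfalso
          rw [h1] at hxs
          rw [hBmem.resolve_right fun h2 => hAB (h1.trans h2.symm)] at hxu
          have hfix' : (x * u * x⁻¹) * (x * s * x⁻¹) = s * u := by
            exact (hcent hxs _ hxu).trans hfix
          obtain ⟨-, hxsu⟩ := eq_of_mul_eq hdisj hxu hs hxs huT hfix'
          have hk' : h⁻¹ * x ∈ K := by
            refine ⟨Subgroup.mul_mem _ (Subgroup.inv_mem _ hh) hxH, mem_normalizer_cj.2 ?_⟩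
            ext z
            rw [mem_cj, show (h⁻¹ * x)⁻¹ * z * (h⁻¹ * x) = x⁻¹ * (h * z * h⁻¹) * x by simp [mul_assoc],
              ← mem_cj, h1, mem_cj]
            simp [mul_assoc]
          have h3 := hKfix s hs _ hk'
          refine hss' ?_
          rw [← h3]
          calc s' = h⁻¹ * u * h := by rw [hu]; simp [mul_assoc]
            _ = _ := by rw [← hxsu]; simp [mul_assoc]
        have h1 : H ⊓ stabilizer G ((s * u) • a) = K :=
          ((hmax _ hb K (fun x hx => ⟨hx.1, mem_normalizer_cj.2 (hfixmem x hx).1⟩) inf_le_left).resolve_right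
            hKne).symm
        exact (hfixmem k (h1.symm.le hk)).2
      have hKbot : ∀ k ∈ K, k = 1 := by
        intro k hk
        have hcj : ∀ g : G, ∀ y ∈ cj g S, k * y * k⁻¹ = y := by
          intro g y hy
          obtain ⟨n, hn⟩ := exists_smul_eq N (g • a) a
          have hh : (n : G) * g ∈ H := by rw [hHdef, mem_stabilizer_iff, mul_smul]; exact hn
          have hcjg : cj g S = cj ((n : G) * g) S := by
            ext z
            rw [mem_cj, mem_cj]
            have hnS : cj (g⁻¹ * (n : G)⁻¹ * g) S = S :=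
              mem_normalizer_cj.1 (Subgroup.mem_normalizer_iff.2 fun x => by
                have hmem : g⁻¹ * (n : G)⁻¹ * g ∈ N := by
                  simpa using hN.1.1.conj_mem _ (inv_mem n.2) g⁻¹
                refine ⟨hS.norm _ hmem x, fun hx => ?_⟩
                have := hS.norm _ (inv_mem hmem) _ hx
                simpa [mul_assoc] using this)
            conv_rhs => rw [← hnS, mem_cj]
            simp [mul_assoc]
          rw [hcjg, mem_cj] at hy
          set h := (n : G) * g
          have hk' : h⁻¹ * k * h ∈ K := by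
            refine ⟨Subgroup.mul_mem _ (Subgroup.mul_mem _ (Subgroup.inv_mem _ hh) hk.1) hh, mem_normalizer_cj.2 ?_⟩
            have hkh : cj k (cj h S) = cj h S := by
              by_cases hne : cj h S = S
              · rw [hne]; exact mem_normalizer_cj.1 hk.2
              · exact hKall h hh hne k hk
            ext z
            have h4 := SetLike.ext_iff.1 hkh (h * z * h⁻¹)
            simp only [mem_cj, mul_inv_rev, inv_inv] at h4 ⊢
            simp only [mul_assoc, inv_mul_cancel_left, inv_mul_cancel, mul_one] at h4 ⊢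
            exact h4
          have h5 := hKfix _ hy _ hk'
          calc k * y * k⁻¹ = h * ((h⁻¹ * k * h) * (h⁻¹ * y * h) * (h⁻¹ * k * h)⁻¹) * h⁻¹ := by
                simp [mul_assoc]
            _ = h * (h⁻¹ * y * h) * h⁻¹ := by rw [h5]
            _ = y := by simp [mul_assoc]
        have hcomm : ∀ x ∈ N, k * x * k⁻¹ = x := by
          intro x hx
          rw [← iSup_cj_eq hmin hS] at hx
          induction hx using Subgroup.iSup_induction' with
          | hp g x hx => exact hcj g x hx
          | h1 => simp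
          | hmul x y _ _ hx hy =>
            rw [show k * (x * y) * k⁻¹ = (k * x * k⁻¹) * (k * y * k⁻¹) by simp [mul_assoc], hx, hy]
        refine eq_of_smul_eq_smul (α := Ω) fun w => ?_
        obtain ⟨n, rfl⟩ := exists_smul_eq N a w
        rw [one_smul, Subgroup.smul_def, hha k hk.1, hcomm n n.2]
      -- so `H` is cyclic and fixes a second point
      have hh1 : h₀ ≠ 1 := fun he => hne₀ (by rw [he]; ext z; simp [mem_cj])
      have hgen : ∀ x ∈ H, x ∈ Subgroup.zpowers h₀ := by
        obtain ⟨s, hs, hs1⟩ := (Subgroup.bot_or_exists_ne_one S).resolve_left hS.ne_bot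
        have hb : s • a ≠ a := fun he => hs1 (hreg s (hS.le hs) a he)
        have hst : H ⊓ stabilizer G (s • a) ≤ Subgroup.zpowers h₀ := by
          rintro x ⟨hxH, hxb⟩
          have : x ∈ K := by
            refine ⟨hxH, mem_normalizer_cj.2 ?_⟩
            have hfix : x * s * x⁻¹ = s := hinjN _ (hN.1.1.conj_mem s (hS.le hs) x) _ (hS.le hs)
              (by rw [← hha x hxH s]; exact hxb)
            rcases (hHfac x).eq_or_disjoint hS with he | he
            · exact he
            · have : s ∈ cj x S ⊓ S := ⟨by rw [← hfix]; exact conj_mem_cj hs, hs⟩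
              rw [he.1, Subgroup.mem_bot] at this
              exact absurd this hs1
          rw [hKbot x this]; exact one_mem _
        rcases hmax _ hb _ hst (Subgroup.zpowers_le.2 hh₀) with he | he
        · exfalso
          have hm := he.le (Subgroup.mem_zpowers h₀)
          have hfix : h₀ * s * h₀⁻¹ = s := hinjN _ (hN.1.1.conj_mem s (hS.le hs) h₀) _ (hS.le hs)
            (by rw [← hha h₀ hh₀ s]; exact hm.2)
          obtain ⟨hd, -⟩ := (hS.eq_or_disjoint (hHfac h₀)).resolve_left (Ne.symm hne₀)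
          have : s ∈ S ⊓ cj h₀ S := ⟨hs, by rw [← hfix]; exact conj_mem_cj hs⟩
          rw [hd, Subgroup.mem_bot] at this
          exact hs1 this
        · exact fun x hx => he.symm.le hx
      obtain ⟨s, hs, hs1⟩ := (Subgroup.bot_or_exists_ne_one S).resolve_left hS.ne_bot
      -- `n₀ = (s h₀)^q` is fixed by `H`
      set q := orderOf h₀
      have hq : 0 < q := orderOf_pos h₀
      have hpow : ∀ i, i < q → ∃ c ∈ centralizer (S : Set G) ⊓ N, (s * h₀) ^ (i + 1) = s * c * h₀ ^ (i + 1) := by
        intro i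
        induction i with
        | zero => exact fun _ => ⟨1, one_mem _, by simp⟩
        | succ i ih =>
          intro hi
          obtain ⟨c, hc, hce⟩ := ih (by omega)
          have hpi : h₀ ^ (i + 1) ≠ 1 := pow_ne_one_of_lt_orderOf (by omega) hi
          have hnS : cj (h₀ ^ (i + 1)) S ≠ S := fun he =>
            hpi (hKbot _ ⟨pow_mem hh₀ _, mem_normalizer_cj.2 he⟩)
          obtain ⟨-, hcen⟩ := (hS.eq_or_disjoint (hHfac _)).resolve_left (Ne.symm hnS)
          refine ⟨c * (h₀ ^ (i + 1) * s * (h₀ ^ (i + 1))⁻¹),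
            mul_mem hc ⟨hcen (conj_mem_cj hs), hN.1.1.conj_mem s (hS.le hs) _⟩, ?_⟩
          rw [pow_succ (s * h₀), hce, pow_succ h₀ (i + 1)]
          simp [mul_assoc]
      obtain ⟨c, hc, hce⟩ := hpow (q - 1) (by omega)
      rw [Nat.sub_add_cancel hq, pow_orderOf_eq_one, mul_one] at hce
      have hsc1 : s * c ≠ 1 := fun he => hs1 (by
        have h2 : s ∈ S ⊓ centralizer (S : Set G) :=
          ⟨hs, by rw [eq_inv_of_mul_eq_one_left he]; exact Subgroup.inv_mem _ hc.1⟩
        rwa [hSC, Subgroup.mem_bot] at h2)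
      have hscN : s * c ∈ N := mul_mem (hS.le hs) hc.2
      have hcomm2 : (s * h₀) * (s * c) = (s * c) * (s * h₀) := by
        rw [← hce, ← pow_succ', ← pow_succ]
      have hfixh : h₀ * (s * c) * h₀⁻¹ = s * c := by
        have h2 : s⁻¹ * (s * c) * s = s * c := by
          rw [inv_mul_cancel_left, hc.1 s hs]
        calc h₀ * (s * c) * h₀⁻¹ = s⁻¹ * ((s * h₀) * (s * c)) * h₀⁻¹ := by simp [mul_assoc]
          _ = s⁻¹ * (s * c) * s := by rw [hcomm2]; simp [mul_assoc]
          _ = s * c := h2
      refine hnofix _ (fun he => hsc1 (hreg _ hscN a he)) ?_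
      have h0mem : h₀ ∈ stabilizer G ((s * c) • a) := by
        rw [mem_stabilizer_iff, hha h₀ hh₀, hfixh]
      exact fun x hx => Subgroup.zpowers_le.2 h0mem (hgen x hx)
    · -- `N` is simple; `G` lies in the holomorph
      push Not at hmove
      have hSN : N = S := by
        rw [← iSup_cj_eq hmin hS]
        refine le_antisymm (iSup_le fun g => ?_) (le_iSup_of_le 1 (by intro z hz; rw [mem_cj]; simpa using hz))
        intro z hz
        obtain ⟨n, hn⟩ := exists_smul_eq N (g • a) a
        have hh : (n : G) * g ∈ H := by rw [hHdef, mem_stabilizer_iff, mul_smul]; exact hn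
        have h1 := conj_mem_cj (g := (n : G)) hz
        have h2 : cj (n : G) (cj g S) = cj ((n : G) * g) S := by ext w; simp [mem_cj, mul_assoc]
        rw [h2, hmove _ hh] at h1
        have := hS.norm _ (inv_mem n.2) _ h1
        simpa [mul_assoc] using this
      have hC : centralizer (N : Set G) ≠ ⊥ := fun he =>
        hnas ⟨N, inferInstance, hSN.symm ▸ hSsimple, hNna, he⟩
      haveI := centralizer_normal_of_normal N
      haveI := isPretransitive_of_normal_ne_bot (M := centralizer (N : Set G)) hprim hC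
      refine false_of_simple_regular hSsimple hSna a ⟨fun x y hxy =>
          Subtype.ext (hinjN _ (hS.le x.2) _ (hS.le y.2) hxy), fun w => ?_⟩
        (fun h hh => Or.inl (hmove h hh)) (fun x hx => ?_) hmax
      · obtain ⟨n, hn⟩ := exists_smul_eq N a w
        exact ⟨⟨n, hSN.le n.2⟩, hn⟩
      · obtain ⟨c, hc⟩ := exists_smul_eq (centralizer (N : Set G)) a (x⁻¹ • a)
        refine ⟨c, centralizer_le hS.le c.2, ?_⟩
        rw [mul_smul, show (c : G) • a = x⁻¹ • a from hc, smul_inv_smul]
  -- now `M = N ⊓ H` is transitive on every suborbit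
  have hCN : centralizer (N : Set G) = ⊥ := by
    by_contra hC
    haveI := centralizer_normal_of_normal N
    haveI := isPretransitive_of_normal_ne_bot (M := centralizer (N : Set G)) hprim hC
    refine hM ((eq_bot_iff_forall _).2 fun x hx => eq_of_smul_eq_smul (α := Ω) fun v => ?_)
    obtain ⟨c, rfl⟩ := exists_smul_eq (centralizer (N : Set G)) a v
    rw [one_smul, Subgroup.smul_def, ← mul_smul, c.2 x hx.1, mul_smul, mem_stabilizer_iff.1 hx.2]
  have hMtrans : ∀ b : Ω, b ≠ a → ∀ h ∈ H, ∃ m ∈ N ⊓ H, m • b = h • b := by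
    intro b hb h hh
    -- the subgroup of `H` generated by `M` and the stabiliser of `b`
    let L : Subgroup G :=
      { carrier := {x | x ∈ H ∧ ∃ m ∈ N ⊓ H, m • b = x • b}
        one_mem' := ⟨one_mem _, 1, one_mem _, rfl⟩
        mul_mem' := by
          rintro x y ⟨hx, m, hm, hmx⟩ ⟨hy, n, hn, hny⟩
          refine ⟨mul_mem hx hy, (x * n * x⁻¹) * m, mul_mem (hconjNa x hx n hn) hm, ?_⟩
          rw [mul_smul, hmx, ← mul_smul, inv_mul_cancel_right, mul_smul, hny, mul_smul]
        inv_mem' := by
          rintro x ⟨hx, m, hm, hmx⟩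
          refine ⟨inv_mem hx, x⁻¹ * m⁻¹ * x, ?_, ?_⟩
          · have := hconjNa x⁻¹ (inv_mem hx) m⁻¹ (inv_mem hm)
            rwa [inv_inv] at this
          · rw [mul_smul, mul_smul, ← hmx, inv_smul_smul] }
    rcases hmax b hb L (fun x hx => ⟨hx.1, 1, one_mem _, by rw [one_smul, mem_stabilizer_iff.1 hx.2]⟩)
      (fun x hx => hx.1) with he | he
    · exfalso
      -- `M` fixes `b`, so it is normalised by two point stabilisers, hence normal
      obtain ⟨n, hn⟩ := exists_smul_eq N a b
      have hMb : N ⊓ H = N ⊓ stabilizer G b := by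
        refine Subgroup.eq_of_le_of_card_ge (fun m hm => ⟨hm.1, (he.le ⟨hm.2, m, hm, rfl⟩).2⟩) ?_
        refine Nat.card_le_card_of_injective (fun m : ↥(N ⊓ stabilizer G b) =>
          (⟨(n : G)⁻¹ * m * n, Subgroup.mul_mem _ (Subgroup.mul_mem _ (Subgroup.inv_mem _ n.2) m.2.1) n.2, ?_⟩ : ↥(N ⊓ H))) ?_
        · show ((n : G)⁻¹ * m * n) • a = a
          rw [mul_smul, mul_smul, show (n : G) • a = b from hn, mem_stabilizer_iff.1 m.2.2,
            inv_smul_eq_iff]
          exact hn.symm
        · intro x y hxy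
          have h1 := congrArg Subtype.val hxy
          simp only at h1
          exact Subtype.ext (mul_left_cancel (mul_right_cancel h1))
      have hne : ¬ stabilizer G b ≤ H := fun hle => by
        have hcb := IsPreprimitive.isCoatom_stabilizer_of_isPreprimitive G b
        exact hnofix b hb ((hcb.le_iff.1 hle).resolve_left hco.1).le
      have hsup : H ⊔ stabilizer G b = ⊤ :=
        hco.2 _ (lt_of_le_of_ne le_sup_left fun e => hne (e ▸ le_sup_right))
      have hnorm : (N ⊓ H).Normal := by
        rw [← Subgroup.normalizer_eq_top_iff, ← top_le_iff, ← hsup, sup_le_iff]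
        constructor
        · intro x hx
          refine Subgroup.mem_normalizer_iff.2 fun m => ⟨hconjNa x hx m, fun h' => ?_⟩
          have := hconjNa x⁻¹ (inv_mem hx) _ h'
          simpa [mul_assoc] using this
        · rw [hMb]
          intro x hx
          refine Subgroup.mem_normalizer_iff.2 fun m => ⟨fun h' =>
            ⟨hN.1.1.conj_mem m h'.1 x, Subgroup.mul_mem _ (Subgroup.mul_mem _ hx h'.2) (Subgroup.inv_mem _ hx)⟩, fun h' => ?_⟩
          have h1 := hN.1.1.conj_mem _ h'.1 x⁻¹
          have h2 := mul_mem (mul_mem (inv_mem hx) h'.2) hx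
          exact ⟨by simpa [mul_assoc] using h1, by simpa [mul_assoc] using h2⟩
      rcases hmin _ hnorm inf_le_left with h1 | h1
      · exact hM h1
      · have hNH : N ≤ H := by rw [← h1]; exact inf_le_right
        have hn' : (n : G) • a = b := hn
        exact hb (by rw [← hn', mem_stabilizer_iff.1 (hNH n.2)])
    · exact (he.symm.le hh).2
  have hex : ∃ h ∈ H, cj h S ≠ S := by
    by_contra hc
    push Not at hc
    have hSn : N ≤ S := by
      rw [← iSup_cj_eq hmin hS]
      refine iSup_le fun g z hz => ?_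
      obtain ⟨n, hn⟩ := exists_smul_eq N (g • a) a
      have hh : (n : G) * g ∈ H := by rw [hHdef, mem_stabilizer_iff, mul_smul]; exact hn
      have h1 := conj_mem_cj (g := (n : G)) hz
      have h2 : cj (n : G) (cj g S) = cj ((n : G) * g) S := by ext w; simp [mem_cj, mul_assoc]
      rw [h2, hc _ hh] at h1
      have := hS.norm _ (inv_mem n.2) _ h1
      simpa [mul_assoc] using this
    exact hnas ⟨N, inferInstance, (le_antisymm hSn hS.le).symm ▸ hSsimple, hNna, hCN⟩
  obtain ⟨h₀, hh₀, hne₀⟩ := hex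
  by_cases hproj : ∀ g : G, ∀ s ∈ cj g S, ∃ c ∈ centralizer (cj g S : Set G) ⊓ N, (s * c) • a = a
  swap
  · -- product action: a point `s • a` has a factor as support
    push Not at hproj
    obtain ⟨g, s, hs, hsR⟩ := hproj
    have hF := hHfac g
    have hsa : s • a ≠ a := fun h => hsR 1 (one_mem _) (by rwa [mul_one])
    have hex' : ∃ h ∈ H, cj h (cj g S) ≠ cj g S := by
      by_contra hc
      push Not at hc
      have hnorm : (cj g S).Normal := by
        rw [← Subgroup.normalizer_eq_top_iff, ← top_le_iff]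
        intro x _
        obtain ⟨n, hn⟩ := exists_smul_eq N (x • a) a
        have hh : (n : G) * x ∈ H := by rw [hHdef, mem_stabilizer_iff, mul_smul]; exact hn
        have hn' : (n : G) ∈ Subgroup.normalizer (cj g S : Set G) :=
          Subgroup.mem_normalizer_iff.2 fun y => ⟨hF.norm _ n.2 y, fun h' => by
            have := hF.norm _ (inv_mem n.2) _ h'
            simpa [mul_assoc] using this⟩
        have := mul_mem (inv_mem hn') (mem_normalizer_cj.2 (hc _ hh))
        rwa [inv_mul_cancel_left] at this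
      rcases hmin _ hnorm hF.le with h1 | h1
      · exact hF.ne_bot h1
      · exact hnas ⟨N, inferInstance, h1 ▸ hF.isSimpleGroup hmin, hNna, hCN⟩
    obtain ⟨h, hh, hne⟩ := hex'
    obtain ⟨-, hcen⟩ := (hF.eq_or_disjoint (hF.map h)).resolve_left (Ne.symm hne)
    obtain ⟨m, hm, hmb⟩ := hMtrans _ hsa h hh
    rw [hha h hh s, ← mul_smul] at hmb
    generalize hu_def : h * s * h⁻¹ = u at hmb
    have huC : u ∈ centralizer (cj g S : Set G) ⊓ N :=
      hu_def ▸ ⟨hcen (conj_mem_cj hs), hN.1.1.conj_mem s (hF.le hs) h⟩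
    obtain ⟨t, ht, c, hc, hmtc⟩ := hF.decomp hmin m hm.1
    have hta : (t * c) • a = a := hmtc ▸ mem_stabilizer_iff.1 hm.2
    have h1 : (t * s * (u⁻¹ * c)) • a = a := by
      have e1 : t * s * (u⁻¹ * c) = u⁻¹ * (m * s) := by
        have hu' : u⁻¹ ∈ centralizer (cj g S : Set G) := inv_mem huC.1
        rw [hmtc, ← mul_assoc (t * s), hu' (t * s) (mul_mem ht hs), mul_assoc u⁻¹, mul_assoc t c s,
          ← hc.1 s hs, mul_assoc]
      rw [e1, mul_smul, hmb, inv_smul_smul]
    -- multiply with the inverse of `t * c`, which also fixes `a`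
    apply hsR ((c⁻¹ * u⁻¹) * c) (mul_mem (mul_mem (inv_mem hc) (inv_mem huC)) hc)
    have e2 : s * ((c⁻¹ * u⁻¹) * c) = (t * c)⁻¹ * (t * s * (u⁻¹ * c)) := by
      have hs' := hc.1 s hs
      rw [mul_inv_rev]
      calc s * (c⁻¹ * u⁻¹ * c) = (s * c⁻¹) * (u⁻¹ * c) := by simp [mul_assoc]
        _ = (c⁻¹ * s) * (u⁻¹ * c) := by rw [(inv_mem hc.1 : c⁻¹ ∈ centralizer (cj g S : Set G)) s hs]
        _ = _ := by simp only [mul_assoc, inv_mul_cancel_left]
    rw [e2, mul_smul, h1, inv_smul_eq_iff, hta]
  -- diagonal action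
  have hproj' : ∀ g : G, ∀ x : G, x ∈ cj g S → x • a = a → x = 1 := by
    intro g x hx hxa
    have hF := hHfac g
    have hnorm : ∀ n ∈ N, ∀ y ∈ cj g S ⊓ H, n * y * n⁻¹ ∈ cj g S ⊓ H := by
      intro n hn y hy
      refine ⟨hF.norm n hn y hy.1, ?_⟩
      obtain ⟨t, ht, d, hd, rfl⟩ := hF.decomp hmin n hn
      obtain ⟨c, hc, hca⟩ := hproj g t ht
      have e : t * d * y * (t * d)⁻¹ = (t * c) * y * (t * c)⁻¹ := by
        rw [mul_assoc t d, ← hd.1 y hy.1, mul_assoc t c, ← hc.1 y hy.1]
        group
      rw [e]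
      exact Subgroup.mul_mem _ (Subgroup.mul_mem _ hca hy.2) (Subgroup.inv_mem _ (hca : t * c ∈ H))
    rcases hF.min _ inf_le_left hnorm with h1 | h1
    · have : x ∈ cj g S ⊓ H := ⟨hx, hxa⟩
      rwa [h1, Subgroup.mem_bot] at this
    · exfalso
      refine hF.ne_bot ((eq_bot_iff_forall _).2 fun y hy => eq_of_smul_eq_smul (α := Ω) fun w => ?_)
      obtain ⟨n, rfl⟩ := exists_smul_eq N a w
      have h2 : (n : G)⁻¹ * y * n ∈ cj g S := by simpa using hF.norm _ (inv_mem n.2) y hy
      rw [← h1] at h2
      have h3 := mem_stabilizer_iff.1 h2.2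
      rw [mul_smul, mul_smul, inv_smul_eq_iff] at h3
      rw [one_smul]; exact h3
  -- for every other factor `T` and every element of `S`, some product with an element of `T` fixes `a`
  have hQ : ∀ h ∈ H, cj h S ≠ S → ∀ s ∈ S, ∃ u ∈ cj h S, (s * u) • a = a := by
    intro h hh hne
    obtain ⟨-, hcen⟩ := (hS.eq_or_disjoint (hHfac h)).resolve_left (Ne.symm hne)
    have hT := hHfac h
    let Q : Subgroup G :=
      { carrier := {s | s ∈ S ∧ ∃ u ∈ cj h S, (s * u) • a = a}
        one_mem' := ⟨one_mem _, 1, one_mem _, by simp⟩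
        mul_mem' := by
          rintro x y ⟨hx, u, hu, hua⟩ ⟨hy, v, hv, hva⟩
          refine ⟨mul_mem hx hy, u * v, mul_mem hu hv, ?_⟩
          rw [show x * y * (u * v) = (x * u) * (y * v) by
            rw [mul_assoc x u, ← mul_assoc u y, ← hcen hu y hy]; simp [mul_assoc], mul_smul, hva, hua]
        inv_mem' := by
          rintro x ⟨hx, u, hu, hua⟩
          refine ⟨inv_mem hx, u⁻¹, inv_mem hu, ?_⟩
          rw [← mul_inv_rev, ← hcen hu x hx, inv_smul_eq_iff, hua] }
    have hQn : ∀ n ∈ N, ∀ y ∈ Q, n * y * n⁻¹ ∈ Q := by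
      intro n hn y hy
      obtain ⟨t, ht, d, hd, rfl⟩ := hS.decomp hmin n hn
      obtain ⟨c, hc, hca⟩ := hproj 1 t (by rw [mem_cj]; simpa using ht)
      obtain ⟨hyS, u, hu, hua⟩ := hy
      have hS1 : cj 1 S = S := by ext z; rw [mem_cj]; simp
      rw [hS1] at hc
      have e : t * d * y * (t * d)⁻¹ = t * y * t⁻¹ := by
        rw [mul_assoc t d, ← hd.1 y hyS]; group
      rw [e]
      refine ⟨mul_mem (mul_mem ht hyS) (inv_mem ht), (t * c) * u * (t * c)⁻¹,
        hT.norm _ (mul_mem (hS.le ht) hc.2) u hu, ?_⟩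
      have e2 : t * y * t⁻¹ * ((t * c) * u * (t * c)⁻¹) = (t * c) * (y * u) * (t * c)⁻¹ := by
        have : t * y * t⁻¹ = (t * c) * y * (t * c)⁻¹ := by rw [mul_assoc t c, ← hc.1 y hyS]; group
        rw [this]; group
      rw [e2, mul_smul, mul_smul, inv_smul_eq_iff.2 hca.symm, hua, hca]
    have hQb : Q ≠ ⊥ := by
      obtain ⟨s, hs, hs1⟩ := (Subgroup.bot_or_exists_ne_one S).resolve_left hS.ne_bot
      have hb : s • a ≠ a := fun he => hs1 (hproj' 1 s (by rw [mem_cj]; simpa using hs) he)
      obtain ⟨m, hm, hmb⟩ := hMtrans _ hb h hh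
      intro he
      rw [hha h hh s, ← mul_smul] at hmb
      set u := h * s * h⁻¹
      set s' := m * s * m⁻¹
      have hs' : s' ∈ S := hS.norm m hm.1 s hs
      have hmem : s'⁻¹ ∈ Q := by
        refine ⟨inv_mem hs', u, conj_mem_cj hs, ?_⟩
        rw [mul_smul, ← hmb, inv_smul_eq_iff]
        show (m * s) • a = (m * s * m⁻¹) • a
        conv_rhs => rw [mul_smul, inv_smul_eq_iff.2 (mem_stabilizer_iff.1 hm.2).symm]
      rw [he, Subgroup.mem_bot, inv_eq_one] at hmem
      exact hs1 (conj_eq_one_iff.1 hmem)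
    intro s hs
    have := (hS.min Q (fun x hx => hx.1) hQn).resolve_left hQb
    rw [← this] at hs
    exact hs.2
  obtain ⟨-, hcen₀⟩ := (hS.eq_or_disjoint (hHfac h₀)).resolve_left (Ne.symm hne₀)
  -- there are exactly two factors
  have htwo : ∀ h ∈ H, cj h S = S ∨ cj h S = cj h₀ S := by
    intro h hh
    by_contra hc
    push Not at hc
    obtain ⟨hne, hne'⟩ := hc
    obtain ⟨-, hcen⟩ := (hS.eq_or_disjoint (hHfac h)).resolve_left (Ne.symm hne)
    obtain ⟨-, hcen'⟩ := ((hHfac h).eq_or_disjoint (hHfac h₀)).resolve_left hne'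
    refine hSna ⟨⟨fun x y => Subtype.ext ?_⟩⟩
    obtain ⟨u, hu, hua⟩ := hQ h₀ hh₀ hne₀ x x.2
    obtain ⟨w, hw, hwa⟩ := hQ h hh hne y y.2
    have c1 : Commute u (y : G) := (hcen₀ hu y y.2).symm
    have c2 : Commute w (x : G) := (hcen hw x x.2).symm
    have c3 : Commute u w := (hcen' hu w hw).symm
    have hm1 : (x : G) * u ∈ H := hua
    have hm2 : (y : G) * w ∈ H := hwa
    have hd : ((x : G) * u) * ((y : G) * w) * (((y : G) * w) * ((x : G) * u))⁻¹
        = (x : G) * y * ((y : G) * x)⁻¹ := by
      have e1 : (x : G) * u * ((y : G) * w) = (x : G) * y * (u * w) := by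
        rw [mul_assoc, ← mul_assoc u, c1.eq]; simp [mul_assoc]
      have e2 : (y : G) * w * ((x : G) * u) = (y : G) * x * (u * w) := by
        rw [mul_assoc, ← mul_assoc w, c2.eq, c3.eq]; simp [mul_assoc]
      rw [e1, e2]; group
    have hmem : (x : G) * y * ((y : G) * x)⁻¹ ∈ H := by
      rw [← hd]; exact mul_mem (mul_mem hm1 hm2) (inv_mem (mul_mem hm2 hm1))
    have hS' : (x : G) * y * ((y : G) * x)⁻¹ ∈ cj 1 S := by
      rw [mem_cj]; simpa using mul_mem (mul_mem x.2 y.2) (inv_mem (mul_mem y.2 x.2))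
    have := hproj' 1 _ hS' hmem
    rw [mul_inv_eq_one] at this
    simpa using this
  have hNle : ∀ n ∈ N, ∃ s ∈ S, n • a = s • a := by
    let P : Subgroup G :=
      { carrier := {x | ∃ s ∈ S, ∃ t ∈ cj h₀ S, x = s * t}
        one_mem' := ⟨1, one_mem _, 1, one_mem _, (one_mul _).symm⟩
        mul_mem' := by
          rintro _ _ ⟨s, hs, t, ht, rfl⟩ ⟨s', hs', t', ht', rfl⟩
          refine ⟨s * s', mul_mem hs hs', t * t', mul_mem ht ht', ?_⟩
          rw [mul_assoc s t, ← mul_assoc t s', ← hcen₀ ht s' hs']; simp [mul_assoc]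
        inv_mem' := by
          rintro _ ⟨s, hs, t, ht, rfl⟩
          refine ⟨s⁻¹, inv_mem hs, t⁻¹, inv_mem ht, ?_⟩
          rw [← mul_inv_rev, hcen₀ ht s hs] }
    have hle : N ≤ P := by
      conv_lhs => rw [← iSup_cj_eq hmin hS]
      refine iSup_le fun g z hz => ?_
      obtain ⟨n, hn⟩ := exists_smul_eq N (g • a) a
      have hh : (n : G) * g ∈ H := by rw [hHdef, mem_stabilizer_iff, mul_smul]; exact hn
      have h1 := conj_mem_cj (g := (n : G)) hz
      have h2 : cj (n : G) (cj g S) = cj ((n : G) * g) S := by ext w; simp [mem_cj, mul_assoc]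
      rw [h2] at h1
      rcases htwo _ hh with he | he <;> rw [he] at h1
      · have := hS.norm _ (inv_mem n.2) _ h1
        exact ⟨z, by simpa [mul_assoc] using this, 1, one_mem _, (mul_one z).symm⟩
      · have := (hHfac h₀).norm _ (inv_mem n.2) _ h1
        exact ⟨1, one_mem _, z, by simpa [mul_assoc] using this, (one_mul z).symm⟩
    intro n hn
    obtain ⟨s, hs, t, ht, rfl⟩ := hle hn
    -- `t` is a partner of some element of `S`
    obtain ⟨s₁, hs₁, h1a⟩ : ∃ s₁ ∈ S, t • a = s₁ • a := by
      let Q : Subgroup G :=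
        { carrier := {u | u ∈ cj h₀ S ∧ ∃ v ∈ S, (v * u) • a = a}
          one_mem' := ⟨one_mem _, 1, one_mem _, by simp⟩
          mul_mem' := by
            rintro u v ⟨hu, x, hx, hxa⟩ ⟨hv, y, hy, hya⟩
            refine ⟨mul_mem hu hv, x * y, mul_mem hx hy, ?_⟩
            rw [show x * y * (u * v) = (x * u) * (y * v) by
              rw [mul_assoc x u, ← mul_assoc u y, ← hcen₀ hu y hy]; simp [mul_assoc], mul_smul, hya, hxa]
          inv_mem' := by
            rintro u ⟨hu, x, hx, hxa⟩
            refine ⟨inv_mem hu, x⁻¹, inv_mem hx, ?_⟩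
            rw [← mul_inv_rev, ← hcen₀ hu x hx, inv_smul_eq_iff, hxa] }
      choose f hf hfa using hQ h₀ hh₀ hne₀
      have hinj : Function.Injective fun x : S => (⟨f x x.2, hf x x.2⟩ : cj h₀ S) := by
        intro x y hxy
        have h1 : f x x.2 = f y y.2 := congrArg Subtype.val hxy
        have h2 : ((x : G) * f x x.2) * ((y : G) * f y y.2)⁻¹ ∈ H :=
          mul_mem (hfa x x.2) (inv_mem (hfa y y.2 : (y : G) * f y y.2 ∈ H))
        have h3 : ((x : G) * f x x.2) * ((y : G) * f y y.2)⁻¹ = (x : G) * (y : G)⁻¹ := by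
          rw [h1, mul_inv_rev]; simp [mul_assoc]
        rw [h3] at h2
        have := hproj' 1 _ (by rw [mem_cj]; simpa using mul_mem x.2 (inv_mem y.2)) h2
        exact Subtype.ext (mul_inv_eq_one.1 this)
      have hcard : Nat.card S = Nat.card (cj h₀ S) :=
        Nat.card_congr (S.equivMapOfInjective _ (MulAut.conj h₀).injective).toEquiv
      obtain ⟨x, hx⟩ := (hinj.bijective_of_nat_card_le hcard.ge).2 ⟨t, ht⟩
      refine ⟨(x : G)⁻¹, inv_mem x.2, ?_⟩
      have h4 := hfa x x.2
      rw [show f x x.2 = t from congrArg Subtype.val hx, mul_smul] at h4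
      exact eq_inv_smul_iff.2 h4
    exact ⟨s * s₁, mul_mem hs hs₁, by rw [mul_smul, h1a, mul_smul]⟩
  refine false_of_simple_regular hSsimple hSna a ⟨fun x y hxy => ?_, fun w => ?_⟩ ?_ ?_ hmax
  · have h1 := hproj' 1 ((y : G)⁻¹ * x) (by rw [mem_cj]; simpa using mul_mem (inv_mem y.2) x.2)
      (by simp only at hxy; rw [mul_smul, hxy, inv_smul_smul])
    exact Subtype.ext (inv_mul_eq_one.1 h1).symm
  · obtain ⟨n, rfl⟩ := exists_smul_eq N a w
    obtain ⟨s, hs, he⟩ := hNle n n.2
    exact ⟨⟨s, hs⟩, he.symm⟩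
  · intro h hh
    rcases htwo h hh with he | he
    · exact Or.inl he
    · exact Or.inr (he ▸ hcen₀)
  · intro x hx
    obtain ⟨u, hu, hua⟩ := hQ h₀ hh₀ hne₀ x hx
    exact ⟨u, hcen₀ hu, hua⟩

end CfsgLib.Fixity
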