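import Mathlib

/-!
An irreducible endomorphism of a finite abelian group generates a field; consequences for the
group normalising it.
-/

set_option autoImplicit false
set_option linter.style.haveILetI false

namespace CfsgLib.Fixity

/-- If `x` acts irreducibly on a group of order `p ^ d`, then `x ^ (p ^ i) = x` forces `d ≤ i`, and the
elements normalising `⟨x⟩` modulo those centralising it form a group of order dividing `d`. -/
theorem irreducible_end_facts {V : Type*} [AddCommGroup V] [Finite V] [Nontrivial V] {p d : ℕ}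
    (hp : p.Prime) (hV : Nat.card V = p ^ d) (x : AddMonoid.End V)
    (hirr : ∀ U : AddSubgroup V, (∀ u ∈ U, x u ∈ U) → U = ⊥ ∨ U = ⊤) :
    (∀ i : ℕ, 0 < i → x ^ (p ^ i) = x → d ≤ i) ∧
    ∀ {H : Type*} [Group H] [Finite H] (ρ : H →* AddMonoid.End V) (C : Subgroup H),
      (∀ h, h ∈ C ↔ ρ h * x = x * ρ h) → (∀ h, ∃ r : ℕ, ρ h * x * ρ h⁻¹ = x ^ r) → C.index ∣ d := by
  classical
  haveI : Fact p.Prime := ⟨hp⟩
  haveI : Finite (AddMonoid.End V) :=
    Finite.of_injective (fun f : AddMonoid.End V => (f : V → V)) DFunLike.coe_injective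
  set K := Subring.closure ({x} : Set (AddMonoid.End V))
  have hKx : ∀ a ∈ K, a * x = x * a := fun a ha => by
    have hle : K ≤ Subring.centralizer {x} := Subring.closure_le.2 (by
      intro y hy
      rw [Set.mem_singleton_iff] at hy
      rw [hy, SetLike.mem_coe, Subring.mem_centralizer_iff]
      intro z hz
      rw [Set.mem_singleton_iff] at hz
      rw [hz])
    exact ((Subring.mem_centralizer_iff.1 (hle ha)) x rfl).symm
  have hKc : ∀ a ∈ K, ∀ b ∈ K, a * b = b * a := fun a ha b hb => by
    have hle : K ≤ Subring.centralizer {a} := Subring.closure_le.2 (by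
      intro y hy
      rw [Set.mem_singleton_iff] at hy
      rw [hy, SetLike.mem_coe, Subring.mem_centralizer_iff]
      intro z hz
      rw [Set.mem_singleton_iff] at hz
      rw [hz]; exact hKx a ha)
    exact (Subring.mem_centralizer_iff.1 (hle hb)) a rfl
  have hinj : ∀ a ∈ K, a ≠ 0 → ∀ v : V, a v = 0 → v = 0 := by
    intro a ha ha0 v hv
    rcases hirr (AddMonoidHom.ker (a : V →+ V)) (fun u hu => by
      show a (x u) = 0
      have := DFunLike.congr_fun (hKx a ha) u
      rw [AddMonoid.End.coe_mul, Function.comp_apply, AddMonoid.End.coe_mul, Function.comp_apply] at this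
      rw [this, show a u = 0 from hu, map_zero]) with h | h
    · have : v ∈ AddMonoidHom.ker (a : V →+ V) := hv
      rw [h] at this
      exact AddSubgroup.mem_bot.1 this
    · exfalso
      apply ha0
      refine AddMonoidHom.ext fun u => ?_
      have : u ∈ AddMonoidHom.ker (a : V →+ V) := h ▸ AddSubgroup.mem_top u
      exact this
  obtain ⟨v, hv⟩ := exists_ne (0 : V)
  letI : CommRing K :=
    { (inferInstance : Ring K) with mul_comm := fun a b => Subtype.ext (hKc a a.2 b b.2) }
  haveI : Nontrivial K := ⟨⟨0, 1, fun h => hv (by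
    simpa using (DFunLike.congr_fun (congrArg Subtype.val h) v).symm)⟩⟩
  haveI : IsDomain K := by
    haveI : NoZeroDivisors K := ⟨fun {a b} hab => by
      by_contra h
      push Not at h
      have h1 : (a : AddMonoid.End V) ≠ 0 := fun h' => h.1 (Subtype.ext h')
      have h2 : (b : AddMonoid.End V) ≠ 0 := fun h' => h.2 (Subtype.ext h')
      refine hv (hinj b b.2 h2 v (hinj a a.2 h1 _ ?_))
      exact DFunLike.congr_fun (congrArg Subtype.val hab) v⟩
    exact NoZeroDivisors.to_isDomain K
  have hbij : Function.Bijective (fun a : K => (a : AddMonoid.End V) v) := by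
    refine ⟨fun a b hab => ?_, fun w => ?_⟩
    · by_contra hne
      have h1 : ((a - b : K) : AddMonoid.End V) ≠ 0 := fun h' => hne (sub_eq_zero.1 (Subtype.ext h'))
      refine hv (hinj _ (a - b).2 h1 v ?_)
      show (a : AddMonoid.End V) v - (b : AddMonoid.End V) v = 0
      exact sub_eq_zero.2 hab
    · let U : AddSubgroup V :=
        { carrier := Set.range fun a : K => (a : AddMonoid.End V) v
          zero_mem' := ⟨0, rfl⟩
          add_mem' := by rintro _ _ ⟨a, rfl⟩ ⟨b, rfl⟩; exact ⟨a + b, rfl⟩
          neg_mem' := by rintro _ ⟨a, rfl⟩; exact ⟨-a, rfl⟩ }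
      rcases hirr U (by
        rintro _ ⟨a, rfl⟩
        exact ⟨⟨x, Subring.subset_closure rfl⟩ * a, rfl⟩) with h | h
      · have : v ∈ U := ⟨1, rfl⟩
        rw [h] at this
        exact absurd (AddSubgroup.mem_bot.1 this) hv
      · have : w ∈ U := h ▸ AddSubgroup.mem_top w
        exact this
  have hKcard : Nat.card K = p ^ d := by rw [Nat.card_congr (Equiv.ofBijective _ hbij), hV]
  letI : Fintype K := Fintype.ofFinite K
  letI : Field K := Fintype.fieldOfDomain K
  haveI : CharP K p := by
    rw [CharP.charP_iff_prime_eq_zero hp]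
    have h := Nat.cast_card_eq_zero K
    rw [← Nat.card_eq_fintype_card, hKcard, Nat.cast_pow] at h
    exact (pow_eq_zero_iff'.1 h).1
  refine ⟨fun i hi hxi => ?_, ?_⟩
  · have hall : ∀ a : K, a ^ (p ^ i) = a := by
      intro a
      have hle : K ≤ (RingHom.eqLocus (iterateFrobenius K p i) (RingHom.id K)).map K.subtype := by
        refine Subring.closure_le.2 fun y hy => ?_
        rw [Set.mem_singleton_iff] at hy
        rw [hy]
        refine ⟨⟨x, Subring.subset_closure rfl⟩, ?_, rfl⟩
        show (iterateFrobenius K p i) _ = _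
        rw [iterateFrobenius_def]
        exact Subtype.ext (by rw [SubmonoidClass.coe_pow]; exact hxi)
      obtain ⟨b, hb, hba⟩ := hle a.2
      obtain rfl : b = a := Subtype.ext hba
      have := hb
      change iterateFrobenius K p i b = b at this
      rwa [iterateFrobenius_def] at this
    obtain ⟨g, hg⟩ := IsCyclic.exists_generator (α := Kˣ)
    have hog := orderOf_eq_card_of_forall_mem_zpowers hg
    rw [Nat.card_units, hKcard] at hog
    have hpi : 1 < p ^ i := Nat.one_lt_pow hi.ne' hp.one_lt
    have hg1 : g ^ (p ^ i - 1) = 1 := by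
      have h := Units.ext (show ((g ^ (p ^ i) : Kˣ) : K) = ((g : Kˣ) : K) by
        rw [Units.val_pow_eq_pow_val]; exact hall _)
      rw [show p ^ i = (p ^ i - 1) + 1 by omega, pow_succ] at h
      exact mul_eq_right.1 h
    have hd := Nat.le_of_dvd (by omega) (hog ▸ orderOf_dvd_of_pow_eq_one hg1)
    by_contra hlt
    have := Nat.pow_lt_pow_right hp.one_lt (Nat.lt_of_not_le hlt)
    omega
  · intro H _ _ ρ C hC hnorm
    letI := ZMod.algebra K p
    have hmem : ∀ h : H, ∀ a ∈ K, ρ h * a * ρ h⁻¹ ∈ K := by
      intro h a ha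
      let c : AddMonoid.End V →+* AddMonoid.End V :=
        { toFun := fun b => ρ h * b * ρ h⁻¹
          map_one' := by rw [mul_one, ← map_mul, mul_inv_cancel, map_one]
          map_mul' := fun b b' => by
            have : ρ h⁻¹ * ρ h = 1 := by rw [← map_mul, inv_mul_cancel, map_one]
            calc ρ h * (b * b') * ρ h⁻¹ = ρ h * b * 1 * b' * ρ h⁻¹ := by simp [mul_assoc]
              _ = ρ h * b * (ρ h⁻¹ * ρ h) * b' * ρ h⁻¹ := by rw [this]
              _ = _ := by simp [mul_assoc]
          map_zero' := by simp
          map_add' := fun b b' => by rw [mul_add, add_mul] }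
      have hle : K ≤ Subring.comap c K := by
        refine Subring.closure_le.2 fun y hy => ?_
        rw [Set.mem_singleton_iff] at hy
        rw [hy]
        obtain ⟨r, hr⟩ := hnorm h
        rw [SetLike.mem_coe, Subring.mem_comap]
        show ρ h * x * ρ h⁻¹ ∈ K
        rw [hr]
        exact K.pow_mem (Subring.subset_closure rfl) r
      exact hle ha
    have hcan : ∀ h : H, ρ h⁻¹ * ρ h = 1 := fun h => by rw [← map_mul, inv_mul_cancel, map_one]
    let σ : H → K →+* K := fun h =>
      { toFun := fun a => ⟨ρ h * a * ρ h⁻¹, hmem h a a.2⟩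
        map_one' := Subtype.ext (by
          show ρ h * 1 * ρ h⁻¹ = 1
          rw [mul_one, ← map_mul, mul_inv_cancel, map_one])
        map_mul' := fun a b => Subtype.ext (by
          show ρ h * ((a : AddMonoid.End V) * b) * ρ h⁻¹ =
            (ρ h * a * ρ h⁻¹) * (ρ h * b * ρ h⁻¹)
          calc ρ h * ((a : AddMonoid.End V) * b) * ρ h⁻¹
              = ρ h * a * 1 * b * ρ h⁻¹ := by simp [mul_assoc]
            _ = ρ h * a * (ρ h⁻¹ * ρ h) * b * ρ h⁻¹ := by rw [hcan]
            _ = _ := by simp [mul_assoc])
        map_zero' := Subtype.ext (by simp)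
        map_add' := fun a b => Subtype.ext (by simp [mul_add, add_mul]) }
    have hσmul : ∀ h k a, σ h (σ k a) = σ (h * k) a := fun h k a => Subtype.ext (by
      show ρ h * (ρ k * a * ρ k⁻¹) * ρ h⁻¹ = ρ (h * k) * a * ρ (h * k)⁻¹
      rw [mul_inv_rev, map_mul, map_mul]
      simp [mul_assoc])
    have hσ1 : ∀ a, σ 1 a = a := fun a => Subtype.ext (by
      show ρ 1 * a * ρ 1⁻¹ = a
      rw [inv_one, map_one, one_mul, mul_one])
    let ψ : H →* (K ≃ₐ[ZMod p] K) := MonoidHom.mk'
      (fun h => AlgEquiv.ofBijective
        { toRingHom := σ h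
          commutes' := fun z => RingHom.congr_fun
            (Subsingleton.elim ((σ h).comp (algebraMap (ZMod p) K)) (algebraMap (ZMod p) K)) z }
        ⟨(σ h).injective, (Finite.injective_iff_surjective.1 (σ h).injective)⟩)
      (fun h k => AlgEquiv.ext fun a => (hσmul h k a).symm)
    have hker : ψ.ker = C := by
      ext h
      rw [MonoidHom.mem_ker, hC]
      constructor
      · intro hh
        have := congrArg Subtype.val (DFunLike.congr_fun hh ⟨x, Subring.subset_closure rfl⟩)
        change ρ h * x * ρ h⁻¹ = x at this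
        calc ρ h * x = ρ h * x * (ρ h⁻¹ * ρ h) := by rw [hcan, mul_one]
          _ = ρ h * x * ρ h⁻¹ * ρ h := by simp [mul_assoc]
          _ = x * ρ h := by rw [this]
      · intro hh
        refine AlgEquiv.ext fun a => Subtype.ext ?_
        show ρ h * a * ρ h⁻¹ = a
        have hle : K ≤ Subring.centralizer {ρ h} := Subring.closure_le.2 (by
          intro y hy
          rw [Set.mem_singleton_iff] at hy
          rw [hy, SetLike.mem_coe, Subring.mem_centralizer_iff]
          intro z hz
          rw [Set.mem_singleton_iff] at hz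
          rw [hz]; exact hh)
        rw [(Subring.mem_centralizer_iff.1 (hle a.2)) (ρ h) rfl, mul_assoc, ← map_mul,
          mul_inv_cancel, map_one, mul_one]
    rw [← hker, Subgroup.index_ker]
    refine (Subgroup.card_subgroup_dvd_card ψ.range).trans ?_
    rw [IsGalois.card_aut_eq_finrank]
    have h := Module.natCard_eq_pow_finrank (K := ZMod p) (V := K)
    rw [hKcard, Nat.card_zmod] at h
    exact dvd_of_eq (Nat.pow_right_injective hp.two_le h).symm

end CfsgLib.Fixity
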