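import Mathlib

/-!
Carlitz–McConnel: a permutation of a prime field whose difference quotients lie in a proper
subgroup of the multiplicative group is affine.
-/

set_option autoImplicit false

namespace CfsgLib.Fixity

open Polynomial

theorem degree_le_of_pow_diff {p : ℕ} [Fact p.Prime] {f : ZMod p → ZMod p}
    (hf : Function.Injective f) {d : ℕ} (hd2 : 2 * d ≤ p - 1)
    (hpow : ∀ x y, (f x - f y) ^ d = (x - y) ^ d) {i : ℕ} (hi : i ≤ d) :
    ∃ P : (ZMod p)[X], P.natDegree ≤ d ∧ ∀ x, P.eval x = f x ^ i := by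
  classical
  have hp : 1 < p := (Fact.out : p.Prime).one_lt
  -- sample points
  let y : Fin (d + 1) → ZMod p := fun j => ((j : ℕ) : ZMod p)
  have hy : Function.Injective y := by
    intro j k hjk
    have h := congrArg ZMod.val hjk
    simp only [y] at h
    rw [ZMod.val_natCast_of_lt (by omega), ZMod.val_natCast_of_lt (by omega)] at h
    exact Fin.ext h
  let v : Fin (d + 1) → ZMod p := fun j => - f (y j)
  have hv : Function.Injective v := fun j k h => hy (hf (neg_injective h))
  have hdet : (Matrix.vandermonde v).transpose.det ≠ 0 := by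
    rw [Matrix.det_transpose]; exact Matrix.det_vandermonde_ne_zero_iff.2 hv
  have hc : (d.choose i : ZMod p) ≠ 0 := by
    rw [Ne, ZMod.natCast_eq_zero_iff]
    intro h
    have := (Nat.Prime.dvd_factorial Fact.out).1
      (h.trans ⟨i.factorial * (d - i).factorial, by
        rw [← mul_assoc]; exact (Nat.choose_mul_factorial_mul_factorial hi).symm⟩)
    omega
  -- weights isolating the power `d - i`
  obtain ⟨w, hw⟩ : ∃ w : Fin (d + 1) → ZMod p,
      (Matrix.vandermonde v).transpose.mulVec w = Pi.single ⟨d - i, by omega⟩ (d.choose i : ZMod p)⁻¹ := by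
    have hu : IsUnit (Matrix.vandermonde v).transpose := (Matrix.isUnit_iff_isUnit_det _).2 hdet.isUnit
    exact (Matrix.mulVec_surjective_iff_isUnit.2 hu) _
  refine ⟨∑ j, C (w j) * (X - C (y j)) ^ d, ?_, fun x => ?_⟩
  · refine natDegree_sum_le_of_forall_le _ _ fun j _ => ?_
    refine (natDegree_C_mul_le _ _).trans ((natDegree_pow_le).trans ?_)
    rw [natDegree_X_sub_C, mul_one]
  · simp only [eval_finsetSum, eval_mul, eval_C, eval_pow, eval_sub, eval_X]
    rw [Finset.sum_congr rfl (fun j _ => by
      rw [← hpow x (y j), sub_eq_add_neg, add_pow, Finset.mul_sum] :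
      ∀ j ∈ (Finset.univ : Finset (Fin (d + 1))), w j * (x - y j) ^ d =
        ∑ k ∈ Finset.range (d + 1), w j * (f x ^ k * (-f (y j)) ^ (d - k) * (d.choose k : ZMod p)))]
    rw [Finset.sum_comm, Finset.sum_eq_single i]
    · have h1 := congrFun hw ⟨d - i, by omega⟩
      simp only [Matrix.mulVec, dotProduct, Matrix.transpose_apply, Matrix.vandermonde_apply,
        Pi.single_eq_same, v] at h1
      calc ∑ j, w j * (f x ^ i * (-f (y j)) ^ (d - i) * (d.choose i : ZMod p))
          = (∑ j, (-f (y j)) ^ (d - i) * w j) * (f x ^ i * (d.choose i : ZMod p)) := by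
            rw [Finset.sum_mul]; exact Finset.sum_congr rfl fun j _ => by ring
        _ = f x ^ i := by rw [h1]; field_simp
    · intro k hk hki
      have hk' : k ≤ d := Finset.mem_range_succ_iff.1 hk
      have h1 := congrFun hw ⟨d - k, by omega⟩
      rw [Pi.single_eq_of_ne (by simp only [ne_eq, Fin.mk.injEq]; omega)] at h1
      simp only [Matrix.mulVec, dotProduct, Matrix.transpose_apply, Matrix.vandermonde_apply, v] at h1
      calc ∑ j, w j * (f x ^ k * (-f (y j)) ^ (d - k) * (d.choose k : ZMod p))
          = (∑ j, (-f (y j)) ^ (d - k) * w j) * (f x ^ k * (d.choose k : ZMod p)) := by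
            rw [Finset.sum_mul]; exact Finset.sum_congr rfl fun j _ => by ring
        _ = 0 := by rw [h1, zero_mul]
    · intro h
      exact absurd (Finset.mem_range_succ_iff.2 hi) h

theorem affine_of_pow_diff {p : ℕ} [Fact p.Prime] {f : ZMod p → ZMod p}
    (hf : Function.Injective f) {d : ℕ} (hd : 0 < d) (hd2 : 2 * d ≤ p - 1)
    (hpow : ∀ x y, (f x - f y) ^ d = (x - y) ^ d) :
    ∃ a b : ZMod p, ∀ x, f x = a * x + b := by
  obtain ⟨P, hP, hPe⟩ := degree_le_of_pow_diff hf hd2 hpow (i := 1) hd
  suffices hle : P.natDegree ≤ 1 by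
    refine ⟨P.coeff 1, P.coeff 0, fun x => ?_⟩
    have := hPe x
    rw [pow_one] at this
    conv_lhs => rw [← this, eq_X_add_C_of_natDegree_le_one hle]
    simp
  by_contra hk
  set k := P.natDegree with hkdef
  set i := d / k + 1 with hidef
  have hk1 : k * (d / k) ≤ d := Nat.mul_div_le d k
  have hk2 : d < k * i := by
    rw [hidef]; exact (Nat.lt_mul_div_succ d (by omega : 0 < k))
  have hik : k * i ≤ 2 * d := by rw [hidef, mul_add, mul_one]; omega
  have hi : i ≤ d := by
    have h2 : d / k * 2 ≤ d := (Nat.mul_le_mul_left _ (by omega : 2 ≤ k)).trans (by rw [mul_comm]; exact hk1)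
    omega
  obtain ⟨Q, hQ, hQe⟩ := degree_le_of_pow_diff hf hd2 hpow (i := i) hi
  have hPQ : P ^ i = Q := by
    apply Polynomial.eq_of_degree_sub_lt_of_eval_finset_eq (Finset.univ : Finset (ZMod p))
    · refine lt_of_le_of_lt (Polynomial.degree_le_natDegree) ?_
      have hp : 1 < p := (Fact.out : p.Prime).one_lt
      rw [Finset.card_univ, ZMod.card]
      have h3 : (P ^ i - Q).natDegree ≤ 2 * d := by
        refine (natDegree_sub_le _ _).trans (max_le ?_ (by omega))
        rw [natDegree_pow, mul_comm]; exact hik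
      exact_mod_cast (show (P ^ i - Q).natDegree < p by omega)
    · intro x _
      rw [eval_pow, hPe, pow_one, hQe]
  have := congrArg natDegree hPQ
  rw [natDegree_pow, ← hkdef, mul_comm] at this
  omega

end CfsgLib.Fixity
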