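import Cfsg.Agent.Lib.Fixity.SylowOrbits

/-!
A Sylow `p`-subgroup fixes at most the fraction `(p-1)/(2p-1)` of the points of a nontrivial
transitive action of a group generated by its `p`-elements.  The induction is that of
`Lib.Fixity.SylowOrbits`, with constant weight `(p-1)/p` on the moved points.
-/

set_option autoImplicit false

open MulAction Pointwise CfsgLib.SylowOrbits
open scoped Classical

namespace CfsgLib.SylowFixed

universe u v

variable {p : ℕ}

section Defs

variable {G : Type*} [Group G] {Ω : Type*} [MulAction G Ω]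

/-- Weight of a point: `-1` if fixed by `P`, `(p-1)/p` otherwise. -/
noncomputable def wt (P : Sylow p G) (w : Ω) : ℚ :=
  if w ∈ (pfix P : Set Ω) then -1 else ((p : ℚ) - 1) / p

lemma wt_of_mem {P : Sylow p G} {w : Ω} (h : w ∈ (pfix P : Set Ω)) : wt P w = -1 := if_pos h

lemma wt_nonneg [Fact p.Prime] {P : Sylow p G} {w : Ω} (h : w ∉ (pfix P : Set Ω)) :
    0 ≤ wt P w := by
  rw [wt, if_neg h]
  have : (1 : ℚ) ≤ p := by exact_mod_cast (Fact.out : p.Prime).one_lt.le
  exact div_nonneg (by linarith) (by linarith)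

lemma sum_wt_orbit [Fact p.Prime] [Fintype Ω] {P : Sylow p G} {w : Ω}
    (h : w ∉ (pfix P : Set Ω)) :
    (p : ℚ) - 1 ≤ ∑ y ∈ (orbit (↥(P : Subgroup G)) w).toFinset, wt P y := by
  have hc : ∀ y ∈ (orbit (↥(P : Subgroup G)) w).toFinset, wt P y = ((p : ℚ) - 1) / p := by
    intro y hy
    rw [Set.mem_toFinset] at hy
    refine if_neg fun hy' => h ?_
    rw [mem_pfix_iff_osize] at hy' ⊢
    unfold osize at hy' ⊢
    rwa [orbit_eq_iff.mpr hy] at hy'
  have hp : p.Prime := Fact.out
  have hcard : p ≤ (orbit (↥(P : Subgroup G)) w).toFinset.card := by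
    obtain ⟨k, hk⟩ := P.2.card_orbit w
    rw [Set.toFinset_card, ← Nat.card_eq_fintype_card, hk]
    refine Nat.le_self_pow (fun h0 => h ?_) p
    rw [mem_pfix_iff_osize, osize, hk, h0, pow_zero]
  rw [Finset.sum_congr rfl hc, Finset.sum_const, nsmul_eq_mul]
  have h1 : (1 : ℚ) ≤ p := by exact_mod_cast hp.one_lt.le
  have h2 : (p : ℚ) ≤ ((orbit (↥(P : Subgroup G)) w).toFinset.card : ℚ) := by exact_mod_cast hcard
  rw [← mul_div_assoc, le_div_iff₀ (by linarith)]
  nlinarith

/-- A power of a moving `p`-element moves a given point in an orbit of length `p`. -/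
lemma exists_prime_orbit {z : G} {b : Ω} (hz : ∃ k : ℕ, z ^ p ^ k = 1) (hb : z • b ≠ b) :
    ∃ (y : G) (k : ℕ), y ^ p ^ k = 1 ∧ y • b ≠ b ∧ y ^ p • b = b := by
  obtain ⟨m, hm⟩ := hz
  have hex : ∃ i, z ^ p ^ i • b = b := ⟨m, by rw [hm, one_smul]⟩
  rcases Nat.eq_zero_or_pos (Nat.find hex) with h0 | hpos
  · have := Nat.find_spec hex
    rw [h0, pow_zero, pow_one] at this
    exact absurd this hb
  refine ⟨z ^ p ^ (Nat.find hex - 1), m, ?_, Nat.find_min hex (by linarith [Nat.sub_add_cancel hpos]), ?_⟩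
  · rw [← pow_mul, mul_comm, pow_mul, hm, one_pow]
  · rw [← pow_mul, ← pow_succ, Nat.sub_add_cancel hpos]
    exact Nat.find_spec hex

lemma card_orbit_zpowers [Fact p.Prime] [Fintype Ω] {y : G} {b : Ω} (hb : y • b ≠ b)
    (hp : y ^ p • b = b) : (orbit (Subgroup.zpowers y) b).toFinset.card = p := by
  rw [Set.toFinset_card, ← MulAction.minimalPeriod_eq_card]
  refine Function.minimalPeriod_eq_prime ?_ hb
  change (y • ·)^[p] b = b
  rw [smul_iterate_apply]
  exact hp

/-- If a Sylow subgroup fixes `c` pointwise, every `p`-element stabilising `c` fixes it pointwise. -/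
lemma fixed_of_setStabilizer [Fact p.Prime] [Finite G] [Finite Ω] {y : G} {k : ℕ}
    (hy : y ^ p ^ k = 1) (Q : Sylow p G) {c : Set Ω}
    (hQ : ∀ z ∈ (Q : Subgroup G), ∀ d ∈ c, z • d = d) {b : Ω} (hb : b ∈ c)
    (hyc : ∀ d ∈ c, y • d ∈ c) : y • b = b := by
  set H := stabilizer G c with hH
  have hyH : y ∈ H := by
    rw [hH, mem_stabilizer_set_iff_smul_set_subset c.toFinite]
    rintro - ⟨d, hd, rfl⟩
    exact hyc d hd
  have h2 : (Q : Subgroup G) ≤ H := by
    intro z hz
    rw [hH, mem_stabilizer_set_iff_smul_set_subset c.toFinite]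
    rintro - ⟨d, hd, rfl⟩
    change z • d ∈ c
    rwa [hQ z hz d hd]
  have hp : IsPGroup p (Subgroup.zpowers (⟨y, hyH⟩ : H)) := by
    rintro ⟨-, i, rfl⟩
    refine ⟨k, Subtype.ext (Subtype.ext ?_)⟩
    simp only [SubmonoidClass.coe_pow, SubgroupClass.coe_zpow, OneMemClass.coe_one]
    rw [← zpow_natCast, ← zpow_mul, mul_comm, zpow_mul, zpow_natCast, hy, one_zpow]
  obtain ⟨S, hS⟩ := hp.exists_le_sylow
  obtain ⟨h, hh⟩ := MulAction.exists_smul_eq H (Q.subtype h2) S
  have hyS : (⟨y, hyH⟩ : H) ∈ (S : Subgroup H) := hS (Subgroup.mem_zpowers _)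
  rw [← hh, conj_mem_iff, Sylow.coe_subtype, Subgroup.mem_subgroupOf] at hyS
  have hd : (h : G)⁻¹ • b ∈ c := by
    have hmem : (h : G)⁻¹ ∈ H := inv_mem h.2
    exact (mem_stabilizer_set.mp hmem b).mpr hb
  have h3 : ((h : G)⁻¹ * y * (h : G)) • ((h : G)⁻¹ • b) = (h : G)⁻¹ • b :=
    hQ _ (by simpa using hyS) _ hd
  rw [mul_smul, mul_smul, smul_inv_smul, smul_left_cancel_iff] at h3
  exact h3

end Defs

lemma wt_transfer {G : Type*} [Group G] {Ω : Type*} [MulAction G Ω]
    {H : Type*} [Group H] {Θ : Type*} [MulAction H Θ]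
    (φ : H →* G) (ι : Θ → Ω) (hι : Function.Injective ι)
    (heq : ∀ (h : H) (t : Θ), ι (h • t) = φ h • ι t) (P : Sylow p G) (P' : Sylow p H)
    (hP : (P' : Subgroup H).map φ = (P : Subgroup G)) (t : Θ) :
    wt P' t = wt P (ι t) := by
  have h := osize_transfer φ ι hι heq P P' hP t
  unfold wt
  simp only [mem_pfix_iff_osize, h]

/-- The two statements proved simultaneously. -/
def Concl {G : Type*} [Group G] (Ω : Type*) [MulAction G Ω] [Fintype Ω] (P : Sylow p G) : Prop :=
  (∀ w : Ω, 0 ≤ ∑ y ∈ (orbit G w).toFinset, wt P y) ∧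
  ∀ (E : ℚ) (W : Finset Ω),
    (∀ w ∈ W, ∑ y ∈ (orbit G w).toFinset, wt P y ≤ E) → (W.card : ℚ) + E < p →
    ∃ g : G, ∀ w ∈ W, g⁻¹ • w ∈ (pfix P : Set Ω)

/-- The inductive hypothesis at degree `n`. -/
def Below (p n : ℕ) : Prop :=
  ∀ (G : Type u) [Group G] [Finite G] (Ω : Type v) [MulAction G Ω] [Fintype Ω] (P : Sylow p G),
    SylGen p G → (∀ w : Ω, ∃ g : G, g • w ≠ w) → Fintype.card Ω < n → Concl Ω P

section Step

variable [Fact p.Prime] {G : Type u} [Group G] [Finite G] {Ω : Type v} [MulAction G Ω]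

variable (P : Sylow p G)

lemma wt_class (w : Ω) : wt P (Quotient.mk (coverSetoid P) w) = wt P w := by
  unfold wt
  simp only [mem_pfix_iff_osize, osize_class]

variable [Fintype Ω]

/-- If two points have the same covering set, pass to the quotient. -/
lemma step_quot (hgen : SylGen p G) (hfix : ∀ w : Ω, ∃ g : G, g • w ≠ w)
    (IH : Below.{u, v} p (Fintype.card Ω))
    (hns : ∃ x y : Ω, x ≠ y ∧ (coverSetoid P).r x y) : Concl Ω P := by
  let π : Ω → Quotient (coverSetoid (Ω := Ω) P) := Quotient.mk (coverSetoid P)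
  haveI : Fintype (Quotient (coverSetoid (Ω := Ω) P)) := Fintype.ofFinite _
  have hfix' : ∀ q : Quotient (coverSetoid (Ω := Ω) P), ∃ g : G, g • q ≠ q := by
    intro q
    induction q using Quotient.inductionOn with | h w => ?_
    by_contra hh
    simp only [not_exists, not_not] at hh
    obtain ⟨g, hg⟩ := hfix w
    refine hg (sylGen_fixed hgen P (fun a x hx => ?_) g)
    refine fix_of_fix_class P hx ?_
    have : Quotient.mk (coverSetoid P) (a⁻¹ • w) = Quotient.mk (coverSetoid P) w := hh a⁻¹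
    rw [this]
    exact hh x
  have hlt : Fintype.card (Quotient (coverSetoid (Ω := Ω) P)) < Fintype.card Ω := by
    obtain ⟨x, y, hxy, hr⟩ := hns
    refine Fintype.card_lt_of_surjective_not_injective π Quotient.mk_surjective fun hinj => ?_
    exact hxy (hinj (Quotient.sound hr))
  obtain ⟨hI, hC⟩ := IH G (Quotient (coverSetoid (Ω := Ω) P)) P hgen hfix' hlt
  have hsum : ∀ w : Ω, ∃ c : ℕ, 1 ≤ c ∧ ∑ y ∈ (orbit G w).toFinset, wt P y
      = (c : ℚ) * ∑ q ∈ (orbit G (π w)).toFinset, wt P q := by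
    intro w
    refine ⟨(Finset.univ.filter (fun y => π y = π w)).card,
      Finset.card_pos.mpr ⟨w, by simp⟩, ?_⟩
    have himg : ∀ y ∈ (orbit G w).toFinset, π y ∈ (orbit G (π w)).toFinset := by
      intro y hy
      rw [Set.mem_toFinset] at hy ⊢
      obtain ⟨a, rfl⟩ := hy
      exact ⟨a, rfl⟩
    rw [← Finset.sum_fiberwise_of_maps_to himg, Finset.mul_sum]
    refine Finset.sum_congr rfl fun q hq => ?_
    rw [Set.mem_toFinset] at hq
    obtain ⟨a, rfl⟩ := hq
    have hfib : ((orbit G w).toFinset.filter (fun y => π y = a • π w)) =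
        (Finset.univ.filter (fun y => π y = π w)).image (fun y => a • y) := by
      ext y
      simp only [Finset.mem_filter, Set.mem_toFinset, Finset.mem_image, Finset.mem_univ,
        true_and]
      constructor
      · rintro ⟨-, hy⟩
        refine ⟨a⁻¹ • y, ?_, smul_inv_smul a y⟩
        change a⁻¹ • π y = π w
        rw [hy, inv_smul_smul]
      · rintro ⟨y', hy', rfl⟩
        refine ⟨?_, ?_⟩
        · rcases (Quotient.exact hy' : (coverSetoid P).r y' w) with rfl | ⟨h1, -, -⟩
          · exact mem_orbit _ _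
          · obtain ⟨b, hb⟩ := mem_orbit_symm.mp h1
            exact ⟨a * b, by change (a * b) • w = a • y'; rw [mul_smul]; exact congrArg _ hb⟩
        · change π (a • y') = a • π w
          rw [← hy']
          rfl
    have hval : ∀ y ∈ (orbit G w).toFinset.filter (fun y => π y = a • π w),
        wt P y = wt P (a • π w) := by
      intro y hy
      rw [← (Finset.mem_filter.mp hy).2]
      exact (wt_class P y).symm
    rw [Finset.sum_congr rfl hval, Finset.sum_const, hfib,
      Finset.card_image_of_injective _ (MulAction.injective a), nsmul_eq_mul]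
  refine ⟨fun w => ?_, fun E W hW hlt' => ?_⟩
  · obtain ⟨c, -, hc⟩ := hsum w
    rw [hc]
    exact mul_nonneg (Nat.cast_nonneg c) (hI _)
  · refine Exists.elim (hC E (W.image π) ?_ ?_) fun g hg =>
      ⟨g, fun w hw x hx => fix_of_fix_class P hx (hg (π w) (Finset.mem_image_of_mem π hw) x hx)⟩
    · intro q hq
      obtain ⟨w, hw, rfl⟩ := Finset.mem_image.mp hq
      obtain ⟨c, hc1, hc⟩ := hsum w
      have h1 : (1 : ℚ) ≤ c := by exact_mod_cast hc1
      have h2 := hW w hw
      rw [hc] at h2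
      nlinarith [hI (π w)]
    · have : ((W.image π).card : ℚ) ≤ W.card := by exact_mod_cast Finset.card_image_le
      linarith

/-- Restriction to a subgroup acting on an invariant subset. -/
lemma restrict (L : Subgroup G) (hPL : (P : Subgroup G) ≤ L) (hgenL : SylGen p L)
    (IH : Below.{u, v} p (Fintype.card Ω)) (Φ : Set Ω)
    (hinv : ∀ a ∈ L, ∀ w ∈ Φ, a • w ∈ Φ) (hne : Φ.Nonempty)
    (hmov : ∀ w ∉ Φ, ∃ a ∈ L, a • w ≠ w) :
    (∀ w ∉ Φ, 0 ≤ ∑ y ∈ (orbit L w).toFinset, wt P y) ∧
    ∀ (E : ℚ) (W : Finset Ω), (∀ w ∈ W, w ∉ Φ) →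
      (∀ w ∈ W, ∑ y ∈ (orbit L w).toFinset, wt P y ≤ E) → (W.card : ℚ) + E < p →
      ∃ l ∈ L, ∀ w ∈ W, l⁻¹ • w ∈ (pfix P : Set Ω) := by
  let S : SubMulAction L Ω :=
    { carrier := Φᶜ
      smul_mem' := fun a w hw hcon => hw (by
        have := hinv (a⁻¹ : G) (inv_mem a.2) _ hcon
        rwa [show (a • w) = (a : G) • w from rfl, inv_smul_smul] at this) }
  haveI : Fintype S := Fintype.ofFinite _
  have hlt : Fintype.card S < Fintype.card Ω := by
    obtain ⟨b, hb⟩ := hne
    refine Fintype.card_lt_of_injective_of_notMem (fun s : S => (s : Ω))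
      Subtype.val_injective (b := b) ?_
    rintro ⟨s, rfl⟩
    exact s.2 hb
  have hfix' : ∀ s : S, ∃ a : L, a • s ≠ s := by
    intro s
    obtain ⟨a, ha, hne'⟩ := hmov s s.2
    exact ⟨⟨a, ha⟩, fun h => hne' (congrArg Subtype.val h)⟩
  obtain ⟨hI, hC⟩ := IH L S (P.subtype hPL) hgenL hfix' hlt
  have hmap : ((P.subtype hPL : Sylow p L) : Subgroup L).map L.subtype = (P : Subgroup G) := by
    rw [Sylow.coe_subtype, Subgroup.map_subgroupOf_eq_of_le hPL]
  have hos : ∀ s : S, osize (P.subtype hPL) s = osize P (s : Ω) :=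
    fun s => osize_transfer L.subtype (fun s : S => (s : Ω)) Subtype.val_injective
      (fun _ _ => rfl) P _ hmap s
  have hsum : ∀ s : S, ∑ y ∈ (orbit L s).toFinset, wt (P.subtype hPL) y =
      ∑ y ∈ (orbit L (s : Ω)).toFinset, wt P y := by
    intro s
    refine Finset.sum_bij (fun y _ => (y : Ω)) ?_ ?_ ?_ ?_
    · intro y hy
      rw [Set.mem_toFinset] at hy ⊢
      obtain ⟨a, rfl⟩ := hy
      exact ⟨a, rfl⟩
    · intro y _ y' _ he
      exact Subtype.ext he
    · intro y hy
      rw [Set.mem_toFinset] at hy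
      obtain ⟨a, rfl⟩ := hy
      exact ⟨a • s, Set.mem_toFinset.mpr (mem_orbit _ _), rfl⟩
    · intro y _
      exact wt_transfer L.subtype (fun s : S => (s : Ω)) Subtype.val_injective
        (fun _ _ => rfl) P _ hmap y
  refine ⟨fun w hw => ?_, fun E W hWS hW hlt' => ?_⟩
  · exact le_of_le_of_eq (hI ⟨w, hw⟩) (hsum ⟨w, hw⟩)
  · refine Exists.elim (hC E (W.subtype (fun w => w ∈ S)) ?_ ?_) fun l hl =>
      ⟨l, l.2, fun w hw => by
        have h := hl ⟨w, hWS w hw⟩ (Finset.mem_subtype.mpr hw)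
        rw [mem_pfix_iff_osize, hos, ← mem_pfix_iff_osize] at h
        exact h⟩
    · intro s hs
      rw [hsum]
      exact hW _ (Finset.mem_subtype.mp hs)
    · have : ((W.subtype (fun w => w ∈ S)).card : ℚ) ≤ W.card := by
        rw [Finset.card_subtype]
        exact_mod_cast Finset.card_filter_le _ _
      linarith

/-- Restriction to a proper orbit. -/
lemma nonneg_of_proper (hgen : SylGen p G) (hfix : ∀ w : Ω, ∃ g : G, g • w ≠ w)
    (IH : Below.{u, v} p (Fintype.card Ω)) (w : Ω) (hlt : orbit G w ≠ Set.univ) :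
    0 ≤ ∑ y ∈ (orbit G w).toFinset, wt P y := by
  let S : SubMulAction G Ω := orbitSub (G := G) w
  haveI : Fintype S := Fintype.ofFinite _
  have hcard : Fintype.card S < Fintype.card Ω := by
    obtain ⟨b, hb⟩ := (Set.ne_univ_iff_exists_notMem _).mp hlt
    refine Fintype.card_lt_of_injective_of_notMem (fun s : S => (s : Ω))
      Subtype.val_injective (b := b) ?_
    rintro ⟨s, rfl⟩
    exact hb s.2
  have hfix' : ∀ s : S, ∃ a : G, a • s ≠ s := by
    intro s
    obtain ⟨a, ha⟩ := hfix s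
    exact ⟨a, fun h => ha (congrArg Subtype.val h)⟩
  have hI := (IH G S P hgen hfix' hcard).1
  refine le_of_le_of_eq (hI ⟨w, mem_orbit_self w⟩) ?_
  refine Finset.sum_bij (fun y _ => (y : Ω)) ?_ ?_ ?_ ?_
  · intro y _
    exact Set.mem_toFinset.mpr y.2
  · intro y _ y' _ he
    exact Subtype.ext he
  · intro y hy
    rw [Set.mem_toFinset] at hy
    obtain ⟨a, rfl⟩ := hy
    exact ⟨a • ⟨w, mem_orbit_self w⟩, Set.mem_toFinset.mpr (mem_orbit _ _), rfl⟩
  · intro y _
    exact wt_transfer (MonoidHom.id G) (fun s : S => (s : Ω)) Subtype.val_injective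
      (fun _ _ => rfl) P P (Subgroup.map_id _) y

/-- The inductive step when covering sets separate points. -/
lemma step_sep (hgen : SylGen p G) (hfix : ∀ w : Ω, ∃ g : G, g • w ≠ w)
    (IH : Below.{u, v} p (Fintype.card Ω))
    (hsep : ∀ x y : Ω, y ∈ orbit G x → cover P x = cover P y → (cover P x).Nonempty → x = y) :
    Concl Ω P := by
  refine ⟨fun w => ?_, fun E W hW hlt => ?_⟩
  · rcases ne_or_eq (orbit G w) Set.univ with hne | huniv
    · exact nonneg_of_proper P hgen hfix IH w hne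
    have htop : (orbit G w).toFinset = Finset.univ := by simp [huniv]
    rw [htop]
    by_cases hF : ∀ y : Ω, y ∉ (pfix P : Set Ω)
    · exact Finset.sum_nonneg fun y _ => wt_nonneg (hF y)
    simp only [not_forall, not_not] at hF
    obtain ⟨b, hb⟩ := hF
    have htr : ∀ x y : Ω, y ∈ orbit G x := fun x y => by
      have hx : x ∈ orbit G w := huniv ▸ Set.mem_univ x
      rw [orbit_eq_iff.mpr hx, huniv]
      exact Set.mem_univ y
    obtain ⟨hPL, hLb, hΦ⟩ := localGen_facts P hb
    have hone : ∀ v : Ω, (∀ a ∈ localGen p G b, a • v = v) → v = b := by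
      intro v hv
      have hne : (cover P b).Nonempty :=
        ⟨1, show (1 : G)⁻¹ • b ∈ (pfix P : Set Ω) by simpa using hb⟩
      have he : cover P b = cover P v := Set.eq_of_subset_of_ncard_le (hΦ v hv).2
        (ncard_cover_of_mem_orbit P (htr b v)).le (Set.toFinite _)
      exact (hsep b v (htr b v) he hne).symm
    have hmov : ∀ v ∉ ({b} : Set Ω), ∃ a ∈ localGen p G b, a • v ≠ v := by
      intro v hv
      by_contra hh
      simp only [not_exists, not_and, not_not] at hh
      exact hv (hone v hh)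
    obtain ⟨hI, hC⟩ := restrict P (localGen p G b) hPL (sylGen_localGen b) IH {b}
      (fun a ha v hv => by
        rw [Set.mem_singleton_iff] at hv ⊢
        rw [hv]
        exact hLb a ha) (Set.singleton_nonempty b) hmov
    set R := Finset.univ.erase b with hR
    have hRinv : ∀ a ∈ localGen p G b, ∀ v ∈ R, a • v ∈ R := by
      intro a ha v hv
      simp only [hR, Finset.mem_erase, Finset.mem_univ, and_true] at hv ⊢
      intro h
      apply hv
      calc v = a⁻¹ • a • v := (inv_smul_smul a v).symm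
        _ = b := by rw [h]; exact hLb _ (inv_mem ha)
    obtain ⟨hnn, hle⟩ := sum_invariant (localGen p G b) (wt P) R hRinv
      (fun v hv => hI v (by simpa [hR] using hv))
    rw [← Finset.add_sum_erase _ _ (Finset.mem_univ b), ← hR, wt_of_mem hb]
    by_contra hneg
    have hlt1 : ∑ y ∈ R, wt P y < 1 := by linarith
    obtain ⟨y, k, hyk, hyb, hypb⟩ : ∃ (y : G) (k : ℕ), y ^ p ^ k = 1 ∧ y • b ≠ b ∧
        y ^ p • b = b := by
      obtain ⟨g, hg⟩ := hfix b
      obtain ⟨a, ha⟩ : ∃ a : G, a ∉ cover P b := by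
        by_contra hh
        simp only [not_exists, not_not] at hh
        exact hg (sylGen_fixed hgen P hh g)
      simp only [cover, pfix, Set.mem_setOf_eq, not_forall] at ha
      obtain ⟨x, hx, hxb⟩ := ha
      refine exists_prime_orbit (z := a * x * a⁻¹) (b := b) ?_ fun h => hxb ?_
      · obtain ⟨k, hk⟩ := P.2 ⟨x, hx⟩
        exact ⟨k, by
          rw [conj_pow, show x ^ p ^ k = 1 from congrArg Subtype.val hk, mul_one, mul_inv_cancel]⟩
      · rw [mul_smul, mul_smul] at h
        exact eq_inv_smul_iff.mpr h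
    set c : Set Ω := orbit (Subgroup.zpowers y) b with hc
    have hbc : b ∈ c := mem_orbit_self b
    have hcard : c.toFinset.card = p := card_orbit_zpowers hyb hypb
    obtain ⟨l, hl, hlW⟩ := hC (∑ y ∈ R, wt P y) (c.toFinset.erase b)
      (fun v hv => by simpa using (Finset.mem_erase.mp hv).1)
      (fun v hv => hle v (by simpa [hR] using (Finset.mem_erase.mp hv).1)) (by
        have h1 : ((c.toFinset.erase b).card : ℚ) + 1 = (p : ℚ) := by
          rw [show (p : ℚ) = (c.toFinset.card : ℚ) by rw [hcard]]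
          exact_mod_cast Finset.card_erase_add_one (Set.mem_toFinset.mpr hbc)
        linarith)
    have hlfix : ∀ z ∈ ((l • P : Sylow p G) : Subgroup G), ∀ d ∈ c, z • d = d := by
      intro z hz d hd
      refine fixed_of_mem_cover ?_ hz
      by_cases hdb : d = b
      · subst hdb
        change l⁻¹ • d ∈ (pfix P : Set Ω)
        rw [hLb _ (inv_mem hl)]
        exact hb
      · exact hlW d (Finset.mem_erase.mpr ⟨hdb, Set.mem_toFinset.mpr hd⟩)
    exact hyb (fixed_of_setStabilizer hyk (l • P) hlfix hbc fun d hd => by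
      obtain ⟨a, rfl⟩ := hd
      exact ⟨⟨y, Subgroup.mem_zpowers y⟩ * a, mul_smul _ _ _⟩)
  · rcases W.eq_empty_or_nonempty with rfl | hWne
    · exact ⟨1, by simp⟩
    obtain ⟨w₀, hw₀, hmax⟩ := Finset.exists_max_image W (fun v => (cover P v).ncard) hWne
    have hne : (cover P w₀).Nonempty := by
      by_contra hempty
      have hnofix : ∀ y ∈ orbit G w₀, y ∉ (pfix P : Set Ω) := by
        rintro - ⟨a, rfl⟩ ha
        exact hempty ⟨a⁻¹, show (a⁻¹)⁻¹ • w₀ ∈ (pfix P : Set Ω) by rw [inv_inv]; exact ha⟩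
      have h0 := hnofix w₀ (mem_orbit_self w₀)
      have hsub : (orbit (↥(P : Subgroup G)) w₀).toFinset ⊆ (orbit G w₀).toFinset := by
        intro y hy
        rw [Set.mem_toFinset] at hy ⊢
        obtain ⟨x, rfl⟩ := hy
        exact ⟨x, rfl⟩
      have h1 := Finset.sum_le_sum_of_subset_of_nonneg hsub (f := wt P)
        (fun y hy _ => wt_nonneg (hnofix y (Set.mem_toFinset.mp hy)))
      have h2 := hW w₀ hw₀
      have h3 : (p : ℚ) - 1 ≤ ∑ y ∈ (orbit (↥(P : Subgroup G)) w₀).toFinset, wt P y :=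
        sum_wt_orbit h0
      have h4 : (1 : ℚ) ≤ W.card := by exact_mod_cast hWne.card_pos
      linarith
    obtain ⟨g₀, hg₀⟩ := hne
    suffices h : ∃ g : G, ∀ w ∈ W, g⁻¹ • g₀⁻¹ • w ∈ (pfix P : Set Ω) by
      obtain ⟨g, hg⟩ := h
      exact ⟨g₀ * g, fun w hw => by rw [mul_inv_rev, mul_smul]; exact hg w hw⟩
    set b := g₀⁻¹ • w₀ with hbdef
    have hb : b ∈ (pfix P : Set Ω) := hg₀
    obtain ⟨hPL, hLb, hΦ⟩ := localGen_facts P hb
    set Φ : Set Ω := {v | ∀ a ∈ localGen p G b, a • v = v} with hΦdef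
    have hinv : ∀ a ∈ localGen p G b, ∀ v ∈ Φ, a • v ∈ Φ := by
      intro a ha v hv
      rw [hv a ha]
      exact hv
    have hmov : ∀ v ∉ Φ, ∃ a ∈ localGen p G b, a • v ≠ v := by
      intro v hv
      simp only [hΦdef, Set.mem_setOf_eq, not_forall] at hv
      obtain ⟨a, ha, h⟩ := hv
      exact ⟨a, ha, h⟩
    have hbΦ : b ∈ Φ := hLb
    obtain ⟨hI, hC⟩ := restrict P (localGen p G b) hPL (sylGen_localGen b) IH Φ hinv ⟨b, hbΦ⟩ hmov
    set W' := (W.image fun w => g₀⁻¹ • w).filter (fun v => v ∉ Φ) with hW'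
    have hcardW : (W'.card : ℚ) + 1 ≤ W.card := by
      have h1 : W'.card + 1 ≤ (W.image fun w => g₀⁻¹ • w).card := by
        refine Nat.succ_le_of_lt (Finset.card_lt_card ?_)
        rw [hW', Finset.filter_ssubset]
        exact ⟨b, Finset.mem_image_of_mem _ hw₀, fun h => h hbΦ⟩
      exact_mod_cast h1.trans Finset.card_image_le
    refine Exists.elim (hC (E + 1) W' (fun v hv => (Finset.mem_filter.mp hv).2) ?_
      (by linarith)) fun l ⟨hl, hlW⟩ => ⟨l, fun w hw => by
        by_cases hΦw : g₀⁻¹ • w ∈ Φ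
        · rw [hΦw _ (inv_mem hl)]
          exact (hΦ _ hΦw).1
        · exact hlW _ (Finset.mem_filter.mpr ⟨Finset.mem_image_of_mem _ hw, hΦw⟩)⟩
    · intro v hv
      obtain ⟨hv1, hv2⟩ := Finset.mem_filter.mp hv
      obtain ⟨w, hw, rfl⟩ := Finset.mem_image.mp hv1
      set O := (orbit G w).toFinset with hO
      have hsplit := Finset.sum_filter_add_sum_filter_not O (fun y => y ∈ Φ) (wt P)
      have hvO : g₀⁻¹ • w ∈ O.filter (fun y => y ∉ Φ) :=
        Finset.mem_filter.mpr ⟨Set.mem_toFinset.mpr (mem_orbit _ _), hv2⟩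
      obtain ⟨-, hle⟩ := sum_invariant (localGen p G b) (wt P) (O.filter (fun y => y ∉ Φ))
        (by
          intro a ha y hy
          rw [Finset.mem_filter, hO, Set.mem_toFinset] at hy ⊢
          refine ⟨?_, fun h => hy.2 ?_⟩
          · obtain ⟨c, hc⟩ := hy.1
            exact ⟨a * c, by change (a * c) • w = a • y; rw [mul_smul]; exact congrArg _ hc⟩
          · have := hinv a⁻¹ (inv_mem ha) _ h
            rwa [inv_smul_smul] at this)
        (fun y hy => hI y (Finset.mem_filter.mp hy).2)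
      have hone : (O.filter (fun y => y ∈ Φ)).card ≤ 1 := by
        have key : ∀ y ∈ O.filter (fun y => y ∈ Φ), cover P b = cover P y := by
          intro y hy
          rw [Finset.mem_filter, hO, Set.mem_toFinset] at hy
          refine Set.eq_of_subset_of_ncard_le (hΦ y hy.2).2 ?_ (Set.toFinite _)
          rw [ncard_cover_of_mem_orbit P hy.1, hbdef, ncard_cover_smul]
          exact hmax w hw
        rw [Finset.card_le_one]
        intro x hx y hy
        refine hsep x y ?_ ((key x hx).symm.trans (key y hy)) ?_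
        · rw [Finset.mem_filter, hO, Set.mem_toFinset] at hx hy
          rw [orbit_eq_iff.mpr hx.1]
          exact hy.1
        · rw [← key x hx]
          exact ⟨1, show (1 : G)⁻¹ • b ∈ (pfix P : Set Ω) by simpa using hb⟩
      have hΦsum : ∑ y ∈ O.filter (fun y => y ∈ Φ), wt P y
          = -((O.filter (fun y => y ∈ Φ)).card : ℚ) := by
        have hv1 : ∀ y ∈ O.filter (fun y => y ∈ Φ), wt P y = -1 :=
          fun y hy => wt_of_mem (hΦ y (Finset.mem_filter.mp hy).2).1
        rw [Finset.sum_congr rfl hv1, Finset.sum_const, nsmul_eq_mul]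
        ring
      have h1 : ((O.filter (fun y => y ∈ Φ)).card : ℚ) ≤ 1 := by exact_mod_cast hone
      have h2 := hle _ hvO
      have h3 := hW w hw
      rw [← hO] at h3
      linarith

end Step

/-- The induction. -/
theorem below_all [Fact p.Prime] : ∀ n : ℕ, Below.{u, v} p n := by
  intro n
  induction n with
  | zero => intro G _ _ Ω _ _ P _ _ h; exact absurd h (Nat.not_lt_zero _)
  | succ n ih =>
    intro G _ _ Ω _ _ P hgen hfix h
    have IH : Below.{u, v} p (Fintype.card Ω) := fun G' _ _ Ω' _ _ P' hg hf hlt =>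
      ih G' Ω' P' hg hf (lt_of_lt_of_le hlt (Nat.lt_succ_iff.mp h))
    by_cases hns : ∃ x y : Ω, x ≠ y ∧ (coverSetoid P).r x y
    · exact step_quot P hgen hfix IH hns
    · refine step_sep P hgen hfix IH fun x y h1 h2 h3 => ?_
      by_contra hne
      exact hns ⟨x, y, hne, Or.inr ⟨h1, h2, h3⟩⟩

/-- In a nontrivial transitive action of a group generated by its Sylow `p`-subgroups, a Sylow
`p`-subgroup fixes at most `(p - 1) n / (2p - 1)` points. -/
theorem fixed_bound [Fact p.Prime] {G : Type u} [Group G] [Finite G] {Ω : Type v}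
    [MulAction G Ω] [Finite Ω] [IsPretransitive G Ω] (hgen : SylGen p G)
    (hfix : ∀ w : Ω, ∃ g : G, g • w ≠ w) (P : Sylow p G) :
    (2 * p - 1) * Nat.card (pfix P : Set Ω) ≤ (p - 1) * Nat.card Ω := by
  haveI : Fintype Ω := Fintype.ofFinite Ω
  rcases isEmpty_or_nonempty Ω with he | ⟨⟨w⟩⟩
  · simp
  obtain ⟨hI, -⟩ := below_all (Fintype.card Ω + 1) G Ω P hgen hfix (Nat.lt_succ_self _)
  have h0 := hI w
  rw [show (orbit G w).toFinset = Finset.univ by simp [orbit_eq_univ]] at h0
  unfold wt at h0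
  rw [Finset.sum_ite, Finset.sum_const, Finset.sum_const, nsmul_eq_mul, nsmul_eq_mul,
    Finset.filter_not, Finset.card_univ_sdiff] at h0
  have hle := Finset.card_le_univ (Finset.univ.filter fun y => y ∈ (pfix P : Set Ω))
  rw [Nat.cast_sub hle, ← Nat.card_eq_fintype_card] at h0
  have hcard : (Finset.univ.filter fun y => y ∈ (pfix P : Set Ω)).card
      = Nat.card (pfix P : Set Ω) := by
    rw [Nat.card_eq_fintype_card, Fintype.card_subtype]
  rw [hcard] at h0
  have hp : p.Prime := Fact.out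
  have hp0 : (0 : ℚ) < p := by exact_mod_cast hp.pos
  have h1 : (((2 * p - 1) * Nat.card (pfix P : Set Ω) : ℕ) : ℚ)
      ≤ (((p - 1) * Nat.card Ω : ℕ) : ℚ) := by
    rw [Nat.cast_mul, Nat.cast_mul, Nat.cast_sub (by linarith [hp.two_le]),
      Nat.cast_sub hp.one_lt.le, Nat.cast_mul, Nat.cast_ofNat, Nat.cast_one]
    have h2 := mul_nonneg hp0.le h0
    field_simp at h2
    linarith
  exact_mod_cast h1

end CfsgLib.SylowFixed
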