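import Mathlib

/-!
Fixed points and orbits of a Sylow `p`-subgroup in a transitive group generated by its Sylow
`p`-subgroups: at most `(p - 1) n / (2 p - 1)` fixed points.  The proof is a simultaneous induction
with the covering property: small sets of points are fixed by a common Sylow `p`-subgroup whenever
the excess of their orbits is small.
-/

set_option autoImplicit false

open MulAction Pointwise
open scoped Classical

namespace CfsgLib.SylowOrbits

universe u v

variable {p : ℕ}

section Defs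

variable {G : Type*} [Group G] {Ω : Type*} [MulAction G Ω]

/-- Points fixed by every element of the Sylow subgroup. -/
def pfix (P : Sylow p G) : Set Ω := {w | ∀ x ∈ (P : Subgroup G), x • w = w}

/-- Orbit length under the Sylow subgroup. -/
noncomputable def osize (P : Sylow p G) (w : Ω) : ℕ :=
  Nat.card (orbit (↥(P : Subgroup G)) w)

/-- Weight of a point: `-p` if fixed, `p - 1` otherwise. -/
noncomputable def eps (P : Sylow p G) (w : Ω) : ℤ :=
  if w ∈ (pfix P : Set Ω) then -(p : ℤ) else (p : ℤ) - 1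

/-- Elements carrying the fixed-point set onto a set containing `w`. -/
def cover (P : Sylow p G) (w : Ω) : Set G := {g | g⁻¹ • w ∈ (pfix P : Set Ω)}

/-- `G` is generated by its Sylow subgroups. -/
def SylGen (p : ℕ) (G : Type*) [Group G] : Prop :=
  ∀ M : Subgroup G, (∀ Q : Sylow p G, (Q : Subgroup G) ≤ M) → M = ⊤

lemma osize_pos [Finite Ω] (P : Sylow p G) (w : Ω) : 0 < osize P w := by
  haveI : Nonempty (orbit (↥(P : Subgroup G)) w) := ⟨⟨w, mem_orbit_self w⟩⟩
  exact Nat.card_pos

lemma mem_pfix_iff_osize {P : Sylow p G} {w : Ω} :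
    w ∈ (pfix P : Set Ω) ↔ osize P w = 1 := by
  constructor
  · intro h
    have : orbit (↥(P : Subgroup G)) w = {w} := by
      ext y
      constructor
      · rintro ⟨x, rfl⟩
        exact h x x.2
      · rintro rfl
        exact mem_orbit_self _
    simp [osize, this]
  · intro h x hx
    obtain ⟨h1, -⟩ := Nat.card_eq_one_iff_unique.mp h
    have := @Subsingleton.elim _ h1 ⟨x • w, ⟨⟨x, hx⟩, rfl⟩⟩ ⟨w, mem_orbit_self w⟩
    exact congrArg Subtype.val this

lemma eps_of_mem {P : Sylow p G} {w : Ω} (h : w ∈ (pfix P : Set Ω)) : eps P w = -(p : ℤ) :=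
  if_pos h

lemma eps_of_notMem {P : Sylow p G} {w : Ω} (h : w ∉ (pfix P : Set Ω)) :
    eps P w = (p : ℤ) - 1 :=
  if_neg h

lemma eps_nonneg [hp : Fact p.Prime] {P : Sylow p G} {w : Ω} (h : w ∉ (pfix P : Set Ω)) :
    0 ≤ eps P w := by
  rw [eps_of_notMem h]
  have : (1 : ℤ) ≤ p := by exact_mod_cast hp.out.one_lt.le
  linarith

lemma cover_smul (P : Sylow p G) (a : G) (w : Ω) :
    cover P (a • w) = (fun g => a * g) '' cover P w := by
  ext g
  constructor
  · intro hg
    refine ⟨a⁻¹ * g, ?_, by simp⟩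
    simp only [cover, Set.mem_setOf_eq, mul_inv_rev, inv_inv, mul_smul] at hg ⊢
    exact hg
  · rintro ⟨g, hg, rfl⟩
    simp only [cover, Set.mem_setOf_eq, mul_inv_rev, mul_smul, inv_smul_smul] at hg ⊢
    exact hg

lemma ncard_cover_smul (P : Sylow p G) (a : G) (w : Ω) :
    (cover P (a • w)).ncard = (cover P w).ncard := by
  rw [cover_smul, Set.ncard_image_of_injective _ (mul_right_injective a)]

lemma ncard_cover_of_mem_orbit (P : Sylow p G) {u w : Ω} (h : u ∈ orbit G w) :
    (cover P u).ncard = (cover P w).ncard := by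
  obtain ⟨a, rfl⟩ := h
  exact ncard_cover_smul P a w

lemma conj_mem_iff (P : Sylow p G) (g z : G) :
    z ∈ ((g • P : Sylow p G) : Subgroup G) ↔ g⁻¹ * z * g ∈ (P : Subgroup G) := by
  rw [Sylow.coe_subgroup_smul, Subgroup.mem_pointwise_smul_iff_inv_smul_mem]
  simp [MulAut.smul_def, mul_assoc]

lemma fixed_of_mem_cover {P : Sylow p G} {g : G} {w : Ω} (hg : g ∈ cover P w)
    {z : G} (hz : z ∈ ((g • P : Sylow p G) : Subgroup G)) : z • w = w := by
  rw [conj_mem_iff] at hz
  have h := hg (g⁻¹ * z * g) hz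
  rw [mul_smul, mul_smul, smul_inv_smul, smul_left_cancel_iff] at h
  exact h

/-- A moved point lies in a `P`-orbit of at least `p` moved points. -/
lemma p_le_osize [hp : Fact p.Prime] [Finite Ω] {P : Sylow p G} {w : Ω}
    (h : w ∉ (pfix P : Set Ω)) : p ≤ osize P w := by
  rw [mem_pfix_iff_osize] at h
  obtain ⟨k, hk⟩ : ∃ k, osize P w = p ^ k := P.2.card_orbit w
  rw [hk] at h ⊢
  exact Nat.le_self_pow (fun h0 => h (by rw [h0, pow_zero])) p

end Defs

section Transfer

variable {G : Type*} [Group G] {Ω : Type*} [MulAction G Ω]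
  {H : Type*} [Group H] {Θ : Type*} [MulAction H Θ]

/-- Orbit lengths are preserved by an injective equivariant map. -/
lemma osize_transfer (φ : H →* G) (ι : Θ → Ω) (hι : Function.Injective ι)
    (heq : ∀ (h : H) (t : Θ), ι (h • t) = φ h • ι t) (P : Sylow p G) (P' : Sylow p H)
    (hP : (P' : Subgroup H).map φ = (P : Subgroup G)) (t : Θ) :
    osize P' t = osize P (ι t) := by
  have him : orbit (↥(P : Subgroup G)) (ι t) = ι '' orbit (↥(P' : Subgroup H)) t := by
    ext y
    constructor
    · rintro ⟨⟨x, hx⟩, rfl⟩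
      rw [← hP] at hx
      obtain ⟨h, hh, rfl⟩ := hx
      exact ⟨(⟨h, hh⟩ : ↥(P' : Subgroup H)) • t, mem_orbit _ _, by
        change ι (h • t) = φ h • ι t
        exact heq h t⟩
    · rintro ⟨-, ⟨⟨h, hh⟩, rfl⟩, rfl⟩
      have hx : φ h ∈ (P : Subgroup G) := hP ▸ Subgroup.mem_map_of_mem φ hh
      exact ⟨⟨φ h, hx⟩, (heq h t).symm⟩
  unfold osize
  rw [him, Nat.card_image_of_injective hι]

lemma eps_transfer (φ : H →* G) (ι : Θ → Ω) (hι : Function.Injective ι)
    (heq : ∀ (h : H) (t : Θ), ι (h • t) = φ h • ι t) (P : Sylow p G) (P' : Sylow p H)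
    (hP : (P' : Subgroup H).map φ = (P : Subgroup G)) (t : Θ) :
    eps P' t = eps P (ι t) := by
  simp only [eps, mem_pfix_iff_osize, osize_transfer φ ι hι heq P P' hP t]

end Transfer

/-- The two statements proved simultaneously. -/
def Concl {G : Type*} [Group G] (Ω : Type*) [MulAction G Ω] [Fintype Ω] (P : Sylow p G) : Prop :=
  (∀ w : Ω, 0 ≤ ∑ y ∈ (orbit G w).toFinset, eps P y) ∧
  ∀ (E : ℤ) (W : Finset Ω),
    (∀ w ∈ W, ∑ y ∈ (orbit G w).toFinset, eps P y ≤ E) → (p : ℤ) * W.card + E < (p : ℤ) * p →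
    ∃ g : G, ∀ w ∈ W, g⁻¹ • w ∈ (pfix P : Set Ω)

/-- The inductive hypothesis at degree `n`. -/
def Below (p n : ℕ) : Prop :=
  ∀ (G : Type u) [Group G] [Finite G] (Ω : Type v) [MulAction G Ω] [Fintype Ω] (P : Sylow p G),
    SylGen p G → (∀ w : Ω, ∃ g : G, g • w ≠ w) → Fintype.card Ω < n → Concl Ω P

section Step

variable [Fact p.Prime] {G : Type u} [Group G] [Finite G] {Ω : Type v} [MulAction G Ω]

lemma sylGen_fixed (hgen : SylGen p G) (P : Sylow p G) {w : Ω}
    (h : ∀ g : G, g ∈ cover P w) (a : G) : a • w = w := by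
  have hM : stabilizer G w = ⊤ := by
    refine hgen _ fun Q z hz => ?_
    obtain ⟨g, rfl⟩ := MulAction.exists_smul_eq G P Q
    exact fixed_of_mem_cover (h g) hz
  have : a ∈ stabilizer G w := hM ▸ Subgroup.mem_top a
  exact this

variable (P : Sylow p G)

/-- Points with the same covering set are identified. -/
def coverSetoid : Setoid Ω where
  r x y := x = y ∨ (y ∈ orbit G x ∧ cover P x = cover P y ∧ (cover P x).Nonempty)
  iseqv := by
    refine ⟨fun x => Or.inl rfl, ?_, ?_⟩
    · rintro x y (rfl | ⟨h1, h2, h3⟩)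
      · exact Or.inl rfl
      · exact Or.inr ⟨mem_orbit_symm.mp h1, h2.symm, h2 ▸ h3⟩
    · rintro x y z (rfl | ⟨h1, h2, h3⟩) (rfl | ⟨k1, k2, k3⟩)
      · exact Or.inl rfl
      · exact Or.inr ⟨k1, k2, k3⟩
      · exact Or.inr ⟨h1, h2, h3⟩
      · exact Or.inr ⟨orbit_eq_iff.mpr h1 ▸ k1, h2.trans k2, h3⟩

lemma coverSetoid_smul (a : G) {x y : Ω} (h : (coverSetoid P).r x y) :
    (coverSetoid P).r (a • x) (a • y) := by
  rcases h with rfl | ⟨h1, h2, h3⟩
  · exact Or.inl rfl
  · refine Or.inr ⟨?_, ?_, ?_⟩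
    · have hy : a • y ∈ orbit G x := by
        obtain ⟨c, rfl⟩ := h1
        exact ⟨a * c, mul_smul a c x⟩
      rwa [orbit_smul]
    · rw [cover_smul, cover_smul, h2]
    · rw [cover_smul]
      exact h3.image _

/-- The quotient action. -/
instance quotAction : MulAction G (Quotient (coverSetoid (Ω := Ω) P)) where
  smul a := Quotient.map' (fun x => a • x) (fun _ _ h => coverSetoid_smul P a h)
  one_smul := by
    rintro ⟨x⟩
    exact congrArg (Quotient.mk _) (one_smul G x)
  mul_smul a b := by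
    rintro ⟨x⟩
    exact congrArg (Quotient.mk _) (mul_smul a b x)

lemma quot_smul (a : G) (x : Ω) :
    a • (Quotient.mk (coverSetoid P) x) = Quotient.mk (coverSetoid P) (a • x) := rfl

/-- An element of `P` stabilising a class fixes it pointwise. -/
lemma fix_of_fix_class {z : G} (hz : z ∈ (P : Subgroup G)) {w : Ω}
    (h : z • (Quotient.mk (coverSetoid P) w) = Quotient.mk (coverSetoid P) w) : z • w = w := by
  rw [quot_smul] at h
  rcases (Quotient.exact h : (coverSetoid P).r (z • w) w) with he | ⟨-, hc, hne⟩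
  · exact he
  rw [hc] at hne
  obtain ⟨g, hg⟩ := hne
  set q := Quotient.mk (coverSetoid P) w with hq
  set H := stabilizer G q
  have hgH : ((g • P : Sylow p G) : Subgroup G) ≤ H := by
    intro y hy
    change y • q = q
    rw [hq, quot_smul, fixed_of_mem_cover hg hy]
  have hzH : z ∈ H := by
    change z • q = q
    rw [hq, quot_smul]
    exact h
  have hzp : IsPGroup p (Subgroup.zpowers (⟨z, hzH⟩ : H)) := by
    have h1 : IsPGroup p ((P : Subgroup G).comap H.subtype) :=
      P.2.comap_of_injective _ H.subtype_injective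
    exact h1.to_le (Subgroup.zpowers_le.mpr (Subgroup.mem_comap.mpr hz))
  obtain ⟨S, hS⟩ := hzp.exists_le_sylow
  obtain ⟨a, ha⟩ := MulAction.exists_smul_eq H ((g • P).subtype hgH) S
  have hzS : (⟨z, hzH⟩ : H) ∈ (S : Subgroup H) := hS (Subgroup.mem_zpowers _)
  rw [← ha, conj_mem_iff, Sylow.coe_subtype, Subgroup.mem_subgroupOf] at hzS
  have hz' : z ∈ ((((a : G) * g) • P : Sylow p G) : Subgroup G) := by
    rw [conj_mem_iff] at hzS ⊢
    simpa [mul_assoc] using hzS
  refine fixed_of_mem_cover ?_ hz'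
  have haq : (coverSetoid P).r ((a : G) • w) w := by
    apply Quotient.exact
    rw [← quot_smul]
    exact a.2
  rcases haq with he | ⟨-, hc', -⟩
  · rw [show w = (a : G) • w from he.symm, cover_smul]
    exact ⟨g, hg, rfl⟩
  · rw [← hc', cover_smul]
    exact ⟨g, hg, rfl⟩

lemma osize_class (w : Ω) : osize P (Quotient.mk (coverSetoid P) w) = osize P w := by
  unfold osize
  symm
  refine Nat.card_eq_of_bijective
    (fun y => ⟨Quotient.mk (coverSetoid P) y.1, by
      obtain ⟨x, hx⟩ := y.2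
      exact ⟨x, by rw [← hx]; rfl⟩⟩) ⟨?_, ?_⟩
  · rintro ⟨-, ⟨⟨x, hx⟩, rfl⟩⟩ ⟨-, ⟨⟨x', hx'⟩, rfl⟩⟩ he
    have he' : Quotient.mk (coverSetoid P) (x • w) = Quotient.mk (coverSetoid P) (x' • w) :=
      congrArg Subtype.val he
    have h2 : (x'⁻¹ * x) • (Quotient.mk (coverSetoid P) w) = Quotient.mk (coverSetoid P) w := by
      rw [mul_smul, quot_smul P x, he', ← quot_smul P x', inv_smul_smul]
    have h3 := fix_of_fix_class P (mul_mem (inv_mem hx') hx) h2
    rw [mul_smul, inv_smul_eq_iff] at h3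
    exact Subtype.ext h3
  · rintro ⟨-, ⟨x, rfl⟩⟩
    exact ⟨⟨x • w, mem_orbit _ _⟩, Subtype.ext rfl⟩

lemma eps_class (w : Ω) : eps P (Quotient.mk (coverSetoid P) w) = eps P w := by
  simp only [eps, mem_pfix_iff_osize, osize_class]

variable [Fintype Ω]

/-- If two points have the same covering set, pass to the quotient. -/
lemma step_quot (hgen : SylGen p G) (hfix : ∀ w : Ω, ∃ g : G, g • w ≠ w)
    (IH : Below.{u, v} p (Fintype.card Ω))
    (hns : ∃ x y : Ω, x ≠ y ∧ (coverSetoid P).r x y) : Concl Ω P := by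
  let π : Ω → Quotient (coverSetoid (Ω := Ω) P) := Quotient.mk (coverSetoid P)
  haveI : Fintype (Quotient (coverSetoid (Ω := Ω) P)) := Fintype.ofFinite _
  have hfix' : ∀ q : Quotient (coverSetoid (Ω := Ω) P), ∃ g : G, g • q ≠ q := by
    intro q
    induction q using Quotient.inductionOn with | h w => ?_
    by_contra hh
    simp only [not_exists, not_not] at hh
    obtain ⟨g, hg⟩ := hfix w
    refine hg (sylGen_fixed hgen P (fun a x hx => ?_) g)
    refine fix_of_fix_class P hx ?_
    have : Quotient.mk (coverSetoid P) (a⁻¹ • w) = Quotient.mk (coverSetoid P) w := hh a⁻¹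
    rw [this]
    exact hh x
  have hlt : Fintype.card (Quotient (coverSetoid (Ω := Ω) P)) < Fintype.card Ω := by
    obtain ⟨x, y, hxy, hr⟩ := hns
    refine Fintype.card_lt_of_surjective_not_injective π Quotient.mk_surjective fun hinj => ?_
    exact hxy (hinj (Quotient.sound hr))
  obtain ⟨hI, hC⟩ := IH G (Quotient (coverSetoid (Ω := Ω) P)) P hgen hfix' hlt
  have hsum : ∀ w : Ω, ∃ c : ℕ, 1 ≤ c ∧ ∑ y ∈ (orbit G w).toFinset, eps P y
      = (c : ℤ) * ∑ q ∈ (orbit G (π w)).toFinset, eps P q := by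
    intro w
    refine ⟨(Finset.univ.filter (fun y => π y = π w)).card,
      Finset.card_pos.mpr ⟨w, by simp⟩, ?_⟩
    have himg : ∀ y ∈ (orbit G w).toFinset, π y ∈ (orbit G (π w)).toFinset := by
      intro y hy
      rw [Set.mem_toFinset] at hy ⊢
      obtain ⟨a, rfl⟩ := hy
      exact ⟨a, rfl⟩
    rw [← Finset.sum_fiberwise_of_maps_to himg, Finset.mul_sum]
    refine Finset.sum_congr rfl fun q hq => ?_
    rw [Set.mem_toFinset] at hq
    obtain ⟨a, rfl⟩ := hq
    have hfib : ((orbit G w).toFinset.filter (fun y => π y = a • π w)) =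
        (Finset.univ.filter (fun y => π y = π w)).image (fun y => a • y) := by
      ext y
      simp only [Finset.mem_filter, Set.mem_toFinset, Finset.mem_image, Finset.mem_univ,
        true_and]
      constructor
      · rintro ⟨-, hy⟩
        refine ⟨a⁻¹ • y, ?_, smul_inv_smul a y⟩
        change a⁻¹ • π y = π w
        rw [hy, inv_smul_smul]
      · rintro ⟨y', hy', rfl⟩
        refine ⟨?_, ?_⟩
        · rcases (Quotient.exact hy' : (coverSetoid P).r y' w) with rfl | ⟨h1, -, -⟩
          · exact mem_orbit _ _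
          · obtain ⟨b, hb⟩ := mem_orbit_symm.mp h1
            exact ⟨a * b, by change (a * b) • w = a • y'; rw [mul_smul]; exact congrArg _ hb⟩
        · change π (a • y') = a • π w
          rw [← hy']
          rfl
    have hval : ∀ y ∈ (orbit G w).toFinset.filter (fun y => π y = a • π w),
        eps P y = eps P (a • π w) := by
      intro y hy
      rw [← (Finset.mem_filter.mp hy).2]
      exact (eps_class P y).symm
    rw [Finset.sum_congr rfl hval, Finset.sum_const, hfib,
      Finset.card_image_of_injective _ (MulAction.injective a), nsmul_eq_mul]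
  refine ⟨fun w => ?_, fun E W hW hlt' => ?_⟩
  · obtain ⟨c, -, hc⟩ := hsum w
    rw [hc]
    exact mul_nonneg (Nat.cast_nonneg c) (hI _)
  · refine Exists.elim (hC E (W.image π) ?_ ?_) fun g hg =>
      ⟨g, fun w hw x hx => fix_of_fix_class P hx (hg (π w) (Finset.mem_image_of_mem π hw) x hx)⟩
    · intro q hq
      obtain ⟨w, hw, rfl⟩ := Finset.mem_image.mp hq
      obtain ⟨c, hc1, hc⟩ := hsum w
      have h1 : (1 : ℤ) ≤ c := by exact_mod_cast hc1
      have h2 := hW w hw
      rw [hc] at h2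
      nlinarith [hI (π w)]
    · have : ((W.image π).card : ℤ) ≤ W.card := by exact_mod_cast Finset.card_image_le
      nlinarith [Int.natCast_nonneg p]

/-- Restriction to a subgroup acting on an invariant subset. -/
lemma restrict (L : Subgroup G) (hPL : (P : Subgroup G) ≤ L) (hgenL : SylGen p L)
    (IH : Below.{u, v} p (Fintype.card Ω)) (Φ : Set Ω)
    (hinv : ∀ a ∈ L, ∀ w ∈ Φ, a • w ∈ Φ) (hne : Φ.Nonempty)
    (hmov : ∀ w ∉ Φ, ∃ a ∈ L, a • w ≠ w) :
    (∀ w ∉ Φ, 0 ≤ ∑ y ∈ (orbit L w).toFinset, eps P y) ∧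
    ∀ (E : ℤ) (W : Finset Ω), (∀ w ∈ W, w ∉ Φ) →
      (∀ w ∈ W, ∑ y ∈ (orbit L w).toFinset, eps P y ≤ E) →
      (p : ℤ) * W.card + E < (p : ℤ) * p →
      ∃ l ∈ L, ∀ w ∈ W, l⁻¹ • w ∈ (pfix P : Set Ω) := by
  let S : SubMulAction L Ω :=
    { carrier := Φᶜ
      smul_mem' := fun a w hw hcon => hw (by
        have := hinv (a⁻¹ : G) (inv_mem a.2) _ hcon
        rwa [show (a • w) = (a : G) • w from rfl, inv_smul_smul] at this) }
  haveI : Fintype S := Fintype.ofFinite _
  have hlt : Fintype.card S < Fintype.card Ω := by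
    obtain ⟨b, hb⟩ := hne
    refine Fintype.card_lt_of_injective_of_notMem (fun s : S => (s : Ω))
      Subtype.val_injective (b := b) ?_
    rintro ⟨s, rfl⟩
    exact s.2 hb
  have hfix' : ∀ s : S, ∃ a : L, a • s ≠ s := by
    intro s
    obtain ⟨a, ha, hne'⟩ := hmov s s.2
    exact ⟨⟨a, ha⟩, fun h => hne' (congrArg Subtype.val h)⟩
  obtain ⟨hI, hC⟩ := IH L S (P.subtype hPL) hgenL hfix' hlt
  have hmap : ((P.subtype hPL : Sylow p L) : Subgroup L).map L.subtype = (P : Subgroup G) := by
    rw [Sylow.coe_subtype, Subgroup.map_subgroupOf_eq_of_le hPL]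
  have hos : ∀ s : S, osize (P.subtype hPL) s = osize P (s : Ω) :=
    fun s => osize_transfer L.subtype (fun s : S => (s : Ω)) Subtype.val_injective
      (fun _ _ => rfl) P _ hmap s
  have hsum : ∀ s : S, ∑ y ∈ (orbit L s).toFinset, eps (P.subtype hPL) y =
      ∑ y ∈ (orbit L (s : Ω)).toFinset, eps P y := by
    intro s
    refine Finset.sum_bij (fun y _ => (y : Ω)) ?_ ?_ ?_ ?_
    · intro y hy
      rw [Set.mem_toFinset] at hy ⊢
      obtain ⟨a, rfl⟩ := hy
      exact ⟨a, rfl⟩
    · intro y _ y' _ he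
      exact Subtype.ext he
    · intro y hy
      rw [Set.mem_toFinset] at hy
      obtain ⟨a, rfl⟩ := hy
      exact ⟨a • s, Set.mem_toFinset.mpr (mem_orbit _ _), rfl⟩
    · intro y _
      exact eps_transfer L.subtype (fun s : S => (s : Ω)) Subtype.val_injective
        (fun _ _ => rfl) P _ hmap y
  refine ⟨fun w hw => ?_, fun E W hWS hW hlt' => ?_⟩
  · exact le_of_le_of_eq (hI ⟨w, hw⟩) (hsum ⟨w, hw⟩)
  · refine Exists.elim (hC E (W.subtype (fun w => w ∈ S)) ?_ ?_) fun l hl =>
      ⟨l, l.2, fun w hw => by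
        have h := hl ⟨w, hWS w hw⟩ (Finset.mem_subtype.mpr hw)
        rw [mem_pfix_iff_osize, hos, ← mem_pfix_iff_osize] at h
        exact h⟩
    · intro s hs
      rw [hsum]
      exact hW _ (Finset.mem_subtype.mp hs)
    · have : ((W.subtype (fun w => w ∈ S)).card : ℤ) ≤ W.card := by
        rw [Finset.card_subtype]
        exact_mod_cast Finset.card_filter_le _ _
      nlinarith [Int.natCast_nonneg p]

omit [Fact p.Prime] [Finite G] in
/-- An invariant set has nonnegative weight if all its orbits do, and dominates each of them. -/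
lemma sum_invariant {α : Type*} [AddCommGroup α] [PartialOrder α] [IsOrderedAddMonoid α]
    (L : Subgroup G) (f : Ω → α) :
    ∀ S : Finset Ω, (∀ a ∈ L, ∀ w ∈ S, a • w ∈ S) →
      (∀ w ∈ S, 0 ≤ ∑ y ∈ (orbit L w).toFinset, f y) →
      0 ≤ ∑ y ∈ S, f y ∧ ∀ w ∈ S, ∑ y ∈ (orbit L w).toFinset, f y ≤ ∑ y ∈ S, f y := by
  intro S
  induction S using Finset.strongInduction with
  | H S ih => ?_
  intro hinv hnn
  have key : ∀ w ∈ S, ∑ y ∈ (orbit L w).toFinset, f y ≤ ∑ y ∈ S, f y := by
    intro w hw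
    have hsub : (orbit L w).toFinset ⊆ S := by
      intro y hy
      rw [Set.mem_toFinset] at hy
      obtain ⟨a, rfl⟩ := hy
      exact hinv a a.2 w hw
    rw [← Finset.sum_sdiff hsub, le_add_iff_nonneg_left]
    refine (ih _ ?_ ?_ fun y hy => hnn y (Finset.mem_sdiff.mp hy).1).1
    · exact Finset.sdiff_ssubset hsub ⟨w, Set.mem_toFinset.mpr (mem_orbit_self w)⟩
    · intro a ha y hy
      rw [Finset.mem_sdiff, Set.mem_toFinset] at hy ⊢
      refine ⟨hinv a ha y hy.1, fun h => hy.2 ?_⟩
      obtain ⟨c, hc⟩ := h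
      refine ⟨⟨a, ha⟩⁻¹ * c, ?_⟩
      change ((⟨a, ha⟩ : L)⁻¹ * c) • w = y
      rw [mul_smul, show c • w = a • y from hc]
      change (a : G)⁻¹ • a • y = y
      exact inv_smul_smul a y
  refine ⟨?_, key⟩
  rcases S.eq_empty_or_nonempty with rfl | ⟨w, hw⟩
  · simp
  · exact (hnn w hw).trans (key w hw)

/-- Subgroup generated by the Sylow subgroups fixing `b`. -/
def localGen (p : ℕ) (G : Type u) [Group G] {Ω : Type v} [MulAction G Ω] (b : Ω) : Subgroup G :=
  ⨆ Q : {Q : Sylow p G // ∀ x ∈ (Q : Subgroup G), x • b = b}, ((Q : Sylow p G) : Subgroup G)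

omit [Fact p.Prime] [Finite G] [Fintype Ω] in
lemma sylGen_localGen (b : Ω) : SylGen p (localGen p G b : Subgroup G) := by
  intro M hM
  rw [eq_top_iff]
  intro x _
  have h : localGen p G b ≤ M.map (localGen p G b).subtype := by
    refine iSup_le fun Q => ?_
    have hQ : ((Q : Sylow p G) : Subgroup G) ≤ localGen p G b :=
      le_iSup (fun Q : {Q : Sylow p G // ∀ x ∈ (Q : Subgroup G), x • b = b} =>
        ((Q : Sylow p G) : Subgroup G)) Q
    rw [← Subgroup.map_subgroupOf_eq_of_le hQ, ← Sylow.coe_subtype _ hQ]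
    exact Subgroup.map_mono (hM _)
  obtain ⟨y, hy, hyx⟩ := h x.2
  rwa [← Subtype.ext hyx]

omit [Fintype Ω] in
/-- Facts about the points fixed by `localGen`. -/
lemma localGen_facts {b : Ω} (hb : b ∈ (pfix P : Set Ω)) :
    (P : Subgroup G) ≤ localGen p G b ∧ (∀ a ∈ localGen p G b, a • b = b) ∧
    ∀ v : Ω, (∀ a ∈ localGen p G b, a • v = v) → v ∈ (pfix P : Set Ω) ∧ cover P b ⊆ cover P v := by
  have hle : ∀ Q : {Q : Sylow p G // ∀ x ∈ (Q : Subgroup G), x • b = b},
      ((Q : Sylow p G) : Subgroup G) ≤ localGen p G b := fun Q =>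
      le_iSup (fun Q : {Q : Sylow p G // ∀ x ∈ (Q : Subgroup G), x • b = b} =>
        ((Q : Sylow p G) : Subgroup G)) Q
  have hP : (P : Subgroup G) ≤ localGen p G b := hle ⟨P, hb⟩
  refine ⟨hP, fun a ha => ?_, fun v hv => ⟨fun x hx => hv x (hP hx), ?_⟩⟩
  · have : localGen p G b ≤ stabilizer G b := iSup_le fun Q x hx => Q.2 x hx
    exact this ha
  · intro g hg x hx
    have hQ : ∀ y ∈ ((g • P : Sylow p G) : Subgroup G), y • b = b :=
      fun y hy => fixed_of_mem_cover hg hy
    have hxg : g * x * g⁻¹ ∈ ((g • P : Sylow p G) : Subgroup G) := by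
      rw [conj_mem_iff]
      simpa [mul_assoc] using hx
    have h1 := hv (g * x * g⁻¹) (hle ⟨g • P, hQ⟩ hxg)
    rw [mul_smul, mul_smul] at h1
    exact eq_inv_smul_iff.mpr h1

/-- An orbit as an invariant set. -/
def orbitSub (w : Ω) : SubMulAction G Ω where
  carrier := orbit G w
  smul_mem' a y hy := by
    obtain ⟨c, rfl⟩ := hy
    exact ⟨a * c, mul_smul a c w⟩

/-- Restriction to a proper orbit. -/
lemma nonneg_of_proper (hgen : SylGen p G) (hfix : ∀ w : Ω, ∃ g : G, g • w ≠ w)
    (IH : Below.{u, v} p (Fintype.card Ω)) (w : Ω) (hlt : orbit G w ≠ Set.univ) :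
    0 ≤ ∑ y ∈ (orbit G w).toFinset, eps P y := by
  let S : SubMulAction G Ω := orbitSub (G := G) w
  haveI : Fintype S := Fintype.ofFinite _
  have hcard : Fintype.card S < Fintype.card Ω := by
    obtain ⟨b, hb⟩ := (Set.ne_univ_iff_exists_notMem _).mp hlt
    refine Fintype.card_lt_of_injective_of_notMem (fun s : S => (s : Ω))
      Subtype.val_injective (b := b) ?_
    rintro ⟨s, rfl⟩
    exact hb s.2
  have hfix' : ∀ s : S, ∃ a : G, a • s ≠ s := by
    intro s
    obtain ⟨a, ha⟩ := hfix s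
    exact ⟨a, fun h => ha (congrArg Subtype.val h)⟩
  have hI := (IH G S P hgen hfix' hcard).1
  refine le_of_le_of_eq (hI ⟨w, mem_orbit_self w⟩) ?_
  refine Finset.sum_bij (fun y _ => (y : Ω)) ?_ ?_ ?_ ?_
  · intro y _
    exact Set.mem_toFinset.mpr y.2
  · intro y _ y' _ he
    exact Subtype.ext he
  · intro y hy
    rw [Set.mem_toFinset] at hy
    obtain ⟨a, rfl⟩ := hy
    exact ⟨a • ⟨w, mem_orbit_self w⟩, Set.mem_toFinset.mpr (mem_orbit _ _), rfl⟩
  · intro y _
    exact eps_transfer (MonoidHom.id G) (fun s : S => (s : Ω)) Subtype.val_injective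
      (fun _ _ => rfl) P P (Subgroup.map_id _) y

/-- The inductive step when covering sets separate points. -/
lemma step_sep (hgen : SylGen p G) (hfix : ∀ w : Ω, ∃ g : G, g • w ≠ w)
    (IH : Below.{u, v} p (Fintype.card Ω))
    (hsep : ∀ x y : Ω, y ∈ orbit G x → cover P x = cover P y → (cover P x).Nonempty → x = y) :
    Concl Ω P := by
  refine ⟨fun w => ?_, fun E W hW hlt => ?_⟩
  · rcases ne_or_eq (orbit G w) Set.univ with hne | huniv
    · exact nonneg_of_proper P hgen hfix IH w hne
    have htop : (orbit G w).toFinset = Finset.univ := by simp [huniv]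
    rw [htop]
    by_cases hF : ∀ y : Ω, y ∉ (pfix P : Set Ω)
    · exact Finset.sum_nonneg fun y _ => eps_nonneg (hF y)
    simp only [not_forall, not_not] at hF
    obtain ⟨b, hb⟩ := hF
    have htr : ∀ x y : Ω, y ∈ orbit G x := fun x y => by
      have hx : x ∈ orbit G w := huniv ▸ Set.mem_univ x
      rw [orbit_eq_iff.mpr hx, huniv]
      exact Set.mem_univ y
    obtain ⟨hPL, hLb, hΦ⟩ := localGen_facts P hb
    have hone : ∀ v : Ω, (∀ a ∈ localGen p G b, a • v = v) → v = b := by
      intro v hv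
      have hne : (cover P b).Nonempty :=
        ⟨1, show (1 : G)⁻¹ • b ∈ (pfix P : Set Ω) by simpa using hb⟩
      have he : cover P b = cover P v := Set.eq_of_subset_of_ncard_le (hΦ v hv).2
        (ncard_cover_of_mem_orbit P (htr b v)).le (Set.toFinite _)
      exact (hsep b v (htr b v) he hne).symm
    have hmov : ∀ v ∉ ({b} : Set Ω), ∃ a ∈ localGen p G b, a • v ≠ v := by
      intro v hv
      by_contra hh
      simp only [not_exists, not_and, not_not] at hh
      exact hv (hone v hh)
    obtain ⟨hI, hC⟩ := restrict P (localGen p G b) hPL (sylGen_localGen b) IH {b}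
      (fun a ha v hv => by
        rw [Set.mem_singleton_iff] at hv ⊢
        rw [hv]
        exact hLb a ha) (Set.singleton_nonempty b) hmov
    set R := Finset.univ.erase b with hR
    have hRinv : ∀ a ∈ localGen p G b, ∀ v ∈ R, a • v ∈ R := by
      intro a ha v hv
      simp only [hR, Finset.mem_erase, Finset.mem_univ, and_true] at hv ⊢
      intro h
      apply hv
      calc v = a⁻¹ • a • v := (inv_smul_smul a v).symm
        _ = b := by rw [h]; exact hLb _ (inv_mem ha)
    obtain ⟨hnn, hle⟩ := sum_invariant (localGen p G b) (eps P) R hRinv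
      (fun v hv => hI v (by simpa [hR] using hv))
    rw [← Finset.add_sum_erase _ _ (Finset.mem_univ b), ← hR, eps_of_mem hb]
    by_contra hneg
    have hlt1 : ∑ y ∈ R, eps P y < (p : ℤ) := by linarith
    obtain ⟨u, hu⟩ : ∃ u : Ω, u ∉ (pfix P : Set Ω) := by
      by_contra hh
      simp only [not_exists, not_not] at hh
      obtain ⟨g, hg⟩ := hfix b
      exact hg (sylGen_fixed hgen P (fun a => hh _) g)
    obtain ⟨z₀, hz₀⟩ : ∃ z ∈ (P : Subgroup G), z • u ≠ u := by
      by_contra hh
      simp only [not_exists, not_and, not_not] at hh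
      exact hu hh
    haveI : Fintype ↥(P : Subgroup G) := Fintype.ofFinite _
    obtain ⟨z, hz, hzmin⟩ := Finset.exists_min_image
      (Finset.univ.filter fun z : ↥(P : Subgroup G) => (z : G) • u ≠ u) orderOf
      ⟨⟨z₀, hz₀.1⟩, by simp [hz₀.2]⟩
    simp only [Finset.mem_filter, Finset.mem_univ, true_and] at hz hzmin
    obtain ⟨g, hg⟩ := htr u b
    change g • u = b at hg
    have hzp : ((z : G) ^ p) • u = u := by
      by_contra hne
      have h1 : orderOf z ≤ orderOf (z ^ p) := hzmin (z ^ p) (by simpa using hne)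
      obtain ⟨k, hk⟩ := IsPGroup.iff_orderOf.mp P.2 z
      have hp : p.Prime := Fact.out
      cases k with
      | zero =>
        rw [pow_zero, orderOf_eq_one_iff] at hk
        exact hz (by rw [hk, OneMemClass.coe_one, one_smul])
      | succ k =>
        rw [orderOf_pow, hk, Nat.gcd_eq_right (dvd_pow_self p (Nat.succ_ne_zero k))] at h1
        exact absurd h1 (not_le.mpr (Nat.div_lt_self (pow_pos hp.pos _) hp.one_lt))
    set z' : G := g * (z : G) * g⁻¹ with hz'
    have hz'pow : ∀ i : ℕ, z' ^ i • b = g • ((z : G) ^ i • u) := by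
      intro i
      rw [hz', conj_pow, mul_smul, mul_smul, ← hg, inv_smul_smul]
    have hz'p : z' ^ p • b = b := by rw [hz'pow, hzp, hg]
    set c : Finset Ω := (Finset.range p).image (fun i => z' ^ i • b) with hc
    have hbc : b ∈ c := Finset.mem_image.mpr
      ⟨0, Finset.mem_range.mpr (Fact.out : p.Prime).pos, by rw [pow_zero, one_smul]⟩
    have hcard : c.card ≤ p := Finset.card_image_le.trans_eq (Finset.card_range p)
    obtain ⟨l, hl, hlW⟩ := hC (∑ y ∈ R, eps P y) (c.erase b)
      (fun v hv => by simpa using (Finset.mem_erase.mp hv).1)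
      (fun v hv => hle v (by simpa [hR] using (Finset.mem_erase.mp hv).1)) (by
        have h1 : ((c.erase b).card : ℤ) + 1 ≤ p := by
          have := Finset.card_erase_add_one hbc
          exact_mod_cast this ▸ hcard
        nlinarith [Int.natCast_nonneg p])
    have hlfix : ∀ y ∈ ((l • P : Sylow p G) : Subgroup G), ∀ d ∈ (c : Set Ω), y • d = d := by
      intro y hy d hd
      refine fixed_of_mem_cover ?_ hy
      by_cases hdb : d = b
      · subst hdb
        change l⁻¹ • d ∈ (pfix P : Set Ω)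
        rw [hLb _ (inv_mem hl)]
        exact hb
      · exact hlW d (Finset.mem_erase.mpr ⟨hdb, hd⟩)
    set H := stabilizer G (c : Set Ω)
    have hz'H : z' ∈ H := by
      rw [mem_stabilizer_set_iff_smul_set_subset c.finite_toSet]
      rintro - ⟨d, hd, rfl⟩
      rw [hc, Finset.coe_image] at hd ⊢
      obtain ⟨i, hi, rfl⟩ := hd
      rw [Finset.mem_coe, Finset.mem_range] at hi
      change z' • z' ^ i • b ∈ _
      rw [← mul_smul, ← pow_succ']
      by_cases h : i + 1 < p
      · exact ⟨i + 1, Finset.mem_coe.mpr (Finset.mem_range.mpr h), rfl⟩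
      · refine ⟨0, Finset.mem_coe.mpr (Finset.mem_range.mpr (by omega)), ?_⟩
        change z' ^ 0 • b = z' ^ (i + 1) • b
        rw [show i + 1 = p by omega, hz'p, pow_zero, one_smul]
    have h2 : ((l • P : Sylow p G) : Subgroup G) ≤ H := by
      intro y hy
      rw [mem_stabilizer_set_iff_smul_set_subset c.finite_toSet]
      rintro - ⟨d, hd, rfl⟩
      change y • d ∈ (c : Set Ω)
      rwa [hlfix y hy d hd]
    have hz'g : z' ∈ ((g • P : Sylow p G) : Subgroup G) := by
      rw [conj_mem_iff, hz']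
      simp [mul_assoc]
    have hzpg : IsPGroup p (Subgroup.zpowers (⟨z', hz'H⟩ : H)) := by
      have h1 : IsPGroup p (((g • P : Sylow p G) : Subgroup G).comap H.subtype) :=
        (g • P : Sylow p G).2.comap_of_injective _ H.subtype_injective
      exact h1.to_le (Subgroup.zpowers_le.mpr (Subgroup.mem_comap.mpr hz'g))
    obtain ⟨S, hS⟩ := hzpg.exists_le_sylow
    obtain ⟨h, hh⟩ := MulAction.exists_smul_eq H ((l • P).subtype h2) S
    have hzS := hS (Subgroup.mem_zpowers (⟨z', hz'H⟩ : H))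
    rw [← hh, conj_mem_iff, Sylow.coe_subtype, Subgroup.mem_subgroupOf] at hzS
    have hd : ((h : G))⁻¹ • b ∈ (c : Set Ω) := by
      have hmem : ((h : G))⁻¹ ∈ H := inv_mem h.2
      exact (mem_stabilizer_set.mp hmem b).mpr hbc
    have h3 : ((h : G)⁻¹ * z' * (h : G)) • ((h : G)⁻¹ • b) = (h : G)⁻¹ • b :=
      hlfix _ (by simpa using hzS) _ hd
    rw [mul_smul, mul_smul, smul_inv_smul, smul_left_cancel_iff, hz', mul_smul, mul_smul, ← hg,
      inv_smul_smul, smul_left_cancel_iff] at h3
    exact hz h3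
  · rcases W.eq_empty_or_nonempty with rfl | hWne
    · exact ⟨1, by simp⟩
    obtain ⟨w₀, hw₀, hmax⟩ := Finset.exists_max_image W (fun v => (cover P v).ncard) hWne
    have hne : (cover P w₀).Nonempty := by
      by_contra hempty
      have hnofix : ∀ y ∈ orbit G w₀, y ∉ (pfix P : Set Ω) := by
        rintro - ⟨a, rfl⟩ ha
        exact hempty ⟨a⁻¹, show (a⁻¹)⁻¹ • w₀ ∈ (pfix P : Set Ω) by rw [inv_inv]; exact ha⟩
      have h0 := hnofix w₀ (mem_orbit_self w₀)
      have hsub : (orbit (↥(P : Subgroup G)) w₀).toFinset ⊆ (orbit G w₀).toFinset := by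
        intro y hy
        rw [Set.mem_toFinset] at hy ⊢
        obtain ⟨x, rfl⟩ := hy
        exact ⟨x, rfl⟩
      have hge : p ≤ (orbit G w₀).toFinset.card := by
        refine le_trans ?_ (Finset.card_le_card hsub)
        rw [Set.toFinset_card, ← Nat.card_eq_fintype_card]
        exact p_le_osize h0
      have h1 : (p : ℤ) * ((p : ℤ) - 1) ≤ ∑ y ∈ (orbit G w₀).toFinset, eps P y := by
        rw [Finset.sum_congr rfl
          (fun y hy => eps_of_notMem (hnofix y (Set.mem_toFinset.mp hy))), Finset.sum_const,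
          nsmul_eq_mul]
        refine mul_le_mul_of_nonneg_right (by exact_mod_cast hge) ?_
        have : (1 : ℤ) ≤ p := by exact_mod_cast (Fact.out : p.Prime).one_lt.le
        linarith
      have h2 := hW w₀ hw₀
      have h4 : (1 : ℤ) ≤ W.card := by exact_mod_cast hWne.card_pos
      nlinarith [Int.natCast_nonneg p]
    obtain ⟨g₀, hg₀⟩ := hne
    suffices h : ∃ g : G, ∀ w ∈ W, g⁻¹ • g₀⁻¹ • w ∈ (pfix P : Set Ω) by
      obtain ⟨g, hg⟩ := h
      exact ⟨g₀ * g, fun w hw => by rw [mul_inv_rev, mul_smul]; exact hg w hw⟩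
    set b := g₀⁻¹ • w₀ with hbdef
    have hb : b ∈ (pfix P : Set Ω) := hg₀
    obtain ⟨hPL, hLb, hΦ⟩ := localGen_facts P hb
    set Φ : Set Ω := {v | ∀ a ∈ localGen p G b, a • v = v} with hΦdef
    have hinv : ∀ a ∈ localGen p G b, ∀ v ∈ Φ, a • v ∈ Φ := by
      intro a ha v hv
      rw [hv a ha]
      exact hv
    have hmov : ∀ v ∉ Φ, ∃ a ∈ localGen p G b, a • v ≠ v := by
      intro v hv
      simp only [hΦdef, Set.mem_setOf_eq, not_forall] at hv
      obtain ⟨a, ha, h⟩ := hv
      exact ⟨a, ha, h⟩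
    have hbΦ : b ∈ Φ := hLb
    obtain ⟨hI, hC⟩ := restrict P (localGen p G b) hPL (sylGen_localGen b) IH Φ hinv ⟨b, hbΦ⟩ hmov
    set W' := (W.image fun w => g₀⁻¹ • w).filter (fun v => v ∉ Φ) with hW'
    have hcardW : (W'.card : ℤ) + 1 ≤ W.card := by
      have h1 : W'.card + 1 ≤ (W.image fun w => g₀⁻¹ • w).card := by
        refine Nat.succ_le_of_lt (Finset.card_lt_card ?_)
        rw [hW', Finset.filter_ssubset]
        exact ⟨b, Finset.mem_image_of_mem _ hw₀, fun h => h hbΦ⟩
      exact_mod_cast h1.trans Finset.card_image_le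
    refine Exists.elim (hC (E + p) W' (fun v hv => (Finset.mem_filter.mp hv).2) ?_
      (by nlinarith [Int.natCast_nonneg p])) fun l ⟨hl, hlW⟩ => ⟨l, fun w hw => by
        by_cases hΦw : g₀⁻¹ • w ∈ Φ
        · rw [hΦw _ (inv_mem hl)]
          exact (hΦ _ hΦw).1
        · exact hlW _ (Finset.mem_filter.mpr ⟨Finset.mem_image_of_mem _ hw, hΦw⟩)⟩
    · intro v hv
      obtain ⟨hv1, hv2⟩ := Finset.mem_filter.mp hv
      obtain ⟨w, hw, rfl⟩ := Finset.mem_image.mp hv1
      set O := (orbit G w).toFinset with hO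
      have hsplit := Finset.sum_filter_add_sum_filter_not O (fun y => y ∈ Φ) (eps P)
      have hvO : g₀⁻¹ • w ∈ O.filter (fun y => y ∉ Φ) :=
        Finset.mem_filter.mpr ⟨Set.mem_toFinset.mpr (mem_orbit _ _), hv2⟩
      obtain ⟨-, hle⟩ := sum_invariant (localGen p G b) (eps P) (O.filter (fun y => y ∉ Φ))
        (by
          intro a ha y hy
          rw [Finset.mem_filter, hO, Set.mem_toFinset] at hy ⊢
          refine ⟨?_, fun h => hy.2 ?_⟩
          · obtain ⟨c, hc⟩ := hy.1
            exact ⟨a * c, by change (a * c) • w = a • y; rw [mul_smul]; exact congrArg _ hc⟩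
          · have := hinv a⁻¹ (inv_mem ha) _ h
            rwa [inv_smul_smul] at this)
        (fun y hy => hI y (Finset.mem_filter.mp hy).2)
      have hone : (O.filter (fun y => y ∈ Φ)).card ≤ 1 := by
        have key : ∀ y ∈ O.filter (fun y => y ∈ Φ), cover P b = cover P y := by
          intro y hy
          rw [Finset.mem_filter, hO, Set.mem_toFinset] at hy
          refine Set.eq_of_subset_of_ncard_le (hΦ y hy.2).2 ?_ (Set.toFinite _)
          rw [ncard_cover_of_mem_orbit P hy.1, hbdef, ncard_cover_smul]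
          exact hmax w hw
        rw [Finset.card_le_one]
        intro x hx y hy
        refine hsep x y ?_ ((key x hx).symm.trans (key y hy)) ?_
        · rw [Finset.mem_filter, hO, Set.mem_toFinset] at hx hy
          rw [orbit_eq_iff.mpr hx.1]
          exact hy.1
        · rw [← key x hx]
          exact ⟨1, show (1 : G)⁻¹ • b ∈ (pfix P : Set Ω) by simpa using hb⟩
      have hΦsum : ∑ y ∈ O.filter (fun y => y ∈ Φ), eps P y
          = -((O.filter (fun y => y ∈ Φ)).card : ℤ) * p := by
        have hv1 : ∀ y ∈ O.filter (fun y => y ∈ Φ), eps P y = -(p : ℤ) :=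
          fun y hy => eps_of_mem (hΦ y (Finset.mem_filter.mp hy).2).1
        rw [Finset.sum_congr rfl hv1, Finset.sum_const, nsmul_eq_mul]
        ring
      have h1 : ((O.filter (fun y => y ∈ Φ)).card : ℤ) ≤ 1 := by exact_mod_cast hone
      have h2 := hle _ hvO
      have h3 := hW w hw
      rw [← hO] at h3
      nlinarith [Int.natCast_nonneg p]

end Step

/-- The induction. -/
theorem below_all [Fact p.Prime] : ∀ n : ℕ, Below.{u, v} p n := by
  intro n
  induction n with
  | zero => intro G _ _ Ω _ _ P _ _ h; exact absurd h (Nat.not_lt_zero _)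
  | succ n ih =>
    intro G _ _ Ω _ _ P hgen hfix h
    have IH : Below.{u, v} p (Fintype.card Ω) := fun G' _ _ Ω' _ _ P' hg hf hlt =>
      ih G' Ω' P' hg hf (lt_of_lt_of_le hlt (Nat.lt_succ_iff.mp h))
    by_cases hns : ∃ x y : Ω, x ≠ y ∧ (coverSetoid P).r x y
    · exact step_quot P hgen hfix IH hns
    · refine step_sep P hgen hfix IH fun x y h1 h2 h3 => ?_
      by_contra hne
      exact hns ⟨x, y, hne, Or.inr ⟨h1, h2, h3⟩⟩

theorem concl_of_sylGen [Fact p.Prime] {G : Type u} [Group G] [Finite G] {Ω : Type v}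
    [MulAction G Ω] [Fintype Ω] (P : Sylow p G) (hgen : SylGen p G)
    (hfix : ∀ w : Ω, ∃ g : G, g • w ≠ w) : Concl Ω P :=
  below_all (Fintype.card Ω + 1) G Ω P hgen hfix (Nat.lt_succ_self _)

lemma sylGen_iSup {G : Type u} [Group G] :
    SylGen p ↥(⨆ Q : Sylow p G, (Q : Subgroup G)) := by
  intro M hM
  rw [eq_top_iff]
  intro x _
  have h : (⨆ Q : Sylow p G, (Q : Subgroup G))
      ≤ M.map (⨆ Q : Sylow p G, (Q : Subgroup G)).subtype := by
    refine iSup_le fun Q => ?_
    have hQ := le_iSup (fun Q : Sylow p G => (Q : Subgroup G)) Q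
    rw [← Subgroup.map_subgroupOf_eq_of_le hQ, ← Sylow.coe_subtype _ hQ]
    exact Subgroup.map_mono (hM _)
  obtain ⟨y, hy, hyx⟩ := h x.2
  rwa [← Subtype.ext hyx]

/-- The total weight is nonnegative. -/
theorem sum_eps_nonneg [Fact p.Prime] {G : Type u} [Group G] [Finite G] {Ω : Type v}
    [MulAction G Ω] [Fintype Ω] (P : Sylow p G) (hgen : SylGen p G)
    (hfix : ∀ w : Ω, ∃ g : G, g • w ≠ w) : 0 ≤ ∑ y : Ω, eps P y := by
  refine (sum_invariant (⊤ : Subgroup G) (eps P) Finset.univ
    (fun _ _ _ _ => Finset.mem_univ _) (fun w _ => ?_)).1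
  refine le_of_le_of_eq ((concl_of_sylGen P hgen hfix).1 w) (Finset.sum_congr ?_ fun _ _ => rfl)
  ext y
  simp only [Set.mem_toFinset]
  exact ⟨fun ⟨a, ha⟩ => ⟨⟨a, Subgroup.mem_top a⟩, ha⟩, fun ⟨a, ha⟩ => ⟨a.1, ha⟩⟩

/-- In a transitive group generated by Sylow subgroups a Sylow subgroup fixes at most
`(p - 1) n / (2 p - 1)` points. -/
theorem fixed_bound [Fact p.Prime] {G : Type u} [Group G] [Finite G] {Ω : Type v}
    [MulAction G Ω] [Fintype Ω] (P : Sylow p G) (hgen : SylGen p G)
    (hfix : ∀ w : Ω, ∃ g : G, g • w ≠ w) :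
    (2 * p - 1) * (Finset.univ.filter fun w : Ω => w ∈ (pfix P : Set Ω)).card
      ≤ (p - 1) * Fintype.card Ω := by
  have h := sum_eps_nonneg P hgen hfix
  simp only [eps] at h
  rw [Finset.sum_ite, Finset.sum_const, Finset.sum_const, nsmul_eq_mul, nsmul_eq_mul] at h
  have hsplit := Finset.card_filter_add_card_filter_not
    (s := (Finset.univ : Finset Ω)) (fun w : Ω => w ∈ (pfix P : Set Ω))
  rw [Finset.card_univ] at hsplit
  have hp : 1 ≤ p := (Fact.out : p.Prime).one_lt.le
  zify [hp, show 1 ≤ 2 * p by omega] at hsplit ⊢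
  nlinarith

/-- In a faithful transitive group of order divisible by `p`, a Sylow `p`-subgroup has at most
`p n / (2p - 1)` orbits. -/
theorem orbit_bound [Fact p.Prime] {G : Type u} [Group G] [Finite G] {Ω : Type v}
    [MulAction G Ω] [FaithfulSMul G Ω] [Finite Ω] [IsPretransitive G Ω] (hpG : p ∣ Nat.card G)
    (P : Sylow p G) :
    (2 * p - 1) * Nat.card (orbitRel.Quotient ↥(P : Subgroup G) Ω) ≤ p * Nat.card Ω := by
  haveI : Fintype Ω := Fintype.ofFinite Ω
  set K : Subgroup G := ⨆ Q : Sylow p G, (Q : Subgroup G) with hK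
  have hle : ∀ Q : Sylow p G, (Q : Subgroup G) ≤ K :=
    le_iSup (fun Q : Sylow p G => (Q : Subgroup G))
  have hconj : ∀ (a : G), ∀ k ∈ K, a * k * a⁻¹ ∈ K := by
    intro a k hk
    have : K ≤ K.comap (MulAut.conj a).toMonoidHom := by
      refine iSup_le fun Q x hx => ?_
      rw [Subgroup.mem_comap]
      refine hle (a • Q) ?_
      rw [conj_mem_iff]
      simpa [mul_assoc] using hx
    simpa using this hk
  have hfix : ∀ w : Ω, ∃ k : K, k • w ≠ w := by
    intro w
    by_contra hh
    simp only [not_exists, not_not] at hh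
    have hall : ∀ (y : Ω), ∀ x ∈ (P : Subgroup G), x • y = y := by
      intro y x hx
      obtain ⟨a, rfl⟩ := exists_smul_eq G w y
      have h1 := hh ⟨a⁻¹ * x * a⁻¹⁻¹, hconj a⁻¹ x (hle P hx)⟩
      change (a⁻¹ * x * a⁻¹⁻¹) • w = w at h1
      rw [inv_inv, mul_smul, mul_smul, inv_smul_eq_iff] at h1
      exact h1
    have hP1 : ∀ x ∈ (P : Subgroup G), x = 1 := fun x hx =>
      eq_of_smul_eq_smul (fun y : Ω => by rw [hall y x hx, one_smul])
    exact P.ne_bot_of_dvd_card hpG ((Subgroup.eq_bot_iff_forall _).mpr hP1)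
  have hnn : 0 ≤ ∑ y : Ω, eps P y := by
    have hmap : ((P.subtype (hle P) : Sylow p K) : Subgroup K).map K.subtype
        = (P : Subgroup G) := by
      rw [Sylow.coe_subtype, Subgroup.map_subgroupOf_eq_of_le (hle P)]
    refine le_of_le_of_eq (sum_eps_nonneg (Ω := Ω) (P.subtype (hle P)) sylGen_iSup hfix)
      (Finset.sum_congr rfl fun y _ => ?_)
    exact eps_transfer K.subtype id Function.injective_id (fun _ _ => rfl) P _ hmap y
  have hp : p.Prime := Fact.out
  have hp1 : (1 : ℚ) ≤ p := by exact_mod_cast hp.one_lt.le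
  have hpos : ∀ y : Ω, (1 : ℚ) ≤ osize P y := fun y => by exact_mod_cast osize_pos P y
  have hpt : ∀ y : Ω, ((p : ℚ) - 1) / p * (eps P y : ℚ)
      ≤ (p : ℚ) - (2 * p - 1) * (1 / (osize P y : ℚ)) := by
    intro y
    by_cases h1 : y ∈ (pfix P : Set Ω)
    · rw [eps_of_mem h1, mem_pfix_iff_osize.mp h1]
      push_cast
      rw [div_mul_eq_mul_div, div_le_iff₀ (by linarith)]
      nlinarith
    · rw [eps_of_notMem h1]
      have hkp : (p : ℚ) ≤ osize P y := by exact_mod_cast p_le_osize h1
      have hq : 1 / (osize P y : ℚ) ≤ 1 / p := one_div_le_one_div_of_le (by linarith) hkp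
      have h2 : (2 * (p : ℚ) - 1) * (1 / (osize P y : ℚ)) ≤ (2 * p - 1) * (1 / p) :=
        mul_le_mul_of_nonneg_left hq (by linarith)
      have hp0 : (p : ℚ) ≠ 0 := by linarith
      have h3 : ((p : ℚ) - 1) / p * ((p : ℚ) - 1) = p - (2 * p - 1) * (1 / p) := by
        field_simp
        ring
      push_cast
      linarith
  have hk : ∑ y : Ω, 1 / (osize P y : ℚ)
      = Nat.card (orbitRel.Quotient ↥(P : Subgroup G) Ω) := by
    haveI : Fintype (orbitRel.Quotient ↥(P : Subgroup G) Ω) := Fintype.ofFinite _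
    rw [Nat.card_eq_fintype_card,
      ← Finset.sum_fiberwise_of_maps_to (g := fun y : Ω =>
        (Quotient.mk'' y : orbitRel.Quotient ↥(P : Subgroup G) Ω))
        (t := Finset.univ) (fun _ _ => Finset.mem_univ _)]
    rw [Fintype.card_eq_sum_ones, Nat.cast_sum]
    refine Finset.sum_congr rfl fun q _ => ?_
    induction q using Quotient.inductionOn' with | h a => ?_
    have hf : (Finset.univ.filter fun y : Ω =>
        (Quotient.mk'' y : orbitRel.Quotient ↥(P : Subgroup G) Ω) = Quotient.mk'' a) =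
        (orbit ↥(P : Subgroup G) a).toFinset := by
      ext y
      simp only [Finset.mem_filter, Finset.mem_univ, true_and, Set.mem_toFinset,
        Quotient.eq'']
      rfl
    have hv : ∀ y ∈ (orbit ↥(P : Subgroup G) a).toFinset,
        1 / (osize P y : ℚ) = 1 / (osize P a : ℚ) := by
      intro y hy
      rw [Set.mem_toFinset] at hy
      unfold osize
      rw [orbit_eq_iff.mpr hy]
    rw [hf, Finset.sum_congr rfl hv, Finset.sum_const, Set.toFinset_card,
      ← Nat.card_eq_fintype_card, nsmul_eq_mul, Nat.cast_one]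
    have : (osize P a : ℚ) ≠ 0 := by linarith [hpos a]
    change (osize P a : ℚ) * (1 / (osize P a : ℚ)) = 1
    field_simp
  have hsum := Finset.sum_le_sum (s := Finset.univ) fun y _ => hpt y
  rw [← Finset.mul_sum, Finset.sum_sub_distrib, ← Finset.mul_sum, hk, Finset.sum_const,
    Finset.card_univ, nsmul_eq_mul, ← Nat.card_eq_fintype_card] at hsum
  have h2 : (0 : ℚ) ≤ ((p : ℚ) - 1) / p * ∑ y : Ω, (eps P y : ℚ) :=
    mul_nonneg (div_nonneg (by linarith) (by linarith)) (by exact_mod_cast hnn)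
  have hcast : (((2 * p - 1 : ℕ)) : ℚ) = 2 * (p : ℚ) - 1 := by
    rw [Nat.cast_sub (by linarith [hp.two_le]), Nat.cast_mul]
    norm_num
  have : (((2 * p - 1) * Nat.card (orbitRel.Quotient ↥(P : Subgroup G) Ω) : ℕ) : ℚ)
      ≤ ((p * Nat.card Ω : ℕ) : ℚ) := by
    rw [Nat.cast_mul, Nat.cast_mul, hcast]
    linarith
  exact_mod_cast this

/-- Sylow numbers of a proper subgroup containing a Sylow subgroup. -/
theorem sylow_number_bound [Fact p.Prime] {G : Type u} [Group G] [Finite G]
    (hgen : Subgroup.closure {g : G | ∃ k : ℕ, orderOf g = p ^ k} = ⊤)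
    (H : Subgroup G) (hH : H ≠ ⊤) (P : Sylow p G) (hP : (P : Subgroup G) ≤ H) :
    (2 * p - 1) * Nat.card (Sylow p ↥H) ≤ (p - 1) * Nat.card (Sylow p G) := by
  haveI : Fintype (G ⧸ H) := Fintype.ofFinite _
  have hgen' : SylGen p G := by
    intro M hM
    rw [eq_top_iff, ← hgen, Subgroup.closure_le]
    rintro x ⟨k, hk⟩
    have hx : IsPGroup p (Subgroup.zpowers x) :=
      IsPGroup.of_card (by rw [Nat.card_zpowers, hk])
    obtain ⟨Q, hQ⟩ := hx.exists_le_sylow
    exact hM Q (hQ (Subgroup.mem_zpowers x))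
  have hfix : ∀ w : G ⧸ H, ∃ g : G, g • w ≠ w := by
    intro w
    induction w using QuotientGroup.induction_on with | H a => ?_
    obtain ⟨y, hy⟩ : ∃ y : G, y ∉ H := by
      by_contra hh
      simp only [not_exists, not_not] at hh
      exact hH (eq_top_iff.mpr fun x _ => hh x)
    refine ⟨a * y * a⁻¹, fun h => hy ?_⟩
    change ((a * y * a⁻¹ * a : G) : G ⧸ H) = (a : G ⧸ H) at h
    rw [QuotientGroup.eq] at h
    simpa [mul_assoc] using inv_mem h
  have hb := fixed_bound (Ω := G ⧸ H) P hgen' hfix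
  set f := (Finset.univ.filter fun w : G ⧸ H => w ∈ (pfix P : Set (G ⧸ H))).card with hf
  set S : Set G := {g | ((g⁻¹ • P : Sylow p G) : Subgroup G) ≤ H} with hSdef
  have hS1 : Nat.card S = Nat.card H * f := by
    have hpre : S = (QuotientGroup.mk : G → G ⧸ H) ⁻¹' (pfix P : Set (G ⧸ H)) := by
      ext g
      constructor
      · intro hg x hx
        change ((x * g : G) : G ⧸ H) = (g : G ⧸ H)
        rw [QuotientGroup.eq]
        have h1 : g⁻¹ * x * g ∈ ((g⁻¹ • P : Sylow p G) : Subgroup G) := by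
          rw [conj_mem_iff]
          simpa [mul_assoc] using hx
        simpa [mul_assoc] using inv_mem (hg h1)
      · intro hg y hy
        rw [conj_mem_iff, inv_inv] at hy
        have h1 : ((g * y * g⁻¹ * g : G) : G ⧸ H) = (g : G ⧸ H) := hg _ hy
        rw [QuotientGroup.eq] at h1
        simpa [mul_assoc] using inv_mem h1
    rw [hpre, Nat.card_congr (QuotientGroup.preimageMkEquivSubgroupProdSet H _), Nat.card_prod]
    congr 1
    rw [hf, Nat.card_eq_fintype_card]
    exact (Fintype.card_subtype _).trans (by simp)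
  have hS2 : Nat.card S = Nat.card (Sylow p ↥H) * Nat.card (stabilizer G P) := by
    haveI : Fintype G := Fintype.ofFinite G
    haveI : Fintype (Sylow p G) := Fintype.ofFinite _
    have e1 : Nat.card (Sylow p ↥H)
        = (Finset.univ.filter fun Q : Sylow p G => (Q : Subgroup G) ≤ H).card := by
      haveI : Fintype (Sylow p H) := Fintype.ofFinite _
      rw [Nat.card_eq_fintype_card, ← Finset.card_univ]
      symm
      refine Finset.card_bij (fun Q hQ => Q.subtype (Finset.mem_filter.mp hQ).2)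
        (fun _ _ => Finset.mem_univ _) (fun Q _ Q' _ h => Sylow.subtype_injective h)
        (fun R _ => ?_)
      obtain ⟨h, hh⟩ := MulAction.exists_smul_eq H (P.subtype hP) R
      have hle : (((h : G) • P : Sylow p G) : Subgroup G) ≤ H := by
        intro x hx
        rw [conj_mem_iff] at hx
        simpa [mul_assoc] using mul_mem (mul_mem h.2 (hP hx)) (inv_mem h.2)
      exact ⟨(h : G) • P, Finset.mem_filter.mpr ⟨Finset.mem_univ _, hle⟩,
        by rw [← hh]; exact (Sylow.smul_subtype hP h).symm⟩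
    rw [e1, Nat.card_eq_fintype_card, ← Finset.card_univ]
    have hSf : (Finset.univ : Finset S).card = (Finset.univ.filter fun g : G => g ∈ S).card :=
      (Fintype.card_subtype _)
    rw [hSf]
    have hfw := Finset.card_eq_sum_card_fiberwise
      (f := fun g : G => g⁻¹ • P) (s := Finset.univ.filter fun g : G => g ∈ S)
      (t := Finset.univ.filter fun Q : Sylow p G => (Q : Subgroup G) ≤ H)
      (fun g hg => Finset.mem_filter.mpr ⟨Finset.mem_univ _, (Finset.mem_filter.mp hg).2⟩)
    rw [hfw, Finset.sum_const_nat]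
    intro Q hQ
    have hQH := (Finset.mem_filter.mp hQ).2
    obtain ⟨a, rfl⟩ := MulAction.exists_smul_eq G P Q
    rw [Nat.card_eq_fintype_card, ← Finset.card_univ]
    refine Finset.card_bij (fun g hg => (⟨(g * a)⁻¹, ?_⟩ : stabilizer G P))
      (fun _ _ => Finset.mem_univ _) (fun g _ g' _ h => by simpa using congrArg Subtype.val h)
      (fun x _ => ⟨(x : G)⁻¹ * a⁻¹, ?_, Subtype.ext (by simp)⟩)
    · have h1 : g⁻¹ • P = a • P := (Finset.mem_filter.mp hg).2
      rw [mem_stabilizer_iff, mul_inv_rev, mul_smul, h1, inv_smul_smul]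
    · have h2 : ((x : G)⁻¹ * a⁻¹)⁻¹ • P = a • P := by
        rw [mul_inv_rev, inv_inv, inv_inv, mul_smul, (mem_stabilizer_iff.mp x.2)]
      refine Finset.mem_filter.mpr ⟨Finset.mem_filter.mpr ⟨Finset.mem_univ _, ?_⟩, h2⟩
      change ((((x : G)⁻¹ * a⁻¹)⁻¹ • P : Sylow p G) : Subgroup G) ≤ H
      rw [h2]
      exact hQH
  have hG : Nat.card G = Nat.card (Sylow p G) * Nat.card (stabilizer G P) := by
    rw [Sylow.card_eq_index_normalizer P, ← Sylow.stabilizer_eq_normalizer P,
      Subgroup.index_mul_card]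
  have hn : Nat.card G = Fintype.card (G ⧸ H) * Nat.card H := by
    rw [← Nat.card_eq_fintype_card]
    exact Subgroup.card_eq_card_quotient_mul_card_subgroup H
  have hst : 0 < Nat.card (stabilizer G P) := Nat.card_pos
  refine Nat.le_of_mul_le_mul_right ?_ hst
  calc (2 * p - 1) * Nat.card (Sylow p ↥H) * Nat.card (stabilizer G P)
      = (2 * p - 1) * f * Nat.card H := by
        rw [mul_assoc, ← hS2, hS1]; ring
    _ ≤ (p - 1) * Fintype.card (G ⧸ H) * Nat.card H := Nat.mul_le_mul_right _ hb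
    _ = (p - 1) * Nat.card (Sylow p G) * Nat.card (stabilizer G P) := by
        rw [mul_assoc, ← hn, hG, mul_assoc]

end CfsgLib.SylowOrbits
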